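import Mathlib
import Cfsg.Agent.Lib.Helper76.S8Glue

/-!
# S3589 piece BLOCKPM (second seat): block sum `H^k ⊥ (H^m ⊥ N) = H^(k+m) ⊥ N`
-/

set_option autoImplicit false

namespace Cfsg.Agent.Lib.Helper76.S8BLOCKPM

open Cfsg.Agent.Lib.Helper45.S8Stmt Cfsg.Agent.Lib.Helper76.S8Glue

universe u

/-- the block-sum linear equivalence `H^k × (H^m ⊥ N) ≃ H^(k+m) ⊥ N` -/
def T (F : Type u) [Field F] (k m : ℕ) :
    ((Fin k ⊕ Fin k → F) × ((Fin m ⊕ Fin m) ⊕ Fin 2 → F)) ≃ₗ[F]
      ((Fin (k + m) ⊕ Fin (k + m)) ⊕ Fin 2 → F) where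
  toFun p := Sum.elim (Sum.elim
    (fun i => Fin.addCases (fun i₁ => p.1 (Sum.inl i₁)) (fun i₂ => p.2 (Sum.inl (Sum.inl i₂))) i)
    (fun i => Fin.addCases (fun i₁ => p.1 (Sum.inr i₁)) (fun i₂ => p.2 (Sum.inl (Sum.inr i₂))) i))
    (fun j => p.2 (Sum.inr j))
  invFun v :=
    (Sum.elim (fun i => v (Sum.inl (Sum.inl (Fin.castAdd m i))))
        (fun i => v (Sum.inl (Sum.inr (Fin.castAdd m i)))),
      Sum.elim (Sum.elim (fun i => v (Sum.inl (Sum.inl (Fin.natAdd k i))))
        (fun i => v (Sum.inl (Sum.inr (Fin.natAdd k i))))) (fun j => v (Sum.inr j)))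
  map_add' p q := by
    funext x
    rcases x with (i | i) | j
    · refine Fin.addCases (fun j => ?_) (fun j => ?_) i <;> simp
    · refine Fin.addCases (fun j => ?_) (fun j => ?_) i <;> simp
    · simp
  map_smul' c p := by
    funext x
    rcases x with (i | i) | j
    · refine Fin.addCases (fun j => ?_) (fun j => ?_) i <;> simp
    · refine Fin.addCases (fun j => ?_) (fun j => ?_) i <;> simp
    · simp
  left_inv p := by
    apply Prod.ext
    · funext x
      rcases x with i | i <;> simp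
    · funext x
      rcases x with (i | i) | j <;> simp
  right_inv v := by
    funext x
    rcases x with (i | i) | j
    · refine Fin.addCases (fun j => ?_) (fun j => ?_) i <;> simp
    · refine Fin.addCases (fun j => ?_) (fun j => ?_) i <;> simp
    · simp

theorem main : BlockPM.{u} := by
  intro F _ k m a b N₁ N₂ h₁ h₂
  refine glue _ _ _ (T F k m) ?_ N₁ N₂ h₁ h₂
  intro u w
  unfold Cfsg.quadFormPlus Cfsg.quadFormMinus
  rw [Fin.sum_univ_add]
  simp [T, add_assoc]

#print axioms main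

end Cfsg.Agent.Lib.Helper76.S8BLOCKPM
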