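import Mathlib
import Cfsg.Agent.Lib.Helper25.ACStmt

set_option autoImplicit false

/-!
# S3912 / P2CENT  (helper76, second seat)

A 2-group with a unique involution `z` and all commutators in `{1, z}`: an element commuting with
two non-commuting elements `x`, `y` is `1` or `z`.

Route (no cyclic-group arithmetic): `x ^ 2`, `y ^ 2` commute, so by `CycChain` (wlog)
`y ^ 2 = s * s` with `s` a power of `x`; `w = y * s⁻¹` has `w * w ∈ {1, z}`; `w * w = 1` makes `y`
commute with `x`; if `w * w = z` then `CycChain` for `(w, x ^ 2)` gives `x ^ 2 ∈ {1, z}`, and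
`c ∈ zpowers x` (`CycChain` for `(c, x)`) is an even power of `x`.
-/

namespace Cfsg.Agent.Lib.Helper76.ACP2CENT

open Cfsg.Agent.Lib.Helper25.ACStmt

universe u

section
variable {P : Type u} [Group P]

theorem zsq_of_pgroup (hP : IsPGroup 2 P) {z : P}
    (hu : ∀ x : P, x ^ 2 = 1 → x = 1 ∨ x = z) : z ^ 2 = 1 := by
  obtain ⟨n, hn⟩ := hP z
  induction n with
  | zero =>
    have h1 : z = 1 := by simpa using hn
    rw [h1, one_pow]
  | succ n ih =>
    have h1 : (z ^ 2 ^ n) ^ 2 = 1 := by rw [← pow_mul, ← pow_succ]; exact hn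
    rcases hu _ h1 with h | h
    · exact ih h
    · rw [h] at h1; exact h1

theorem z_central {z : P} (hz1 : z ≠ 1) (hz2 : z ^ 2 = 1)
    (hu : ∀ x : P, x ^ 2 = 1 → x = 1 ∨ x = z) (g : P) : g * z = z * g := by
  have h1 : (g * z * g⁻¹) ^ 2 = 1 := by
    have h2 : (g * z * g⁻¹) ^ 2 = g * (z ^ 2) * g⁻¹ := by
      rw [pow_two, pow_two]; group
    rw [h2, hz2]; group
  rcases hu _ h1 with h | h
  · exfalso; apply hz1
    have h3 : z = g⁻¹ * (g * z * g⁻¹) * g := by group
    rw [h3, h]; group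
  · calc g * z = (g * z * g⁻¹) * g := by group
      _ = z * g := by rw [h]

theorem zpow_mem {z : P} (hz2 : z ^ 2 = 1) (i : ℤ) : z ^ i = 1 ∨ z ^ i = z := by
  have hz2' : z ^ (2 : ℤ) = 1 := by rw [zpow_two, ← pow_two]; exact hz2
  obtain ⟨m, hm | hm⟩ := Int.even_or_odd' i
  · left; rw [hm, zpow_mul, hz2', one_zpow]
  · right; rw [hm, zpow_add, zpow_mul, hz2', one_zpow, one_mul, zpow_one]

theorem rel_of_ne {z : P}
    (hcom : ∀ a b : P, a * b * a⁻¹ * b⁻¹ = 1 ∨ a * b * a⁻¹ * b⁻¹ = z)
    {x y : P} (hxy : x * y ≠ y * x) : x * y = z * y * x := by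
  rcases hcom x y with h | h
  · exfalso; apply hxy
    calc x * y = (x * y * x⁻¹ * y⁻¹) * y * x := by group
      _ = y * x := by rw [h, one_mul]
  · calc x * y = (x * y * x⁻¹ * y⁻¹) * y * x := by group
      _ = z * y * x := by rw [h]

theorem sq_comm {z : P} (hz2 : z ^ 2 = 1) (hzc : ∀ g : P, g * z = z * g)
    {x y : P} (hxyz : x * y = z * y * x) : Commute (x ^ 2) y := by
  have hzz : z * z = 1 := by rw [← pow_two]; exact hz2
  have h2 : x * (z * y) = y * x := by
    calc x * (z * y) = (x * z) * y := (mul_assoc _ _ _).symm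
      _ = (z * x) * y := by rw [hzc x]
      _ = z * (x * y) := mul_assoc _ _ _
      _ = z * (z * y * x) := by rw [hxyz]
      _ = (z * z) * y * x := by group
      _ = y * x := by rw [hzz, one_mul]
  show x ^ 2 * y = y * x ^ 2
  calc x ^ 2 * y = x * (x * y) := by rw [pow_two, mul_assoc]
    _ = x * (z * y * x) := by rw [hxyz]
    _ = (x * (z * y)) * x := by group
    _ = y * x * x := by rw [h2]
    _ = y * x ^ 2 := by rw [pow_two, mul_assoc]

theorem key (hC : CycChain.{u}) [Finite P] (hP : IsPGroup 2 P) {z : P} (hz1 : z ≠ 1)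
    (hu : ∀ x : P, x ^ 2 = 1 → x = 1 ∨ x = z)
    (hcom : ∀ a b : P, a * b * a⁻¹ * b⁻¹ = 1 ∨ a * b * a⁻¹ * b⁻¹ = z)
    {x y : P} (hxy : x * y ≠ y * x) (hmem : y ^ 2 ∈ Subgroup.zpowers (x ^ 2))
    {c : P} (hcx : c * x = x * c) (hcy : c * y = y * c) : c = 1 ∨ c = z := by
  have hz2 : z ^ 2 = 1 := zsq_of_pgroup hP hu
  have hzc : ∀ g : P, g * z = z * g := z_central hz1 hz2 hu
  have hxyz : x * y = z * y * x := rel_of_ne hcom hxy
  have hx2y : Commute (x ^ 2) y := sq_comm hz2 hzc hxyz
  obtain ⟨k, hk⟩ := Subgroup.mem_zpowers_iff.1 hmem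
  obtain ⟨s, hs⟩ : ∃ s : P, s = x ^ k := ⟨_, rfl⟩
  have hsx : Commute s x := by rw [hs]; exact (Commute.refl x).zpow_left k
  have hyy : y * y = s * s := by
    rw [← pow_two, ← hk, pow_two, (Commute.refl x).mul_zpow, hs]
  obtain ⟨w, hw⟩ : ∃ w : P, w = y * s⁻¹ := ⟨_, rfl⟩
  -- `w * w ∈ {1, z}`
  have hww : w * w = 1 ∨ w * w = z := by
    rcases hcom s y with h | h
    · left
      have hsy : s * y = y * s := by
        calc s * y = (s * y * s⁻¹ * y⁻¹) * y * s := by group
          _ = y * s := by rw [h, one_mul]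
      have hc : Commute y s⁻¹ := Commute.inv_right (show Commute y s from hsy.symm)
      have h3 : (y * s⁻¹) ^ 2 = y ^ 2 * (s⁻¹) ^ 2 := hc.mul_pow 2
      rw [hw, ← pow_two, h3, inv_pow, pow_two, pow_two, hyy, mul_inv_cancel]
    · right
      have e1 : y * s⁻¹ = s⁻¹ * z * y := by rw [← h]; group
      calc w * w = (y * s⁻¹) * (y * s⁻¹) := by rw [hw]
        _ = (s⁻¹ * z * y) * (y * s⁻¹) := congrArg (fun u => u * (y * s⁻¹)) e1
        _ = s⁻¹ * z * (y * y) * s⁻¹ := by group
        _ = s⁻¹ * z * (s * s) * s⁻¹ := by rw [hyy]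
        _ = s⁻¹ * (z * s) := by group
        _ = s⁻¹ * (s * z) := by rw [hzc s]
        _ = z := by group
  rcases hww with hww | hww
  · -- `w ∈ {1, z}`: `y` commutes with `x`
    exfalso; apply hxy
    rcases hu w (by rw [pow_two]; exact hww) with h | h
    · have hys : y = s := by
        rw [hw] at h
        exact mul_inv_eq_one.1 h
      rw [hys]; exact hsx.symm.eq
    · have hys : y = z * s := by
        rw [hw] at h
        exact mul_inv_eq_iff_eq_mul.1 h
      rw [hys]
      calc x * (z * s) = (x * z) * s := (mul_assoc _ _ _).symm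
        _ = (z * x) * s := by rw [hzc x]
        _ = z * (x * s) := mul_assoc _ _ _
        _ = z * (s * x) := by rw [hsx.symm.eq]
        _ = z * s * x := (mul_assoc _ _ _).symm
  · -- `w * w = z`
    have hwx : ¬ (w * x = x * w) := by
      intro h
      apply hxy
      rw [hw] at h
      have h1 : y * s⁻¹ * x = y * x * s⁻¹ := by
        rw [mul_assoc, (hsx.inv_left).eq, ← mul_assoc]
      have h2 : y * x * s⁻¹ = x * y * s⁻¹ := by rw [← h1, h, mul_assoc]
      exact (mul_right_cancel h2).symm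
    have hwx2 : Commute w (x ^ 2) := by
      rw [hw]
      exact Commute.mul_left hx2y.symm ((hsx.pow_right 2).inv_left)
    have hx2 : x ^ 2 = 1 ∨ x ^ 2 = z := by
      rcases hC P hP z hz1 hu w (x ^ 2) hwx2.eq with h | h
      · exfalso
        obtain ⟨j, hj⟩ := Subgroup.mem_zpowers_iff.1 h
        apply hwx
        rw [← hj]
        exact (((Commute.refl x).pow_left 2).zpow_left j).eq
      · obtain ⟨j, hj⟩ := Subgroup.mem_zpowers_iff.1 h
        obtain ⟨i, hi | hi⟩ := Int.even_or_odd' j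
        · rw [hi, zpow_mul, zpow_two, hww] at hj
          rw [← hj]; exact zpow_mem hz2 i
        · exfalso
          rw [hi, zpow_add, zpow_mul, zpow_one, zpow_two, hww] at hj
          have hw' : w = (z ^ i)⁻¹ * x ^ 2 := eq_inv_mul_of_mul_eq hj
          apply hwx
          rw [hw']
          have hzx : Commute z x := (hzc x).symm
          exact (Commute.mul_left (hzx.zpow_left i).inv_left ((Commute.refl x).pow_left 2)).eq
    rcases hC P hP z hz1 hu c x hcx with h | h
    · obtain ⟨a, ha⟩ := Subgroup.mem_zpowers_iff.1 h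
      obtain ⟨i, hi | hi⟩ := Int.even_or_odd' a
      · rw [hi, zpow_mul, zpow_two, ← pow_two] at ha
        rcases hx2 with h1 | h1
        · left; rw [← ha, h1, one_zpow]
        · rw [← ha, h1]; exact zpow_mem hz2 i
      · exfalso
        rw [hi, zpow_add, zpow_mul, zpow_one, zpow_two, ← pow_two] at ha
        have hxe : x = ((x ^ 2) ^ i)⁻¹ * c := eq_inv_mul_of_mul_eq ha
        apply hxy
        have hcy' : Commute c y := hcy
        have : Commute (((x ^ 2) ^ i)⁻¹ * c) y :=
          Commute.mul_left (hx2y.zpow_left i).inv_left hcy'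
        rw [← hxe] at this
        exact this.eq
    · exfalso
      obtain ⟨j, hj⟩ := Subgroup.mem_zpowers_iff.1 h
      apply hxy
      have hcy' : Commute c y := hcy
      have : Commute (c ^ j) y := hcy'.zpow_left j
      rw [hj] at this
      exact this.eq

end

theorem main (hC : CycChain.{u}) : P2Cent.{u} := by
  intro P _ _ hP z hz1 hu hcom x y hxy c hcx hcy
  have hz2 : z ^ 2 = 1 := zsq_of_pgroup hP hu
  have hzc : ∀ g : P, g * z = z * g := z_central hz1 hz2 hu
  have hx2y : Commute (x ^ 2) y := sq_comm hz2 hzc (rel_of_ne hcom hxy)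
  have h22 : Commute (x ^ 2) (y ^ 2) := hx2y.pow_right 2
  rcases hC P hP z hz1 hu (x ^ 2) (y ^ 2) h22.eq with h | h
  · exact key hC hP hz1 hu hcom (x := y) (y := x) (fun e => hxy e.symm) h hcy hcx
  · exact key hC hP hz1 hu hcom hxy h hcx hcy

#print axioms main

end Cfsg.Agent.Lib.Helper76.ACP2CENT
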