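import Mathlib
import Cfsg.Agent.Lib.Helper25.ACStmt
import Cfsg.Agent.Lib.Helper72.CoprimeHall
import Cfsg.Agent.Lib.Helper76.ACP2CENT

set_option autoImplicit false

/-!
# S3912 / EXV  (helper76, second seat)

`Q` solvable without nontrivial normal subgroups of odd order, `z` its unique involution,
`Q ≠ {1, z}`: a normal 2-subgroup `V ⊋ {1, z}` with `v ^ 2 ∈ {1, z}` on `V`.
-/

namespace Cfsg.Agent.Lib.Helper76.ACEXV

open Cfsg.Agent.Lib.Helper25.ACStmt

universe u

/-- `Ω₁(Z(N))` as a subgroup of the ambient group. -/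
def omegaCen {H : Type u} [Group H] (N : Subgroup H) : Subgroup H where
  carrier := {x | x ∈ N ∧ x ^ 2 = 1 ∧ ∀ y ∈ N, x * y = y * x}
  mul_mem' := by
    rintro a b ⟨ha, ha2, hac⟩ ⟨hb, hb2, hbc⟩
    refine ⟨N.mul_mem ha hb, ?_, ?_⟩
    · have hab : Commute a b := hac b hb
      rw [hab.mul_pow, ha2, hb2, one_mul]
    · intro y hy
      rw [mul_assoc, hbc y hy, ← mul_assoc, hac y hy, mul_assoc]
  one_mem' := ⟨N.one_mem, one_pow 2, fun y _ => by rw [one_mul, mul_one]⟩
  inv_mem' := by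
    rintro a ⟨ha, ha2, hac⟩
    refine ⟨N.inv_mem ha, by rw [inv_pow, ha2, inv_one], ?_⟩
    intro y hy
    have h : Commute a y := hac y hy
    exact h.inv_left.eq

theorem omegaCen_normal {H : Type u} [Group H] (N : Subgroup H) (hN : N.Normal) :
    (omegaCen N).Normal := by
  constructor
  rintro a ⟨ha, ha2, hac⟩ g
  refine ⟨hN.conj_mem a ha g, ?_, ?_⟩
  · rw [conj_pow, ha2, mul_one, mul_inv_cancel]
  · intro y hy
    have hy' : g⁻¹ * y * g ∈ N := by
      have := hN.conj_mem y hy g⁻¹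
      simpa using this
    have h := hac _ hy'
    calc g * a * g⁻¹ * y = g * (a * (g⁻¹ * y * g)) * g⁻¹ := by group
      _ = g * ((g⁻¹ * y * g) * a) * g⁻¹ := by rw [h]
      _ = y * (g * a * g⁻¹) := by group

theorem omegaCen_ne_bot {H : Type u} [Group H] [Finite H] (N : Subgroup H) (hN : IsPGroup 2 N)
    (hN1 : N ≠ ⊥) : ∃ c ∈ omegaCen N, c ≠ 1 := by
  haveI : Fact (Nat.Prime 2) := ⟨Nat.prime_two⟩
  haveI : Nontrivial ↥N := (Subgroup.nontrivial_iff_ne_bot N).2 hN1
  haveI : Nontrivial (Subgroup.center ↥N) := hN.center_nontrivial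
  obtain ⟨n, hn⟩ := IsPGroup.iff_card.1 (hN.to_subgroup (Subgroup.center ↥N))
  have h2dvd : 2 ∣ Nat.card (Subgroup.center ↥N) := by
    rw [hn]
    rcases Nat.eq_zero_or_pos n with h0 | h0
    · exfalso
      have h1 := Finite.one_lt_card (α := Subgroup.center ↥N)
      rw [hn, h0] at h1
      simp at h1
    · exact dvd_pow_self 2 h0.ne'
  obtain ⟨c, hc⟩ := exists_prime_orderOf_dvd_card' (G := Subgroup.center ↥N) 2 h2dvd
  have hc2 : c ^ 2 = 1 := by rw [← hc]; exact pow_orderOf_eq_one c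
  have hc1 : c ≠ 1 := by
    intro h; rw [h, orderOf_one] at hc; omega
  refine ⟨((c : ↥N) : H), ⟨(c : ↥N).2, ?_, ?_⟩, ?_⟩
  · have := congrArg (fun t : Subgroup.center ↥N => ((t : ↥N) : H)) hc2
    simpa using this
  · intro y hy
    have h := Subgroup.mem_center_iff.1 c.2 ⟨y, hy⟩
    have := congrArg (fun t : ↥N => (t : H)) h
    simpa using this.symm
  · intro h
    apply hc1
    apply Subtype.ext
    apply Subtype.ext
    simpa using h

theorem main : ExV.{u} := by
  intro Q _ _ hsol hodd z hz hzu hex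
  classical
  haveI := hsol
  have hz2 : z ^ 2 = 1 := by rw [← hz]; exact pow_orderOf_eq_one z
  have hzc : ∀ g : Q, g * z * g⁻¹ = z := by
    intro g
    apply hzu
    have h := orderOf_injective (MulAut.conj g).toMonoidHom (MulAut.conj g).injective z
    rw [hz] at h
    simpa using h
  have hZn : (Subgroup.zpowers z).Normal := by
    constructor
    intro n hn g
    obtain ⟨i, rfl⟩ := Subgroup.mem_zpowers_iff.1 hn
    rw [← conj_zpow, hzc g]
    exact Subgroup.zpow_mem_zpowers z i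
  have hZmem : ∀ x : Q, x ∈ Subgroup.zpowers z → x = 1 ∨ x = z := by
    intro x hx
    obtain ⟨i, rfl⟩ := Subgroup.mem_zpowers_iff.1 hx
    exact Cfsg.Agent.Lib.Helper76.ACP2CENT.zpow_mem hz2 i
  obtain ⟨Z, hZ⟩ : ∃ Z : Subgroup Q, Z = Subgroup.zpowers z := ⟨_, rfl⟩
  rw [← hZ] at hZn hZmem
  haveI := hZn
  have hzZ : z ∈ Z := by rw [hZ]; exact Subgroup.mem_zpowers z
  have hZcard : Nat.card Z = 2 := by rw [hZ, Nat.card_zpowers, hz]
  obtain ⟨x0, hx01, hx0z⟩ := hex
  have hx0 : ((x0 : Q) : Q ⧸ Z) ≠ 1 := by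
    intro h
    rcases hZmem x0 ((QuotientGroup.eq_one_iff x0).1 h) with h1 | h1
    · exact hx01 h1
    · exact hx0z h1
  haveI : Nontrivial (Q ⧸ Z) := ⟨⟨_, _, hx0⟩⟩
  have htop : (⊤ : Subgroup (Q ⧸ Z)) ≠ ⊥ := by
    intro h
    apply hx0
    have : ((x0 : Q) : Q ⧸ Z) ∈ (⊥ : Subgroup (Q ⧸ Z)) := by rw [← h]; trivial
    simpa using this
  haveI : Group.IsSolvable (Q ⧸ Z) := inferInstance
  haveI : Group.IsSolvable ↥(⊤ : Subgroup (Q ⧸ Z)) :=
    solvable_of_solvable_injective (Subgroup.subtype_injective _)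
  obtain ⟨s, N, hs, hNn, _, hNp, hN1⟩ :=
    Cfsg.Agent.Lib.Helper72.CoprimeHall.exists_normal_pgroup (⊤ : Subgroup (Q ⧸ Z)) htop
  by_cases hs2 : s = 2
  · subst hs2
    obtain ⟨c, hcV, hc1⟩ := omegaCen_ne_bot N hNp hN1
    have hVn : (omegaCen N).Normal := omegaCen_normal N hNn
    have hsq : ∀ v : Q, (QuotientGroup.mk' Z) v ∈ omegaCen N → v ^ 2 = 1 ∨ v ^ 2 = z := by
      intro v hv
      have h1 : (QuotientGroup.mk' Z) v ^ 2 = 1 := hv.2.1
      rw [← map_pow] at h1
      exact hZmem _ ((QuotientGroup.eq_one_iff (v ^ 2)).1 h1)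
    refine ⟨(omegaCen N).comap (QuotientGroup.mk' Z), hVn.comap _, ?_, ?_, ?_⟩
    · rintro ⟨v, hv⟩
      refine ⟨2, Subtype.ext ?_⟩
      have h4 : v ^ 4 = 1 := by
        rcases hsq v hv with h | h
        · rw [show (4 : ℕ) = 2 * 2 from rfl, pow_mul, h, one_pow]
        · rw [show (4 : ℕ) = 2 * 2 from rfl, pow_mul, h, hz2]
      simpa using h4
    · obtain ⟨v, hv⟩ := QuotientGroup.mk'_surjective Z c
      refine ⟨v, ?_, ?_, ?_⟩
      · show (QuotientGroup.mk' Z) v ∈ omegaCen N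
        rw [hv]; exact hcV
      · intro h; apply hc1; rw [← hv, h, map_one]
      · intro h; apply hc1; rw [← hv, h]
        exact (QuotientGroup.eq_one_iff z).2 hzZ
    · intro v hv
      exact hsq v hv
  · exfalso
    haveI : Fact s.Prime := ⟨hs⟩
    obtain ⟨Y, hY⟩ : ∃ Y : Subgroup Q, Y = N.comap (QuotientGroup.mk' Z) := ⟨_, rfl⟩
    haveI hYn : Y.Normal := by rw [hY]; exact hNn.comap _
    obtain ⟨k, hk⟩ := IsPGroup.iff_card.1 hNp
    have hk0 : k ≠ 0 := by
      intro h0
      rw [h0, pow_zero] at hk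
      exact hN1 (Subgroup.card_eq_one.1 hk)
    have hYcard : Nat.card Y = s ^ k * 2 := by
      have h1 : Y.index = N.index := by
        rw [hY]; exact Subgroup.index_comap_of_surjective N (QuotientGroup.mk'_surjective Z)
      have h2 := Subgroup.card_mul_index Y
      have h3 := Subgroup.card_mul_index N
      have h4 := Subgroup.card_eq_card_quotient_mul_card_subgroup Z
      have h5 : N.index ≠ 0 := Subgroup.index_ne_zero_of_finite
      rw [h1] at h2
      rw [hZcard, ← h3, hk] at h4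
      have h6 : Nat.card Y * N.index = s ^ k * 2 * N.index := by rw [h2, h4]; ring
      exact Nat.eq_of_mul_eq_mul_right (Nat.pos_of_ne_zero h5) h6
    obtain ⟨P⟩ : Nonempty (Sylow s ↥Y) := Sylow.nonempty
    have hPcard : Nat.card (P : Subgroup ↥Y) = s ^ k := by
      apply Nat.dvd_antisymm
      · obtain ⟨j, hj⟩ := IsPGroup.iff_card.1 P.isPGroup'
        have hd : Nat.card (P : Subgroup ↥Y) ∣ s ^ k * 2 := by
          rw [← hYcard]; exact Subgroup.card_subgroup_dvd_card _
        have hcop : (Nat.card (P : Subgroup ↥Y)).Coprime 2 := by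
          rw [hj]; exact Nat.Coprime.pow_left j ((Nat.coprime_primes hs Nat.prime_two).2 hs2)
        exact hcop.dvd_of_dvd_mul_right hd
      · exact P.pow_dvd_card_of_pow_dvd_card (by rw [hYcard]; exact dvd_mul_right _ _)
    have hPidx : (P : Subgroup ↥Y).index = 2 := by
      have h := Subgroup.index_mul_card (P : Subgroup ↥Y)
      rw [hPcard, hYcard] at h
      have hpos : 0 < s ^ k := pow_pos hs.pos k
      exact Nat.eq_of_mul_eq_mul_right hpos (by rw [h]; ring)
    have hn1 : Nat.card (Sylow s ↥Y) = 1 := by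
      have hd : Nat.card (Sylow s ↥Y) ∣ 2 := by rw [← hPidx]; exact P.card_dvd_index
      have hm : Nat.card (Sylow s ↥Y) ≡ 1 [MOD s] := card_sylow_modEq_one s ↥Y
      rcases (Nat.dvd_prime Nat.prime_two).1 hd with h | h
      · exact h
      · exfalso
        rw [h] at hm
        have h7 : s ∣ 2 - 1 := (Nat.modEq_iff_dvd' (by norm_num)).1 hm.symm
        have h8 : s = 1 := Nat.dvd_one.1 (by simpa using h7)
        exact hs.one_lt.ne' h8
    haveI : Subsingleton (Sylow s ↥Y) := (Nat.card_eq_one_iff_unique.1 hn1).1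
    have hSn : ((P : Subgroup ↥Y).map Y.subtype).Normal := inferInstance
    have hScard : Nat.card ((P : Subgroup ↥Y).map Y.subtype) = s ^ k := by
      rw [Subgroup.card_map_of_injective Y.subtype_injective]
      exact hPcard
    have hSodd : Odd (Nat.card ((P : Subgroup ↥Y).map Y.subtype)) := by
      rw [hScard]
      exact Odd.pow (hs.odd_of_ne_two hs2)
    have hbot := hodd _ hSn hSodd
    rw [hbot, Subgroup.card_bot] at hScard
    have : 1 < s ^ k := Nat.one_lt_pow hk0 hs.one_lt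
    omega

#print axioms main

end Cfsg.Agent.Lib.Helper76.ACEXV
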