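import Mathlib
import Cfsg.Prelude.Def_Blocks
import Cfsg.Agent.Lib.CT.Wedderburn
import Cfsg.Agent.Lib.CT.Ops
import Cfsg.Agent.Lib.CT.Kernel
import Cfsg.Agent.Lib.Helper49.BrR3
import Cfsg.Agent.Lib.Helper49.BrR5
import Cfsg.Agent.Lib.Helper1.BrR1
import Cfsg.Agent.Lib.Helper67.BrL24
import Cfsg.Agent.Lib.Helper74.BrauerMain
import Cfsg.Agent.Lib.Helper76.BrRBStmt

/-!
# S4504, piece R1: the restriction of `χ` to the normal closure of `P` is irreducible
-/

set_option autoImplicit false
set_option linter.style.haveILetI false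

namespace Cfsg.Agent.Lib.Helper76.BrRBR1

open Cfsg Cfsg.Agent.Lib.CT Cfsg.Agent.Lib.CT.Wedderburn Cfsg.Agent.Lib.CT.Ops
open scoped ComplexConjugate

universe u

/-- Piece `R1` of S4504. -/
theorem main : Cfsg.Agent.Lib.Helper76.BrRB.R1.{u} := by
  intro G _ _ p _ P hP hPnn χ hχ hfaith hdeg
  classical
  by_contra hirr
  apply hPnn
  have hle : (P : Subgroup G) ≤ Subgroup.normalClosure ((P : Subgroup G) : Set G) :=
    Subgroup.le_normalClosure
  have hQcard : Nat.card (P.subtype hle : Sylow p ↥(Subgroup.normalClosure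
      ((P : Subgroup G) : Set G))) = p := by
    have e : Nat.card ↥((P : Subgroup G).subgroupOf (Subgroup.normalClosure
        ((P : Subgroup G) : Set G))) = Nat.card ↥(P : Subgroup G) :=
      Nat.card_congr (Subgroup.subgroupOfEquivOfLe hle).toEquiv
    exact e.trans hP
  have hgenQ := Cfsg.Agent.Lib.Helper1.BrR1.normalClosure_subtype_eq_top p P hle
  letI : Fintype ↥(Subgroup.normalClosure ((P : Subgroup G) : Set G)) := Fintype.ofFinite _
  have hχL : IsCharacter ↥(Subgroup.normalClosure ((P : Subgroup G) : Set G))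
      (fun l : ↥(Subgroup.normalClosure ((P : Subgroup G) : Set G)) => χ (l : G)) :=
    isCharacter_restrict _ hχ
  have hfaithL : ∀ l : ↥(Subgroup.normalClosure ((P : Subgroup G) : Set G)),
      (fun l : ↥(Subgroup.normalClosure ((P : Subgroup G) : Set G)) => χ (l : G)) l =
        (fun l : ↥(Subgroup.normalClosure ((P : Subgroup G) : Set G)) => χ (l : G)) 1 → l = 1 :=
    fun l h => Subtype.ext (hfaith _ h)
  have hdegL : charDegree (fun l : ↥(Subgroup.normalClosure ((P : Subgroup G) : Set G)) =>
      χ (l : G)) = charDegree χ := rfl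
  have hcent : ∀ u : G, u ∈ (P : Subgroup G) → ∀ l : G,
      l ∈ Subgroup.normalClosure ((P : Subgroup G) : Set G) → u * l = l * u := by
    intro u hu l hl
    have hcomm := Cfsg.Agent.Lib.Helper49.BrR3.comm_of_constituents
      (fun l : ↥(Subgroup.normalClosure ((P : Subgroup G) : Set G)) => χ (l : G)) hχL hfaithL
      ⟨u, hle hu⟩ ?_ ⟨l, hl⟩
    · exact congrArg Subtype.val hcomm
    · intro ξ hξ
      have hd := Cfsg.Agent.Lib.Helper49.BrR3.degree_le_of_constituent _ hχL ξ hξ
      have hlt : charDegree (ξ : ↥(Subgroup.normalClosure ((P : Subgroup G) : Set G)) → ℂ) <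
          charDegree (fun l : ↥(Subgroup.normalClosure ((P : Subgroup G) : Set G)) =>
            χ (l : G)) := by
        rcases hd.lt_or_eq with h | h
        · exact h
        · exfalso
          apply hirr
          obtain ⟨hsum, -⟩ := Cfsg.Agent.Lib.Helper67.BrL24.eq_sum_of_degree_le
            (fun l : ↥(Subgroup.normalClosure ((P : Subgroup G) : Set G)) => χ (l : G)) hχL {ξ}
            (fun φ hφ => by rw [Finset.mem_singleton.mp hφ]; exact hξ)
            (by rw [Finset.sum_singleton, h])
          have hfun : (fun l : ↥(Subgroup.normalClosure ((P : Subgroup G) : Set G)) =>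
              χ (l : G)) = (ξ : ↥(Subgroup.normalClosure ((P : Subgroup G) : Set G)) → ℂ) := by
            funext l
            have h1 := hsum l
            rw [Finset.sum_singleton] at h1
            exact h1
          rw [hfun]
          exact ξ.2
      rw [hdegL] at hlt
      have hdeg' : 2 * charDegree (ξ : ↥(Subgroup.normalClosure ((P : Subgroup G) : Set G)) → ℂ)
          + 1 < p := by omega
      refine Cfsg.Agent.Lib.Helper74.BrauerMain.core p (P.subtype hle) hQcard hgenQ ξ hdeg'
        ⟨u, hle hu⟩ ?_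
      show (⟨u, hle hu⟩ : ↥(Subgroup.normalClosure ((P : Subgroup G) : Set G))) ∈
        (P : Subgroup G).subgroupOf (Subgroup.normalClosure ((P : Subgroup G) : Set G))
      rw [Subgroup.mem_subgroupOf]
      exact hu
  exact Cfsg.Agent.Lib.Helper49.BrR5.normal_of_central_in_normalClosure p P hcent

end Cfsg.Agent.Lib.Helper76.BrRBR1

#print axioms Cfsg.Agent.Lib.Helper76.BrRBR1.main
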