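import Mathlib
import Cfsg.Agent.Lib.Helper80.BrT1core
import Cfsg.Agent.Lib.Helper76.BrRBStmt

/-!
# S4504, piece T1B: `Helper80.BrT1core.small_degree_core` with `2 ξ(1) + 1 ≤ p`

A copy of the proof of `Helper80.BrT1core.core_aux` with one more case: at the boundary
`2 ξ(1) + 1 = p` the character `ξ|_C` may be the sum of the characters `(ψ ∘ π) θ` with `ψ` in the
*other* class (then `|T : C| = (p - 1) / 2` and `θ` is linear).
-/

set_option autoImplicit false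
set_option linter.unusedSectionVars false
set_option linter.style.haveILetI false
set_option linter.unusedVariables false
set_option maxHeartbeats 4000000

namespace Cfsg.Agent.Lib.Helper76.BrRBT1B

open Cfsg Cfsg.Agent.Lib.CT Cfsg.Agent.Lib.CT.Wedderburn
  Cfsg.Agent.Lib.Helper80.DefOneLoc Cfsg.Agent.Lib.Helper80.DefOneCol
  Cfsg.Agent.Lib.Helper80.DefOneGram Cfsg.Agent.Lib.Helper80.DefOneRow
  Cfsg.Agent.Lib.Helper80.AbSylowCh
open scoped ComplexConjugate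

universe u

variable {G : Type u} [Group G]

section L1

open Cfsg.Agent.Lib.CT.Clifford Cfsg.Agent.Lib.CT.Ops Cfsg.Agent.Lib.CT.LinChar

/-- [L1] with the weaker hypothesis `Φ(1) < p - 1`. -/
theorem trivial_of_const' [Finite G] (p : ℕ) [Fact p.Prime] (P : Sylow p G) (hP : Nat.card P = p)
    (Φ : G → ℂ) (hΦ : IsCharacter G Φ) (hdeg : charDegree Φ < p - 1) (c : ℂ)
    (hc : ∀ u : G, u ∈ (P : Subgroup G) → u ≠ 1 → Φ u = c) :
    ∀ u : G, u ∈ (P : Subgroup G) → Φ u = Φ 1 := by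
  classical
  have hp : p.Prime := Fact.out
  letI : Fintype ↥(P : Subgroup G) := Fintype.ofFinite _
  have hP' : Nat.card ↥(P : Subgroup G) = p := hP
  have hcyc : IsCyclic ↥(P : Subgroup G) := isCyclic_of_prime_card hP'
  have hnt : Nontrivial ↥(P : Subgroup G) := by
    rw [← Finite.one_lt_card_iff_nontrivial, hP']; exact hp.one_lt
  obtain ⟨u₀, hu₀⟩ := exists_ne (1 : ↥(P : Subgroup G))
  -- a non-trivial linear character of `P`
  obtain ⟨ψ, hψ⟩ : ∃ ψ : ↥(P : Subgroup G) →* ℂˣ, ψ u₀ ≠ 1 := by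
    letI : CommGroup ↥(P : Subgroup G) := IsCyclic.commGroup
    have : NeZero (Monoid.exponent ↥(P : Subgroup G)) := ⟨Monoid.exponent_ne_zero_of_finite⟩
    exact CommGroup.exists_apply_ne_one_of_hasEnoughRootsOfUnity _ ℂ hu₀
  have hres : IsCharacter ↥(P : Subgroup G) (fun u : ↥(P : Subgroup G) => Φ (u : G)) :=
    isCharacter_restrict (P : Subgroup G) hΦ
  obtain ⟨a₁, ha₁⟩ := classInner_char_nat hres (isCharacter_of_hom (1 : ↥(P : Subgroup G) →* ℂˣ))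
  obtain ⟨a, ha⟩ := classInner_char_nat hres (isCharacter_of_hom ψ)
  have hF : ∀ u : ↥(P : Subgroup G), u ≠ 1 → Φ (u : G) = c := by
    intro u hu
    exact hc (u : G) u.2 (fun h => hu (Subtype.ext h))
  have hpC : (p : ℂ) ≠ 0 := Nat.cast_ne_zero.2 hp.ne_zero
  -- trivial character
  have e1 : (p : ℂ) * a₁ = Φ 1 + c * ((p : ℂ) - 1) := by
    have h := Cfsg.Agent.Lib.Helper67.BrL1.sum_const_off_one (fun u : ↥(P : Subgroup G) => Φ (u : G))
      (fun u => conj ((((1 : ↥(P : Subgroup G) →* ℂˣ) u : ℂˣ) : ℂ))) c hF (by simp)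
    rw [← ha₁]
    unfold classInner
    rw [hP', ← mul_assoc, mul_inv_cancel₀ hpC, one_mul, h]
    have hcard : Fintype.card ↥(P : Subgroup G) = p := by
      rw [← Nat.card_eq_fintype_card]; exact hP'
    simp [hcard]
  -- the non-trivial character
  have hsum : ∑ u : ↥(P : Subgroup G), conj (((ψ u : ℂˣ) : ℂ)) = 0 := by
    rw [← map_sum]
    have h0 : ∑ u : ↥(P : Subgroup G), ((Units.coeHom ℂ).comp ψ) u = 0 := by
      apply sum_hom_units_eq_zero
      intro h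
      apply hψ
      have h' := DFunLike.congr_fun h u₀
      exact Units.ext (by simpa using h')
    have h0' : ∑ u : ↥(P : Subgroup G), ((ψ u : ℂˣ) : ℂ) = 0 := h0
    rw [h0', map_zero]
  have e2 : (p : ℂ) * a = Φ 1 - c := by
    have h := Cfsg.Agent.Lib.Helper67.BrL1.sum_const_off_one (fun u : ↥(P : Subgroup G) => Φ (u : G))
      (fun u => conj (((ψ u : ℂˣ) : ℂ))) c hF (by simp)
    rw [← ha]
    unfold classInner
    rw [hP', ← mul_assoc, mul_inv_cancel₀ hpC, one_mul, h, hsum]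
    simp
    ring
  -- arithmetic
  have hD : (charDegree Φ : ℂ) = Φ 1 := char_natCast_charDegree hΦ
  have e3 : ((charDegree Φ : ℕ) : ℂ) = ((a₁ + (p - 1) * a : ℕ) : ℂ) := by
    have hp1 : ((p - 1 : ℕ) : ℂ) = (p : ℂ) - 1 := by
      rw [Nat.cast_sub hp.one_lt.le, Nat.cast_one]
    rw [Nat.cast_add, Nat.cast_mul, hp1, hD]
    have h4 : (p : ℂ) * ((a₁ : ℂ) + ((p : ℂ) - 1) * a) = (p : ℂ) * Φ 1 := by
      linear_combination e1 + ((p : ℂ) - 1) * e2
    exact (mul_left_cancel₀ hpC h4).symm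
  have e4 : charDegree Φ = a₁ + (p - 1) * a := by exact_mod_cast e3
  have ha0 : a = 0 := by
    by_contra hne
    have h1 : 1 ≤ a := Nat.one_le_iff_ne_zero.2 hne
    have h2 : p - 1 ≤ (p - 1) * a := Nat.le_mul_of_pos_right _ h1
    omega
  have hcΦ : c = Φ 1 := by
    rw [ha0] at e2
    simp at e2
    exact (sub_eq_zero.1 e2.symm).symm
  intro u hu
  by_cases h1 : u = 1
  · rw [h1]
  · rw [hc u hu h1, hcΦ]


end L1


section Core

variable {p : ℕ} [Fact p.Prime] [Fintype G] (P : Sylow p G) (hP : Nat.card P = p)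

local notation "𝐂" => Subgroup.centralizer ((P : Subgroup G) : Set G)
local notation "𝐍" => Subgroup.normalizer ((P : Subgroup G) : Set G)

variable [Fintype ↥(Subgroup.centralizer ((P : Subgroup G) : Set G))] [Fintype ↥(P : Subgroup G)]
  (π : ↥(Subgroup.centralizer ((P : Subgroup G) : Set G)) →* ↥(P : Subgroup G))
  (hπP : ∀ c : ↥(Subgroup.centralizer ((P : Subgroup G) : Set G)),
    (c : G) ∈ (P : Subgroup G) → ((π c : ↥(P : Subgroup G)) : G) = (c : G))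
  (hπreg : ∀ c : ↥(Subgroup.centralizer ((P : Subgroup G) : Set G)), π c = 1 ↔ ¬ p ∣ orderOf c)

open Classical in
include hP hπP hπreg in
/-- The core statement, from the structure of the block of `ξ`; `hL1` and `hL4` are the two
elementary facts about characters used (pieces L1 and L4). -/
theorem core_aux' [Fintype (IrrCharacter G)] [Fintype (IrrCharacter ↥𝐂)]
    [Fintype (↥(P : Subgroup G) →* ℂˣ)] [Fintype ↥𝐍]
    (M : Ideal AlgInt) (hM : IsPModular p M)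
    (B : Set (IrrCharacter G)) (hB : IsPBlock M B) (hBP : IsDefectGroup p M B P)
    (b : Set (IrrCharacter ↥𝐂)) (hind : IsInducedBlock M 𝐂 b B)
    (θ : IrrCharacter ↥𝐂) (hθ : θ ∈ b)
    (hθP : ∀ x : ↥𝐂, (x : G) ∈ (P : Subgroup G) → (θ : ↥𝐂 → ℂ) x = (θ : ↥𝐂 → ℂ) 1)
    (T : Subgroup G)
    (hT : ∀ g : G, g ∈ T ↔ (g ∈ 𝐍 ∧ ∀ c c' : ↥𝐂, (c' : G) = g * c * g⁻¹ →
      (θ : ↥𝐂 → ℂ) c' = (θ : ↥𝐂 → ℂ) c))
    (e : ℕ) (he : (Subgroup.centralizer ((P : Subgroup G) : Set G)).relIndex T = e)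
    (hlow : e + (p - 1) / e ≤ Nat.card B)
    (ξ : IrrCharacter G) (hξB : ξ ∈ B)
    (hdeg : 2 * charDegree (ξ : G → ℂ) + 1 ≤ p)
    (hL1 : ∀ c : ℂ, (∀ u : G, u ∈ (P : Subgroup G) → u ≠ 1 → (ξ : G → ℂ) u = c) →
      ∀ u : G, u ∈ (P : Subgroup G) → (ξ : G → ℂ) u = (ξ : G → ℂ) 1)
    (hL4 : ∀ S : Finset (IrrCharacter ↥𝐂),
      ∑ φ ∈ S, (classInner (fun c : ↥𝐂 => (ξ : G → ℂ) (c : G)) (φ : ↥𝐂 → ℂ)).re ≤
        (charDegree (ξ : G → ℂ) : ℝ)) :
    (∀ x : G, x ∈ (P : Subgroup G) → (ξ : G → ℂ) x = (ξ : G → ℂ) 1) ∨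
    ∃ (φ₀ : IrrCharacter ↥𝐂) (ψ₀ : ↥(P : Subgroup G) →* ℂˣ), ψ₀ ≠ 1 ∧
      (∀ (u : ↥(P : Subgroup G)) (c : ↥𝐂), (c : G) = (u : G) →
        (φ₀ : ↥𝐂 → ℂ) c = (φ₀ : ↥𝐂 → ℂ) 1 * ((ψ₀ u : ℂˣ) : ℂ)) ∧
      classInner (fun c : ↥𝐂 => (ξ : G → ℂ) (c : G)) (φ₀ : ↥𝐂 → ℂ) ≠ 0 ∧
      charDegree (ξ : G → ℂ) ≤
        (Subgroup.centralizer ((P : Subgroup G) : Set G)).relIndex
          (Subgroup.normalizer ((P : Subgroup G) : Set G)) * charDegree (φ₀ : ↥𝐂 → ℂ) := by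
  have hp : p.Prime := Fact.out
  have hPab : ∀ a ∈ (P : Subgroup G), ∀ b ∈ (P : Subgroup G), a * b = b * a :=
    fun a ha b hb => comm_of_mem P hP ha hb
  have hcardΨ : Fintype.card (↥(P : Subgroup G) →* ℂˣ) = p := by
    rw [← Nat.card_eq_fintype_card, Cfsg.Agent.S1507.card_hom_sub (P : Subgroup G) hPab]
    exact hP
  obtain ⟨D, X, Y, Γ, δs, hD, hv0, hnv, hdvd, hcardB, hBXY, hdisj, hX, hY, hXΓ, hcase, -, -, -⟩ :=
    Cfsg.Agent.Lib.Helper80.DefOneFull.structure_full P hP M hM π hπP hπreg B hB hBP b hind θ hθ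
      hθP T hT e he hlow
      (fun χ u hu => Cfsg.Agent.Lib.Helper74.DefOneRow1.value_eq_sum P hP π hπP hπreg
        (χ : G → ℂ) (Orth.irr_isClassFunction χ) u hu)
  -- constant column
  have hconst : ∀ c : ℤ, (∀ ψ : ↥(P : Subgroup G) →* ℂˣ, ψ ≠ 1 → D ψ ξ = c) →
      ∀ x : G, x ∈ (P : Subgroup G) → (ξ : G → ℂ) x = (ξ : G → ℂ) 1 := by
    intro c hc
    refine hL1 (-(c : ℂ) * (θ : ↥𝐂 → ℂ) 1 * (Nat.card {ξ' : IrrCharacter ↥𝐂 //
        ∃ n : ↥𝐍, conjTh P (θ : ↥𝐂 → ℂ) n = (ξ' : ↥𝐂 → ℂ)} : ℂ)) (fun u hu hu1 => ?_)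
    exact value_of_const_orb P hP π hπP hπreg M hM B hB hBP b hind θ hθ hθP ξ hξB (c : ℂ)
      (fun ψ hψ => by rw [hD, hc ψ hψ]) u hu hu1
      (Cfsg.Agent.Lib.Helper74.DefOneRow1.value_eq_sum P hP π hπP hπreg (ξ : G → ℂ)
        (Orth.irr_isClassFunction ξ) u hu)
  by_cases hx : ξ ∈ X
  · exact Or.inl (hconst (Γ ξ) (hXΓ ξ hx).2)
  have hy : ξ ∈ Y := by
    rw [hBXY] at hξB
    exact hξB.resolve_left hx
  rcases hcase with ⟨δ, γ, ζ, hδ, hε, hζY, hYζ, hform⟩ | ⟨-, η₀, hYη, -, hconstη⟩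
  swap
  · rw [hYη] at hy
    have hξη : ξ = η₀ := hy
    rw [hξη]
    rw [hξη] at hconst
    exact Or.inl (hconst (Γ η₀) hconstη)
  have hDξ : ∀ ψ : ↥(P : Subgroup G) →* ℂˣ, ψ ≠ 1 →
      D ψ ξ = γ + δ * (if ξ = ζ ψ then 1 else 0) := by
    intro ψ hψ
    rw [hform ψ hψ ξ, Set.indicator_of_notMem hx, Set.indicator_of_mem hy, zero_add]
  by_cases hall : ∀ ψ : ↥(P : Subgroup G) →* ℂˣ, ψ ≠ 1 → ζ ψ = ξ
  · refine Or.inl (hconst (γ + δ) (fun ψ hψ => ?_))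
    rw [hDξ ψ hψ, if_pos (hall ψ hψ).symm, mul_one]
  right
  push Not at hall
  obtain ⟨ψ₁, hψ₁, hζ₁⟩ := hall
  obtain ⟨ψ₀, hψ₀, hζ₀⟩ := hYζ ξ hy
  -- multiplicities
  have hres : IsCharacter ↥𝐂 (fun c : ↥𝐂 => (ξ : G → ℂ) (c : G)) :=
    Ops.isCharacter_restrict _ (isCharacter_of_irr ξ.2)
  have hirr : ∀ ψ : ↥(P : Subgroup G) →* ℂˣ,
      IsIrrCharacter ↥𝐂 ((fun c : ↥𝐂 => ((ψ (π c) : ℂˣ) : ℂ)) * (θ : ↥𝐂 → ℂ)) := fun ψ =>
    LinChar.isIrrCharacter_linear_mul (LinChar.isCharacter_of_hom (ψ.comp π)) (by simp) θ.2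
  have hm : ∀ ψ : ↥(P : Subgroup G) →* ℂˣ, ∃ m : ℕ,
      classInner (fun c : ↥𝐂 => (ξ : G → ℂ) (c : G))
        ((fun c : ↥𝐂 => ((ψ (π c) : ℂˣ) : ℂ)) * (θ : ↥𝐂 → ℂ)) = m := fun ψ =>
    Clifford.classInner_char_nat hres (isCharacter_of_irr (hirr ψ))
  choose m hm using hm
  have hone : (fun c : ↥𝐂 => (((1 : ↥(P : Subgroup G) →* ℂˣ) (π c) : ℂˣ) : ℂ)) *
      (θ : ↥𝐂 → ℂ) = (θ : ↥𝐂 → ℂ) := by
    funext c
    simp
  have hcolm : ∀ ψ : ↥(P : Subgroup G) →* ℂˣ, D ψ ξ = (m ψ : ℤ) - (m 1 : ℤ) := by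
    intro ψ
    have e1 : col P π (θ : ↥𝐂 → ℂ) ψ (ξ : G → ℂ) =
        classInner (fun c : ↥𝐂 => (ξ : G → ℂ) (c : G))
          ((fun c : ↥𝐂 => ((ψ (π c) : ℂˣ) : ℂ)) * (θ : ↥𝐂 → ℂ)) -
          classInner (fun c : ↥𝐂 => (ξ : G → ℂ) (c : G)) (θ : ↥𝐂 → ℂ) := by
      unfold col Cfsg.Agent.Lib.Helper80.DefOneCol.alpha classInner
      rw [← mul_sub, ← Finset.sum_sub_distrib]
      congr 1
      refine Finset.sum_congr rfl fun c _ => ?_
      rw [Pi.mul_apply, map_sub]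
      ring
    have e2 := hm 1
    rw [hone] at e2
    rw [hD, hm ψ, e2] at e1
    exact_mod_cast e1
  -- the fibres of `ζ`
  have hgram : ∀ ψ ψ' : ↥(P : Subgroup G) →* ℂˣ, ψ ≠ 1 → ψ' ≠ 1 →
      ∑ χ : IrrCharacter G, D ψ χ * D ψ' χ =
        (e : ℤ) + (if RelS P (θ : ↥𝐂 → ℂ) ψ ψ' then 1 else 0) := by
    intro ψ ψ' hψ hψ'
    have h := gram_T P hP π hπP hπreg θ.2 hθP T hT ψ ψ' hψ hψ'
    rw [he] at h
    simp_rw [hD] at h
    by_cases hR : RelS P (θ : ↥𝐂 → ℂ) ψ ψ'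
    · rw [if_pos hR] at h ⊢
      exact_mod_cast h
    · rw [if_neg hR] at h ⊢
      exact_mod_cast h
  have hδ2 : δ * δ = 1 := by
    rcases hδ with h | h <;> rw [h] <;> norm_num
  have hrel : ∀ ψ ψ' : ↥(P : Subgroup G) →* ℂˣ, ψ ≠ 1 → ψ' ≠ 1 →
      (RelS P (θ : ↥𝐂 → ℂ) ψ ψ' ↔ ζ ψ' = ζ ψ) := by
    intro ψ ψ' hψ hψ'
    have h1 := hgram ψ ψ' hψ hψ'
    have h2 := hgram ψ ψ hψ hψ
    rw [if_pos (relS_refl P _ ψ)] at h2
    have h3 : ∀ χ : IrrCharacter G, D ψ χ * D ψ' χ = D ψ χ * D ψ χ +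
        δ * (if χ = ζ ψ' then D ψ χ else 0) - δ * (if χ = ζ ψ then D ψ χ else 0) := by
      intro χ
      have hdiff : D ψ' χ = D ψ χ +
          δ * ((if χ = ζ ψ' then 1 else 0) - (if χ = ζ ψ then 1 else 0)) := by
        rw [hform ψ' hψ' χ, hform ψ hψ χ]
        ring
      have e1 : (if χ = ζ ψ' then D ψ χ else 0) = D ψ χ * (if χ = ζ ψ' then 1 else 0) := by
        rw [mul_ite, mul_one, mul_zero]
      have e2 : (if χ = ζ ψ then D ψ χ else 0) = D ψ χ * (if χ = ζ ψ then 1 else 0) := by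
        rw [mul_ite, mul_one, mul_zero]
      rw [e1, e2, hdiff]
      ring
    have h4 : ∑ χ : IrrCharacter G, D ψ χ * D ψ' χ =
        (e : ℤ) + 1 + δ * D ψ (ζ ψ') - δ * D ψ (ζ ψ) := by
      rw [Finset.sum_congr rfl (fun χ _ => h3 χ), Finset.sum_sub_distrib, Finset.sum_add_distrib,
        h2, ← Finset.mul_sum, ← Finset.mul_sum, Finset.sum_ite_eq' Finset.univ (ζ ψ'),
        Finset.sum_ite_eq' Finset.univ (ζ ψ), if_pos (Finset.mem_univ _),
        if_pos (Finset.mem_univ _)]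
    have h5 : D ψ (ζ ψ') = γ + δ * (if ζ ψ' = ζ ψ then 1 else 0) := by
      have hY' := hζY ψ' hψ'
      have hX' : ζ ψ' ∉ X := fun h => Set.disjoint_left.mp hdisj h hY'
      rw [hform ψ hψ, Set.indicator_of_notMem hX', Set.indicator_of_mem hY', zero_add]
    have h6 : D ψ (ζ ψ) = γ + δ := by
      have hY' := hζY ψ hψ
      have hX' : ζ ψ ∉ X := fun h => Set.disjoint_left.mp hdisj h hY'
      rw [hform ψ hψ, Set.indicator_of_notMem hX', Set.indicator_of_mem hY', zero_add,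
        if_pos rfl, mul_one]
    rw [h4, h5, h6] at h1
    by_cases hR : RelS P (θ : ↥𝐂 → ℂ) ψ ψ'
    · rw [if_pos hR] at h1
      refine ⟨fun _ => ?_, fun _ => hR⟩
      by_contra hne
      rw [if_neg hne] at h1
      have h7 : δ * δ = 0 := by linear_combination -h1
      rw [hδ2] at h7
      exact one_ne_zero h7
    · rw [if_neg hR] at h1
      refine ⟨fun h => absurd h hR, fun hz => ?_⟩
      rw [if_pos hz] at h1
      exfalso
      have h7 : (1 : ℤ) = 0 := by linear_combination h1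
      exact one_ne_zero h7
  have hZcard : (Finset.univ.filter
      (fun ψ : ↥(P : Subgroup G) →* ℂˣ => ψ ≠ 1 ∧ ζ ψ = ξ)).card = e := by
    have h1 := card_class_T P hP θ.2 T hT ψ₀ hψ₀
    rw [he, Nat.card_eq_fintype_card, Fintype.card_subtype] at h1
    rw [← h1]
    congr 1
    ext ψ
    simp only [Finset.mem_filter, Finset.mem_univ, true_and]
    constructor
    · rintro ⟨hψ, hz⟩
      exact (hrel ψ₀ ψ hψ₀ hψ).mpr (by rw [hz, hζ₀])
    · intro hR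
      have hψ := relS_ne P hψ₀ hR
      exact ⟨hψ, by rw [(hrel ψ₀ ψ hψ₀ hψ).mp hR, hζ₀]⟩
  have hepos : 0 < e := by
    rw [← hZcard]
    exact Finset.card_pos.mpr ⟨ψ₀, Finset.mem_filter.mpr ⟨Finset.mem_univ _, hψ₀, hζ₀⟩⟩
  have he2 : 2 * e ≤ p - 1 := by
    have hlt : e < p - 1 := by
      rw [← hZcard]
      have hsub : Finset.univ.filter (fun ψ : ↥(P : Subgroup G) →* ℂˣ => ψ ≠ 1 ∧ ζ ψ = ξ) ⊆
          (Finset.univ.erase 1).erase ψ₁ := by
        intro ψ hψ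
        rw [Finset.mem_filter] at hψ
        refine Finset.mem_erase.mpr ⟨?_, Finset.mem_erase.mpr ⟨hψ.2.1, Finset.mem_univ _⟩⟩
        rintro rfl
        exact hζ₁ hψ.2.2
      have h := Finset.card_le_card hsub
      rw [Finset.card_erase_of_mem (Finset.mem_erase.mpr ⟨hψ₁, Finset.mem_univ _⟩),
        Finset.card_erase_of_mem (Finset.mem_univ _), Finset.card_univ, hcardΨ] at h
      have := hp.two_le
      omega
    obtain ⟨k, hk⟩ := hdvd
    rcases k with _ | _ | k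
    · rw [hk] at hlt
      omega
    · rw [hk] at hlt
      omega
    · rw [hk]
      have : e * (k + 1 + 1) = e * k + 2 * e := by ring
      omega
  -- the irreducible characters `(ψ ∘ π) θ`
  obtain ⟨φψ, hφψ⟩ : ∃ φψ : (↥(P : Subgroup G) →* ℂˣ) → IrrCharacter ↥𝐂, ∀ ψ,
      ((φψ ψ : IrrCharacter ↥𝐂) : ↥𝐂 → ℂ) =
        (fun c : ↥𝐂 => ((ψ (π c) : ℂˣ) : ℂ)) * (θ : ↥𝐂 → ℂ) :=
    ⟨fun ψ => ⟨_, hirr ψ⟩, fun ψ => rfl⟩
  have hθ1 : (θ : ↥𝐂 → ℂ) 1 ≠ 0 := by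
    rw [← char_natCast_charDegree (isCharacter_of_irr θ.2)]
    exact Nat.cast_ne_zero.mpr (irr_charDegree_pos θ.2).ne'
  have hinj : Function.Injective φψ := by
    intro ψ ψ' h
    refine MonoidHom.ext fun z => Units.ext ?_
    have h1 := congrFun (congrArg (fun φ : IrrCharacter ↥𝐂 => (φ : ↥𝐂 → ℂ)) h) (inc P hP z)
    simp only [hφψ, Pi.mul_apply] at h1
    rw [proj_inc P hP π hπP z] at h1
    exact mul_right_cancel₀ (by
      rw [hθP (inc P hP z) z.2]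
      exact hθ1) h1
  have hsum : ∑ ψ : ↥(P : Subgroup G) →* ℂˣ, m ψ ≤ charDegree (ξ : G → ℂ) := by
    have h := hL4 (Finset.univ.image φψ)
    rw [Finset.sum_image (fun a _ b _ hab => hinj hab)] at h
    have h2 : ∀ ψ : ↥(P : Subgroup G) →* ℂˣ,
        (classInner (fun c : ↥𝐂 => (ξ : G → ℂ) (c : G))
          ((φψ ψ : IrrCharacter ↥𝐂) : ↥𝐂 → ℂ)).re = (m ψ : ℝ) := by
      intro ψ
      rw [hφψ, hm ψ]
      simp
    rw [Finset.sum_congr rfl (fun ψ _ => h2 ψ)] at h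
    exact_mod_cast h
  -- the values of `m`
  have hmV : ∀ ψ : ↥(P : Subgroup G) →* ℂˣ, ψ ≠ 1 → ζ ψ ≠ ξ →
      (m ψ : ℤ) = (m 1 : ℤ) + γ := by
    intro ψ hψ hz
    have h := hcolm ψ
    rw [hDξ ψ hψ, if_neg (fun h => hz h.symm), mul_zero, add_zero] at h
    linarith
  have hmZ : ∀ ψ : ↥(P : Subgroup G) →* ℂˣ, ψ ≠ 1 → ζ ψ = ξ →
      (m ψ : ℤ) = (m 1 : ℤ) + γ + δ := by
    intro ψ hψ hz
    have h := hcolm ψ
    rw [hDξ ψ hψ, if_pos hz.symm, mul_one] at h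
    linarith
  have hVcard : (Finset.univ.filter
      (fun ψ : ↥(P : Subgroup G) →* ℂˣ => ψ ≠ 1 ∧ ζ ψ ≠ ξ)).card = p - 1 - e := by
    have h1 : (Finset.univ.erase (1 : ↥(P : Subgroup G) →* ℂˣ)).card = p - 1 := by
      rw [Finset.card_erase_of_mem (Finset.mem_univ _), Finset.card_univ, hcardΨ]
    have h2 : Finset.univ.erase (1 : ↥(P : Subgroup G) →* ℂˣ) =
        (Finset.univ.filter (fun ψ : ↥(P : Subgroup G) →* ℂˣ => ψ ≠ 1 ∧ ζ ψ = ξ)) ∪
        (Finset.univ.filter (fun ψ : ↥(P : Subgroup G) →* ℂˣ => ψ ≠ 1 ∧ ζ ψ ≠ ξ)) := by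
      ext ψ
      simp only [Finset.mem_erase, Finset.mem_univ, and_true, Finset.mem_union,
        Finset.mem_filter, true_and]
      tauto
    have h3 : Disjoint
        (Finset.univ.filter (fun ψ : ↥(P : Subgroup G) →* ℂˣ => ψ ≠ 1 ∧ ζ ψ = ξ))
        (Finset.univ.filter (fun ψ : ↥(P : Subgroup G) →* ℂˣ => ψ ≠ 1 ∧ ζ ψ ≠ ξ)) := by
      rw [Finset.disjoint_left]
      intro ψ h h'
      rw [Finset.mem_filter] at h h'
      exact h'.2.2 h.2.2
    rw [h2, Finset.card_union_of_disjoint h3, hZcard] at h1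
    omega
  have hqe : Nat.card {φ : IrrCharacter ↥𝐂 //
      ∃ n : ↥𝐍, conjTh P (θ : ↥𝐂 → ℂ) n = (φ : ↥𝐂 → ℂ)} * e =
      (Subgroup.centralizer ((P : Subgroup G) : Set G)).relIndex
        (Subgroup.normalizer ((P : Subgroup G) : Set G)) := by
    have hcl : IsClassFunction ↥𝐂 (θ : ↥𝐂 → ℂ) := Orth.irr_isClassFunction θ
    have hCT := centralizer_le_stab P hcl T hT
    have hCN : 𝐂 ≤ 𝐍 := Subgroup.centralizer_le_normalizer _
    have h1 := card_orb P θ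
    rw [card_stab P (θ : ↥𝐂 → ℂ) T hT, Cfsg.Agent.Lib.Helper76.PSolv.card_eq_card_mul_relIndex hCN,
      Cfsg.Agent.Lib.Helper76.PSolv.card_eq_card_mul_relIndex hCT, he] at h1
    have hCpos : 0 < Nat.card ↥𝐂 := Nat.card_pos
    have h2 : Nat.card ↥𝐂 * (Nat.card {φ : IrrCharacter ↥𝐂 //
        ∃ n : ↥𝐍, conjTh P (θ : ↥𝐂 → ℂ) n = (φ : ↥𝐂 → ℂ)} * e) = Nat.card ↥𝐂 *
        (Subgroup.centralizer ((P : Subgroup G) : Set G)).relIndex
          (Subgroup.normalizer ((P : Subgroup G) : Set G)) := by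
      rw [h1]
      ring
    exact Nat.eq_of_mul_eq_mul_left hCpos h2
  have hrel0 : (Subgroup.centralizer ((P : Subgroup G) : Set G)).relIndex
      (Subgroup.normalizer ((P : Subgroup G) : Set G)) ≠ 0 := Subgroup.index_ne_zero_of_finite
  have hfirst : ∀ ψ' : ↥(P : Subgroup G) →* ℂˣ, ∀ (u : ↥(P : Subgroup G)) (c : ↥𝐂),
      (c : G) = (u : G) → ((φψ ψ' : IrrCharacter ↥𝐂) : ↥𝐂 → ℂ) c =
        ((φψ ψ' : IrrCharacter ↥𝐂) : ↥𝐂 → ℂ) 1 * ((ψ' u : ℂˣ) : ℂ) := by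
    intro ψ' u c hcu
    have hcP : (c : G) ∈ (P : Subgroup G) := by
      rw [hcu]
      exact u.2
    have hπc : π c = u := Subtype.ext (by rw [hπP c hcP, hcu])
    rw [hφψ]
    simp only [Pi.mul_apply, map_one, Units.val_one, one_mul]
    rw [hπc, hθP c hcP]
    ring
  have hdφ : ∀ ψ' : ↥(P : Subgroup G) →* ℂˣ,
      charDegree ((φψ ψ' : IrrCharacter ↥𝐂) : ↥𝐂 → ℂ) = charDegree (θ : ↥𝐂 → ℂ) := by
    intro ψ'
    have h1 := char_natCast_charDegree (isCharacter_of_irr (φψ ψ').2)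
    have h2 := char_natCast_charDegree (isCharacter_of_irr θ.2)
    have h3 : ((φψ ψ' : IrrCharacter ↥𝐂) : ↥𝐂 → ℂ) 1 = (θ : ↥𝐂 → ℂ) 1 := by
      rw [hφψ]
      simp
    rw [h3, ← h2] at h1
    exact_mod_cast h1
  by_cases hv0' : (m 1 : ℤ) + γ = 0
  swap
  · -- the boundary case: `ξ|_C` is the sum over the other class
    have hm1 : 1 ≤ m ψ₁ := by
      have h1 := hmV ψ₁ hψ₁ hζ₁
      omega
    have hpos : ∀ ψ ∈ Finset.univ.filter
        (fun ψ : ↥(P : Subgroup G) →* ℂˣ => ψ ≠ 1 ∧ ζ ψ ≠ ξ), 1 ≤ m ψ := by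
      intro ψ hψ
      rw [Finset.mem_filter] at hψ
      have h1 := hmV ψ hψ.2.1 hψ.2.2
      have h2 := hmV ψ₁ hψ₁ hζ₁
      omega
    have h3 : (Finset.univ.filter
        (fun ψ : ↥(P : Subgroup G) →* ℂˣ => ψ ≠ 1 ∧ ζ ψ ≠ ξ)).card ≤
        ∑ ψ ∈ Finset.univ.filter
          (fun ψ : ↥(P : Subgroup G) →* ℂˣ => ψ ≠ 1 ∧ ζ ψ ≠ ξ), m ψ := by
      have := Finset.card_nsmul_le_sum _ m 1 hpos
      simpa using this
    have h4 : ∑ ψ ∈ Finset.univ.filter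
        (fun ψ : ↥(P : Subgroup G) →* ℂˣ => ψ ≠ 1 ∧ ζ ψ ≠ ξ), m ψ ≤
        ∑ ψ : ↥(P : Subgroup G) →* ℂˣ, m ψ :=
      Finset.sum_le_sum_of_subset (Finset.filter_subset _ _)
    rw [hVcard] at h3
    have hdege : charDegree (ξ : G → ℂ) ≤ e := by omega
    have hcard0 : Nat.card {φ : IrrCharacter ↥𝐂 //
        ∃ n : ↥𝐍, conjTh P (θ : ↥𝐂 → ℂ) n = (φ : ↥𝐂 → ℂ)} ≠ 0 := by
      intro h0
      rw [h0, zero_mul] at hqe
      exact hrel0 hqe.symm
    have hele : e ≤ (Subgroup.centralizer ((P : Subgroup G) : Set G)).relIndex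
        (Subgroup.normalizer ((P : Subgroup G) : Set G)) := by
      rw [← hqe]
      exact Nat.le_mul_of_pos_left _ (Nat.pos_of_ne_zero hcard0)
    refine ⟨φψ ψ₁, ψ₁, hψ₁, hfirst ψ₁, ?_, ?_⟩
    · rw [hφψ, hm ψ₁]
      exact Nat.cast_ne_zero.mpr (by omega)
    · rw [hdφ ψ₁]
      calc charDegree (ξ : G → ℂ) ≤ e := hdege
        _ ≤ (Subgroup.centralizer ((P : Subgroup G) : Set G)).relIndex
            (Subgroup.normalizer ((P : Subgroup G) : Set G)) := hele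
        _ ≤ _ := Nat.le_mul_of_pos_right _ (irr_charDegree_pos θ.2)
  have hδ1 : δ = 1 := by
    rcases hδ with h | h
    · exact h
    · exfalso
      have h1 := hmZ ψ₀ hψ₀ hζ₀
      rw [h] at h1
      omega
  have hmψ₀ : m ψ₀ = 1 := by
    have h1 := hmZ ψ₀ hψ₀ hζ₀
    rw [hδ1] at h1
    omega
  have ht2 : 2 ≤ (p - 1) / e := (Nat.le_div_iff_mul_le hepos).mpr he2
  have hγ0 : γ = 0 := by
    rw [hδ1] at hε
    rcases hε with h | h
    · have h' : (((p - 1) / e : ℕ) : ℤ) * γ = 0 := by linarith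
      rcases mul_eq_zero.mp h' with h'' | h''
      · exfalso
        have : (p - 1) / e = 0 := by exact_mod_cast h''
        omega
      · exact h''
    · exfalso
      have h1 : (((p - 1) / e : ℕ) : ℤ) * γ = -2 := by linarith
      have ht : (2 : ℤ) ≤ (((p - 1) / e : ℕ) : ℤ) := by exact_mod_cast ht2
      have hγneg : γ ≤ -1 := by
        by_contra hc
        have hγ' : γ = 0 := by omega
        rw [hγ', mul_zero] at h1
        omega
      have hγ : γ = -1 := by nlinarith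
      have htt : (p - 1) / e = 2 := by
        rw [hγ] at h1
        have : (((p - 1) / e : ℕ) : ℤ) = 2 := by linarith
        exact_mod_cast this
      have hm1 : m 1 = 1 := by
        rw [hγ] at hv0'
        omega
      have hpe : p - 1 = 2 * e := by
        obtain ⟨k, hk⟩ := hdvd
        rw [hk, Nat.mul_div_cancel_left k hepos] at htt
        rw [hk, htt]
        ring
      have hZsum : ∑ ψ ∈ Finset.univ.filter
          (fun ψ : ↥(P : Subgroup G) →* ℂˣ => ψ ≠ 1 ∧ ζ ψ = ξ), m ψ = e := by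
        have h5 : ∀ ψ ∈ Finset.univ.filter
            (fun ψ : ↥(P : Subgroup G) →* ℂˣ => ψ ≠ 1 ∧ ζ ψ = ξ), m ψ = 1 := by
          intro ψ hψ
          rw [Finset.mem_filter] at hψ
          have h6 := hmZ ψ hψ.2.1 hψ.2.2
          rw [hδ1] at h6
          omega
        rw [Finset.sum_congr rfl h5, Finset.sum_const, hZcard]
        simp
      have h5 : ∑ ψ ∈ insert 1 (Finset.univ.filter
          (fun ψ : ↥(P : Subgroup G) →* ℂˣ => ψ ≠ 1 ∧ ζ ψ = ξ)), m ψ ≤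
          ∑ ψ : ↥(P : Subgroup G) →* ℂˣ, m ψ :=
        Finset.sum_le_sum_of_subset (Finset.subset_univ _)
      rw [Finset.sum_insert (by simp), hm1, hZsum] at h5
      omega
  have hDsum : ∑ ψ : ↥(P : Subgroup G) →* ℂˣ,
      (if ψ = 1 then (0 : ℂ) else col P π (θ : ↥𝐂 → ℂ) ψ (ξ : G → ℂ)) = (e : ℂ) := by
    have h1 : ∀ ψ : ↥(P : Subgroup G) →* ℂˣ,
        (if ψ = 1 then (0 : ℂ) else col P π (θ : ↥𝐂 → ℂ) ψ (ξ : G → ℂ)) =
        (if ψ ≠ 1 ∧ ζ ψ = ξ then 1 else 0) := by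
      intro ψ
      by_cases hψ : ψ = 1
      · rw [if_pos hψ, if_neg (fun h => h.1 hψ)]
      · rw [if_neg hψ, hD, hDξ ψ hψ, hγ0, hδ1]
        by_cases hz : ζ ψ = ξ
        · rw [if_pos hz.symm, if_pos ⟨hψ, hz⟩]
          norm_num
        · rw [if_neg (fun h => hz h.symm), if_neg (fun h => hz h.2)]
          norm_num
    rw [Finset.sum_congr rfl (fun ψ _ => h1 ψ), Finset.sum_boole, hZcard]
  -- the degree
  have hS := Cfsg.Agent.Lib.Helper80.BrT1core.sum_ne_one P hP π hπP hπreg M hM B hB hBP b hind θ hθ hθP ξ hξB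
  rw [hDsum] at hS
  have htot : ∑ w : ↥(P : Subgroup G), (ξ : G → ℂ) (w : G) =
      (ξ : G → ℂ) 1 - (θ : ↥𝐂 → ℂ) 1 *
        (((Subgroup.centralizer ((P : Subgroup G) : Set G)).relIndex
          (Subgroup.normalizer ((P : Subgroup G) : Set G)) : ℕ) : ℂ) := by
    have h1 : ∀ w : ↥(P : Subgroup G), (ξ : G → ℂ) (w : G) =
        (if w = 1 then 0 else (ξ : G → ℂ) (w : G)) +
          (if w = 1 then (ξ : G → ℂ) 1 else 0) := by
      intro w
      by_cases hw : w = 1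
      · rw [if_pos hw, if_pos hw, hw, Subgroup.coe_one, zero_add]
      · rw [if_neg hw, if_neg hw, add_zero]
    rw [Finset.sum_congr rfl (fun w _ => h1 w), Finset.sum_add_distrib, hS,
      Finset.sum_ite_eq' Finset.univ (1 : ↥(P : Subgroup G)), if_pos (Finset.mem_univ _), ← hqe]
    push_cast
    ring
  obtain ⟨a, ha⟩ : ∃ a : ℕ, ∑ w : ↥(P : Subgroup G), (ξ : G → ℂ) (w : G) = (p : ℂ) * a := by
    obtain ⟨a, ha⟩ := Clifford.classInner_char_nat
      (Ops.isCharacter_restrict (P : Subgroup G) (isCharacter_of_irr ξ.2))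
      (isCharacter_of_irr (Ops.isIrrCharacter_one (G := ↥(P : Subgroup G))))
    refine ⟨a, ?_⟩
    unfold classInner at ha
    have hP' : (Nat.card ↥(P : Subgroup G) : ℂ) = (p : ℂ) := by
      have : Nat.card ↥(P : Subgroup G) = p := hP
      rw [this]
    have hp0 : (p : ℂ) ≠ 0 := Nat.cast_ne_zero.mpr hp.ne_zero
    rw [hP'] at ha
    simp only [map_one, mul_one] at ha
    rw [← ha]
    field_simp
  have hdegeq : charDegree (ξ : G → ℂ) =
      (Subgroup.centralizer ((P : Subgroup G) : Set G)).relIndex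
        (Subgroup.normalizer ((P : Subgroup G) : Set G)) * charDegree (θ : ↥𝐂 → ℂ) := by
    rw [ha, ← char_natCast_charDegree (isCharacter_of_irr ξ.2),
      ← char_natCast_charDegree (isCharacter_of_irr θ.2)] at htot
    obtain ⟨K, hK⟩ : ∃ K : ℕ, K = charDegree (θ : ↥𝐂 → ℂ) *
        (Subgroup.centralizer ((P : Subgroup G) : Set G)).relIndex
          (Subgroup.normalizer ((P : Subgroup G) : Set G)) := ⟨_, rfl⟩
    have h1 : (p : ℤ) * a = (charDegree (ξ : G → ℂ) : ℤ) - (K : ℤ) := by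
      rw [hK]
      exact_mod_cast htot
    have h2 : a = 0 := by
      by_contra h
      have h3 : 1 ≤ a := Nat.one_le_iff_ne_zero.mpr h
      have h4 : (p : ℤ) ≤ p * a := by
        have : (1 : ℤ) ≤ a := by exact_mod_cast h3
        have hp0 : (0 : ℤ) ≤ p := by positivity
        nlinarith
      omega
    rw [h2] at h1
    have h5 : charDegree (ξ : G → ℂ) = K := by
      have : (charDegree (ξ : G → ℂ) : ℤ) = (K : ℤ) := by
        simp only [Nat.cast_zero, mul_zero] at h1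
        linarith
      exact_mod_cast this
    rw [h5, hK, mul_comm]
  refine ⟨φψ ψ₀, ψ₀, hψ₀, ?_, ?_, ?_⟩
  · intro u c hcu
    have hcP : (c : G) ∈ (P : Subgroup G) := by
      rw [hcu]
      exact u.2
    have hπc : π c = u := Subtype.ext (by rw [hπP c hcP, hcu])
    rw [hφψ]
    simp only [Pi.mul_apply, map_one, Units.val_one, one_mul]
    rw [hπc, hθP c hcP]
    ring
  · rw [hφψ, hm ψ₀, hmψ₀]
    norm_num
  · have hd : charDegree ((φψ ψ₀ : IrrCharacter ↥𝐂) : ↥𝐂 → ℂ) = charDegree (θ : ↥𝐂 → ℂ) := by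
      have h1 := char_natCast_charDegree (isCharacter_of_irr (φψ ψ₀).2)
      have h2 := char_natCast_charDegree (isCharacter_of_irr θ.2)
      have h3 : ((φψ ψ₀ : IrrCharacter ↥𝐂) : ↥𝐂 → ℂ) 1 = (θ : ↥𝐂 → ℂ) 1 := by
        rw [hφψ]
        simp
      rw [h3, ← h2] at h1
      exact_mod_cast h1
    rw [hd, hdegeq]


end Core


/-- **Piece T1B of S4504.** An irreducible character `ξ` with `2 ξ(1) + 1 ≤ p` is constant on a
Sylow `p`-subgroup `P` of order `p`, or `ξ|_C` (`C = C_G(P)`) has an irreducible constituent `φ₀`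
lying over a non-principal linear character `ψ₀` of `P`, with `ξ(1) ≤ |N_G(P) : C| φ₀(1)`. -/
theorem small_degree_core' [Finite G] (p : ℕ) [Fact p.Prime] (P : Sylow p G) (hP : Nat.card P = p)
    [Fintype ↥(Subgroup.centralizer ((P : Subgroup G) : Set G))] (ξ : IrrCharacter G)
    (hdeg : 2 * charDegree (ξ : G → ℂ) + 1 ≤ p) :
    (∀ x : G, x ∈ (P : Subgroup G) → (ξ : G → ℂ) x = (ξ : G → ℂ) 1) ∨
    ∃ (φ₀ : IrrCharacter ↥(Subgroup.centralizer ((P : Subgroup G) : Set G)))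
      (ψ₀ : ↥(P : Subgroup G) →* ℂˣ), ψ₀ ≠ 1 ∧
      (∀ (u : ↥(P : Subgroup G)) (c : ↥(Subgroup.centralizer ((P : Subgroup G) : Set G))),
        (c : G) = (u : G) →
        (φ₀ : ↥(Subgroup.centralizer ((P : Subgroup G) : Set G)) → ℂ) c =
          (φ₀ : ↥(Subgroup.centralizer ((P : Subgroup G) : Set G)) → ℂ) 1 * ((ψ₀ u : ℂˣ) : ℂ)) ∧
      classInner (fun c : ↥(Subgroup.centralizer ((P : Subgroup G) : Set G)) => (ξ : G → ℂ) (c : G))
        (φ₀ : ↥(Subgroup.centralizer ((P : Subgroup G) : Set G)) → ℂ) ≠ 0 ∧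
      charDegree (ξ : G → ℂ) ≤
        (Subgroup.centralizer ((P : Subgroup G) : Set G)).relIndex
          (Subgroup.normalizer ((P : Subgroup G) : Set G)) *
          charDegree (φ₀ : ↥(Subgroup.centralizer ((P : Subgroup G) : Set G)) → ℂ) := by
  classical
  have hp : p.Prime := Fact.out
  obtain ⟨M, hM⟩ := Cfsg.Agent.Lib.CT.Knorr.exists_isPModular p hp
  have hMp := Cfsg.Agent.Lib.Helper77.LocalRing.isPrime_of_isPModular hM
  have hξpos : 0 < charDegree (ξ : G → ℂ) := irr_charDegree_pos ξ.2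
  have hndvd : ¬ p ∣ charDegree (ξ : G → ℂ) := fun h => by
    have := Nat.le_of_dvd hξpos h
    omega
  have hBP := Cfsg.Agent.Lib.Helper74.McKayAB.isDefectGroup_of_not_dvd p M hM P hP ξ hndvd
  have hB : IsPBlock M (blockOf M (ξ : G → ℂ)) :=
    Cfsg.Agent.Lib.CT.DefectZeroBlock.isPBlock_blockOf ξ
  have hξB : ξ ∈ blockOf M (ξ : G → ℂ) :=
    Cfsg.Agent.Lib.Helper77.DefectClass.self_mem_blockOf hMp ξ
  obtain ⟨θ, hθP, hind⟩ := Cfsg.Agent.Lib.Helper79.McKayCD.exists_root p M hM P hP _ hB hBP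
  have hθb : θ ∈ blockOf M (θ : ↥(Subgroup.centralizer ((P : Subgroup G) : Set G)) → ℂ) :=
    Cfsg.Agent.Lib.Helper77.DefectClass.self_mem_blockOf hMp θ
  have hT : ∀ g : G, g ∈ Cfsg.Agent.Lib.Helper74.McKayDefs.stab (P : Subgroup G)
      (θ : ↥(Subgroup.centralizer ((P : Subgroup G) : Set G)) → ℂ) ↔
      (g ∈ Subgroup.normalizer ((P : Subgroup G) : Set G) ∧
        ∀ c c' : Subgroup.centralizer ((P : Subgroup G) : Set G), (c' : G) = g * c * g⁻¹ →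
          (θ : Subgroup.centralizer ((P : Subgroup G) : Set G) → ℂ) c' =
            (θ : Subgroup.centralizer ((P : Subgroup G) : Set G) → ℂ) c) :=
    fun g => Iff.rfl
  have hlow := Cfsg.Agent.Lib.Helper17.BqTop2.lower_bound' p M hM P hP _ hB _ hind θ hθb hθP _ hT
    _ rfl
  haveI : Fintype G := Fintype.ofFinite G
  have := finite_irrCharacter G
  haveI : Fintype (IrrCharacter G) := Fintype.ofFinite _
  have := finite_irrCharacter ↥(Subgroup.centralizer ((P : Subgroup G) : Set G))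
  haveI : Fintype (IrrCharacter ↥(Subgroup.centralizer ((P : Subgroup G) : Set G))) :=
    Fintype.ofFinite _
  have hPab : ∀ a ∈ (P : Subgroup G), ∀ b ∈ (P : Subgroup G), a * b = b * a :=
    fun a ha b hb => comm_of_mem P hP ha hb
  have := finite_hom (P : Subgroup G) hPab
  haveI : Fintype (↥(P : Subgroup G) →* ℂˣ) := Fintype.ofFinite _
  haveI : Fintype ↥(P : Subgroup G) := Fintype.ofFinite _
  haveI : Fintype ↥(Subgroup.normalizer ((P : Subgroup G) : Set G)) := Fintype.ofFinite _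
  obtain ⟨π, hπP, hπreg⟩ := exists_proj P hP
  have hd : charDegree (fun c : ↥(Subgroup.centralizer ((P : Subgroup G) : Set G)) =>
      (ξ : G → ℂ) (c : G)) = charDegree (ξ : G → ℂ) := by
    have h1 := char_natCast_charDegree (Ops.isCharacter_restrict
      (Subgroup.centralizer ((P : Subgroup G) : Set G)) (isCharacter_of_irr ξ.2))
    have h2 := char_natCast_charDegree (isCharacter_of_irr ξ.2)
    rw [Subgroup.coe_one, ← h2] at h1
    exact_mod_cast h1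
  exact core_aux' P hP π hπP hπreg M hM _ hB hBP _ hind θ hθb hθP _ hT _ rfl hlow ξ hξB hdeg
    (fun c hc => trivial_of_const' p P hP (ξ : G → ℂ)
      (isCharacter_of_irr ξ.2) (by omega) c hc)
    (fun S => by
      have h := Cfsg.Agent.Lib.Helper67.BrL24.sum_inner_le_degree
        (fun c : ↥(Subgroup.centralizer ((P : Subgroup G) : Set G)) => (ξ : G → ℂ) (c : G))
        (Ops.isCharacter_restrict _ (isCharacter_of_irr ξ.2)) S
      rw [hd] at h
      exact h)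

/-- Piece `T1B` of S4504. -/
theorem main : Cfsg.Agent.Lib.Helper76.BrRB.T1B.{u} := by
  intro G _ _ p _ P hP _ ξ hdeg
  exact small_degree_core' p P hP ξ hdeg

end Cfsg.Agent.Lib.Helper76.BrRBT1B

#print axioms Cfsg.Agent.Lib.Helper76.BrRBT1B.main
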