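import Mathlib
import Cfsg.Agent.Lib.Helper17.CMStmt

set_option autoImplicit false

/-!
helper76: piece A1 of S3905 (helper17's call): `y ∈ N` not centralizing the abelian minimal normal
subgroup `V` has `C_V(y) = 1`.
-/

namespace Cfsg.Agent.Lib.Helper76.CMA1

open Subgroup Cfsg.Agent.Lib.Helper17.CMStmt

universe u

theorem le_normalizer_of_conj {G : Type*} [Group G] (S W : Subgroup G)
    (h : ∀ g ∈ S, ∀ w ∈ W, g * w * g⁻¹ ∈ W) : S ≤ Subgroup.normalizer (W : Set G) := by
  intro g hg
  rw [Subgroup.mem_normalizer_iff]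
  intro x
  constructor
  · exact h g hg x
  · intro hx
    have := h g⁻¹ (S.inv_mem hg) _ hx
    simpa [mul_assoc] using this

theorem main : Cfsg.Agent.Lib.Helper17.CMStmt.A1.{u} := by
  intro G _ _ N V hNn hR hV hab y hyN hyV
  obtain ⟨hVn, hVN, hVne, hVmin⟩ := hV
  have hy1 : y ≠ 1 := by
    rintro rfl
    apply hyV
    rw [Subgroup.mem_centralizer_iff]
    intro h _
    simp
  have hco : IsCoatom (centralizer ({y} : Set G)) := hR.2.2 y hyN hy1
  have hmemM : ∀ c : G, c ∈ centralizer ({y} : Set G) ↔ c * y = y * c := by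
    intro c
    rw [Subgroup.mem_centralizer_iff]
    constructor
    · intro h
      exact (h y (Set.mem_singleton y)).symm
    · intro h u hu
      rw [Set.mem_singleton_iff] at hu
      rw [hu]; exact h.symm
  have hVM : ¬ V ≤ centralizer ({y} : Set G) := by
    intro hle
    apply hyV
    rw [Subgroup.mem_centralizer_iff]
    intro v hv
    exact (hmemM v).1 (hle hv)
  have htop : V ⊔ centralizer ({y} : Set G) = ⊤ := by
    apply hco.2
    apply lt_of_le_of_ne le_sup_right
    intro h
    apply hVM
    rw [h]
    exact le_sup_left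
  have hWn : (V ⊓ centralizer ({y} : Set G)).Normal := by
    have hle : V ⊔ centralizer ({y} : Set G) ≤
        normalizer ((V ⊓ centralizer ({y} : Set G) : Subgroup G) : Set G) := by
      apply sup_le
      · apply le_normalizer_of_conj
        intro v hv w hw
        have hwV : w ∈ V := (Subgroup.mem_inf.1 hw).1
        have : v * w * v⁻¹ = w := by rw [hab v hv w hwV, mul_inv_cancel_right]
        rw [this]; exact hw
      · apply le_normalizer_of_conj
        intro m hm w hw
        refine Subgroup.mem_inf.2 ⟨hVn.conj_mem w (Subgroup.mem_inf.1 hw).1 m, ?_⟩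
        exact Subgroup.mul_mem _ (Subgroup.mul_mem _ hm (Subgroup.mem_inf.1 hw).2)
          (Subgroup.inv_mem _ hm)
    rw [htop] at hle
    constructor
    intro w hw g
    exact (Subgroup.mem_normalizer_iff.1 (hle (Subgroup.mem_top g)) w).1 hw
  by_contra hne
  have := hVmin _ hWn inf_le_left hne
  apply hVM
  rw [← this]
  exact inf_le_right

example : Cfsg.Agent.Lib.Helper17.CMStmt.A1.{u} := main

end Cfsg.Agent.Lib.Helper76.CMA1

#print axioms Cfsg.Agent.Lib.Helper76.CMA1.main
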