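import Mathlib
import Cfsg.Agent.Lib.Helper17.CMStmt
import Cfsg.Agent.S0086

set_option autoImplicit false

/-!
helper76: piece B0 of S3905 (helper17's call): a non-abelian minimal normal subgroup is not a
`p`-group, has no normal `p`-complement for `p ∣ |V|`, and contains no non-trivial abelian normal
subgroup of `G`.
-/

namespace Cfsg.Agent.Lib.Helper76.CMB0

open Subgroup Cfsg.Agent.Lib.Helper17.CMStmt

universe u

theorem main : Cfsg.Agent.Lib.Helper17.CMStmt.B0.{u} := by
  intro G _ _ N V hV hnab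
  obtain ⟨hVn, hVN, hVne, hVmin⟩ := hV
  have h3 : ∀ W : Subgroup G, W.Normal → W ≤ V → IsAb W → W = ⊥ := by
    intro W hWn hWV hWab
    by_contra hne
    have := hVmin W hWn hWV hne
    apply hnab
    rw [← this]; exact hWab
  have h1 : ∀ p : ℕ, p.Prime → ¬ IsPGroup p ↥V := by
    intro p hp hpg
    have : Fact p.Prime := ⟨hp⟩
    have hnt : Nontrivial ↥V := (Subgroup.nontrivial_iff_ne_bot V).2 hVne
    obtain ⟨z', hz'c, hz'1⟩ := SetLike.exists_of_lt hpg.bot_lt_center
    have hZn : (V ⊓ centralizer (V : Set G)).Normal := by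
      constructor
      intro w hw g
      obtain ⟨hwV, hwC⟩ := Subgroup.mem_inf.1 hw
      refine Subgroup.mem_inf.2 ⟨hVn.conj_mem w hwV g, ?_⟩
      rw [Subgroup.mem_centralizer_iff]
      intro v hv
      have hv' : g⁻¹ * v * g ∈ V := by
        have := hVn.conj_mem v hv g⁻¹
        simpa using this
      rw [Subgroup.mem_centralizer_iff] at hwC
      have hc := hwC _ hv'
      calc v * (g * w * g⁻¹) = g * ((g⁻¹ * v * g) * w) * g⁻¹ := by group
        _ = g * (w * (g⁻¹ * v * g)) * g⁻¹ := by rw [hc]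
        _ = g * w * g⁻¹ * v := by group
    have hZab : IsAb (V ⊓ centralizer (V : Set G)) := by
      intro a ha b hb
      have haC := (Subgroup.mem_inf.1 ha).2
      have hbV := (Subgroup.mem_inf.1 hb).1
      rw [Subgroup.mem_centralizer_iff] at haC
      exact (haC b hbV).symm
    have hZ := h3 _ hZn inf_le_left hZab
    have hzmem : ((z' : ↥V) : G) ∈ V ⊓ centralizer (V : Set G) := by
      refine Subgroup.mem_inf.2 ⟨z'.2, ?_⟩
      rw [Subgroup.mem_centralizer_iff]
      intro v hv
      have := Subgroup.mem_center_iff.1 hz'c ⟨v, hv⟩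
      exact congrArg Subtype.val this
    rw [hZ, Subgroup.mem_bot] at hzmem
    apply hz'1
    rw [Subgroup.mem_bot]
    exact Subtype.ext hzmem
  refine ⟨h1, ?_, h3⟩
  intro p hp hpd ⟨P, K, hKn, hKc⟩
  have : Fact p.Prime := ⟨hp⟩
  have : K.Normal := hKn
  have hKGn : (K.map V.subtype).Normal := by
    constructor
    intro w hw g
    obtain ⟨k, hk, rfl⟩ := hw
    have hmem : g * (k : G) * g⁻¹ ∈ V := hVn.conj_mem _ k.2 g
    refine ⟨⟨g * (k : G) * g⁻¹, hmem⟩, ?_, rfl⟩
    rw [SetLike.mem_coe, Cfsg.Agent.S0086.result P K hKc]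
    have hk' := (Cfsg.Agent.S0086.result P K hKc k).1 hk
    have e : orderOf (⟨g * (k : G) * g⁻¹, hmem⟩ : ↥V) = orderOf k := by
      rw [← Subgroup.orderOf_coe, ← Subgroup.orderOf_coe k]
      show orderOf (g * (k : G) * g⁻¹) = orderOf (k : G)
      rw [← MulAut.conj_apply, MulEquiv.orderOf_eq]
    rw [e]; exact hk'
  have hKGV : K.map V.subtype ≤ V := by
    rintro _ ⟨k, -, rfl⟩
    exact k.2
  by_cases hbot : K.map V.subtype = ⊥
  · have hK : K = ⊥ :=
      (Subgroup.map_eq_bot_iff_of_injective K (Subgroup.subtype_injective V)).1 hbot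
    rw [hK] at hKc
    have hPtop : (P : Subgroup ↥V) = ⊤ := Subgroup.isComplement'_bot_left.1 hKc
    apply h1 p hp
    intro g
    have hg : g ∈ (P : Subgroup ↥V) := hPtop ▸ Subgroup.mem_top g
    obtain ⟨k, hk⟩ := P.isPGroup' ⟨g, hg⟩
    exact ⟨k, congrArg Subtype.val hk⟩
  · have hKV := hVmin _ hKGn hKGV hbot
    have hK : K = ⊤ := by
      apply Subgroup.map_injective (Subgroup.subtype_injective V)
      rw [hKV, ← MonoidHom.range_eq_map, Subgroup.range_subtype]
    rw [hK] at hKc
    have hPbot : (P : Subgroup ↥V) = ⊥ := Subgroup.isComplement'_top_left.1 hKc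
    exact P.ne_bot_of_dvd_card hpd hPbot

example : Cfsg.Agent.Lib.Helper17.CMStmt.B0.{u} := main

end Cfsg.Agent.Lib.Helper76.CMB0

#print axioms Cfsg.Agent.Lib.Helper76.CMB0.main
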