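import Mathlib
import Cfsg.Agent.Lib.Helper17.CMStmt

set_option autoImplicit false

/-!
helper76: piece P4 of S3905 (helper17's call): two commuting non-identity elements of `N` with
different centralizers have the same prime order.
-/

namespace Cfsg.Agent.Lib.Helper76.CMP4

open Subgroup Cfsg.Agent.Lib.Helper17.CMStmt

universe u

theorem main : Cfsg.Agent.Lib.Helper17.CMStmt.P4.{u} := by
  intro G _ _ N hNn hR
  obtain ⟨hZ, hN1, hco⟩ := hR
  have coeq : ∀ a b : G, a ∈ N → a ≠ 1 → b ∈ N → b ≠ 1 →
      centralizer ({a} : Set G) ≤ centralizer ({b} : Set G) →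
      centralizer ({a} : Set G) = centralizer ({b} : Set G) := by
    intro a b ha ha1 hb hb1 hle
    by_contra hne
    have hlt : centralizer ({a} : Set G) < centralizer ({b} : Set G) := lt_of_le_of_ne hle hne
    have := (hco a ha ha1).2 _ hlt
    exact (hco b hb hb1).1 this
  have hmem : ∀ (c a : G), c ∈ centralizer ({a} : Set G) ↔ c * a = a * c := by
    intro c a
    rw [Subgroup.mem_centralizer_iff]
    constructor
    · intro h
      exact (h a (Set.mem_singleton a)).symm
    · intro h u hu
      rw [Set.mem_singleton_iff] at hu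
      rw [hu]; exact h.symm
  have hpow : ∀ (a : G) (k : ℕ), centralizer ({a} : Set G) ≤ centralizer ({a ^ k} : Set G) := by
    intro a k c hc
    rw [hmem] at hc ⊢
    exact ((show Commute c a from hc).pow_right k).eq
  have part1 : ∀ x ∈ N, ∀ y ∈ N, x ≠ 1 → y ≠ 1 → x * y = y * x →
      centralizer ({x} : Set G) ≠ centralizer ({y} : Set G) → x ^ orderOf y = 1 := by
    intro x hx y hy hx1 hy1 hxy hne
    by_contra hxm
    have hcomm : Commute x y := hxy
    have hxym : (x * y) ^ orderOf y = x ^ orderOf y := by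
      rw [hcomm.mul_pow, pow_orderOf_eq_one, mul_one]
    have hxy1 : x * y ≠ 1 := by
      intro h
      apply hxm
      rw [← hxym, h, one_pow]
    have hxyN : x * y ∈ N := N.mul_mem hx hy
    have e1 : centralizer ({x} : Set G) = centralizer ({x ^ orderOf y} : Set G) :=
      coeq x (x ^ orderOf y) hx hx1 (N.pow_mem hx _) hxm (hpow x _)
    have e2 : centralizer ({x * y} : Set G) = centralizer ({(x * y) ^ orderOf y} : Set G) :=
      coeq (x * y) ((x * y) ^ orderOf y) hxyN hxy1 (N.pow_mem hxyN _)
        (by rw [hxym]; exact hxm) (hpow (x * y) _)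
    rw [hxym] at e2
    have e3 : centralizer ({x} : Set G) = centralizer ({x * y} : Set G) := e1.trans e2.symm
    have hle : centralizer ({x} : Set G) ≤ centralizer ({y} : Set G) := by
      intro c hc
      have hc2 : c ∈ centralizer ({x * y} : Set G) := e3 ▸ hc
      rw [hmem] at hc hc2 ⊢
      have : x * (c * y) = x * (y * c) := by
        calc x * (c * y) = (x * c) * y := by rw [mul_assoc]
          _ = (c * x) * y := by rw [hc]
          _ = c * (x * y) := by rw [mul_assoc]
          _ = (x * y) * c := hc2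
          _ = x * (y * c) := by rw [mul_assoc]
      exact mul_left_cancel this
    exact hne (coeq x y hx hx1 hy hy1 hle)
  intro x hx y hy hx1 hy1 hxy hne
  have h1 := part1 x hx y hy hx1 hy1 hxy hne
  have h2 := part1 y hy x hx hy1 hx1 hxy.symm hne.symm
  have d1 : orderOf x ∣ orderOf y := orderOf_dvd_of_pow_eq_one h1
  have d2 : orderOf y ∣ orderOf x := orderOf_dvd_of_pow_eq_one h2
  have heq : orderOf x = orderOf y := Nat.dvd_antisymm d1 d2
  refine ⟨heq, ?_⟩
  by_contra hnp
  have hm1 : orderOf x ≠ 1 := by rw [Ne, orderOf_eq_one_iff]; exact hx1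
  have hmpos : 0 < orderOf x := orderOf_pos x
  have hrp : ((orderOf x).minFac).Prime := Nat.minFac_prime hm1
  have hrd : (orderOf x).minFac ∣ orderOf x := Nat.minFac_dvd _
  have hrne : (orderOf x).minFac ≠ orderOf x := by
    intro h
    apply hnp
    rw [← h]; exact hrp
  have hrlt : (orderOf x).minFac < orderOf x :=
    lt_of_le_of_ne (Nat.le_of_dvd hmpos hrd) hrne
  have hxr1 : x ^ (orderOf x).minFac ≠ 1 := by
    intro h
    have := Nat.le_of_dvd hrp.pos (orderOf_dvd_of_pow_eq_one h)
    omega
  have hxrN : x ^ (orderOf x).minFac ∈ N := N.pow_mem hx _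
  have e1 : centralizer ({x} : Set G) = centralizer ({x ^ (orderOf x).minFac} : Set G) :=
    coeq x (x ^ (orderOf x).minFac) hx hx1 hxrN hxr1 (hpow x _)
  have hne' : centralizer ({x ^ (orderOf x).minFac} : Set G) ≠ centralizer ({y} : Set G) := by
    rw [← e1]; exact hne
  have hcr : x ^ (orderOf x).minFac * y = y * x ^ (orderOf x).minFac :=
    ((show Commute x y from hxy).pow_left _).eq
  have h3 := part1 y hy (x ^ (orderOf x).minFac) hxrN hy1 hxr1 hcr.symm hne'.symm
  have d3 : orderOf y ∣ orderOf (x ^ (orderOf x).minFac) := orderOf_dvd_of_pow_eq_one h3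
  have hord : orderOf (x ^ (orderOf x).minFac) = orderOf x / (orderOf x).minFac :=
    orderOf_pow_of_dvd hrp.ne_zero hrd
  rw [hord, ← heq] at d3
  have hle := Nat.le_of_dvd (Nat.div_pos (Nat.le_of_dvd hmpos hrd) hrp.pos) d3
  have hlt2 : orderOf x / (orderOf x).minFac < orderOf x := Nat.div_lt_self hmpos hrp.one_lt
  omega

example : Cfsg.Agent.Lib.Helper17.CMStmt.P4.{u} := main

end Cfsg.Agent.Lib.Helper76.CMP4

#print axioms Cfsg.Agent.Lib.Helper76.CMP4.main
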