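import Mathlib
import Cfsg.Agent.Lib.Helper17.CMStmt

set_option autoImplicit false

/-!
helper76: piece P5 of S3905 (helper17's call): if some `y ∈ C_N(x)` has a different centralizer,
then `o(x)` is prime and `C_N(x)` has exponent `o(x)`.
-/

namespace Cfsg.Agent.Lib.Helper76.CMP5

open Subgroup Cfsg.Agent.Lib.Helper17.CMStmt

universe u

theorem main : Cfsg.Agent.Lib.Helper17.CMStmt.P5.{u} := by
  intro G _ _ N hNn hR hP4 x hx y hy hx1 hy1 hxy hne
  obtain ⟨heq, hprime⟩ := hP4 x hx y hy hx1 hy1 hxy hne
  refine ⟨hprime, ?_⟩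
  intro w hw hwx
  by_cases hw1 : w = 1
  · rw [hw1, one_pow]
  · by_cases hM : centralizer ({w} : Set G) = centralizer ({x} : Set G)
    · -- y commutes with w
      have hyx : y ∈ centralizer ({x} : Set G) := by
        rw [Subgroup.mem_centralizer_iff]
        intro h hh
        rw [Set.mem_singleton_iff] at hh
        rw [hh]; exact hxy
      rw [← hM, Subgroup.mem_centralizer_iff] at hyx
      have hwy : w * y = y * w := hyx w (Set.mem_singleton w)
      have hne' : centralizer ({w} : Set G) ≠ centralizer ({y} : Set G) := by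
        rw [hM]; exact hne
      have h1 := (hP4 w hw y hy hw1 hy1 hwy hne').1
      rw [heq, ← h1]
      exact pow_orderOf_eq_one w
    · have h1 := (hP4 w hw x hx hw1 hx1 hwx hM).1
      rw [← h1]
      exact pow_orderOf_eq_one w

example : Cfsg.Agent.Lib.Helper17.CMStmt.P5.{u} := main

end Cfsg.Agent.Lib.Helper76.CMP5

#print axioms Cfsg.Agent.Lib.Helper76.CMP5.main
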