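import Mathlib
import Cfsg.Agent.Lib.Helper17.CMStmt

set_option autoImplicit false

/-!
helper76: piece SYL of S3905 (helper17's call): `C_V(z) = P` for a suitable `z ∈ Z(P)`, `P` a Sylow
`p`-subgroup of the non-abelian minimal normal subgroup `V`.
-/

namespace Cfsg.Agent.Lib.Helper76.CMSYL

open Subgroup Cfsg.Agent.Lib.Helper17.CMStmt

universe u

theorem main : Cfsg.Agent.Lib.Helper17.CMStmt.Syl.{u} := by
  intro G _ _ N V hNn hR hV hnab hB2 hP5 p _ P hpd
  obtain ⟨hVn, hVN, hVne, hVmin⟩ := hV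
  have hp : p.Prime := Fact.out
  have hPne : (P : Subgroup ↥V) ≠ ⊥ := P.ne_bot_of_dvd_card hpd
  have hPnt : Nontrivial ↥(P : Subgroup ↥V) := (Subgroup.nontrivial_iff_ne_bot _).2 hPne
  obtain ⟨z', hz'c, hz'1⟩ := SetLike.exists_of_lt (P.isPGroup'.bot_lt_center)
  have hzV : ((z' : ↥V) : G) ∈ V := (z' : ↥V).2
  have hz1 : ((z' : ↥V) : G) ≠ 1 := by
    intro h
    apply hz'1
    rw [Subgroup.mem_bot]
    apply Subtype.ext
    apply Subtype.ext
    exact h
  have hmem : ∀ (c a : G), c ∈ centralizer ({a} : Set G) ↔ c * a = a * c := by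
    intro c a
    rw [Subgroup.mem_centralizer_iff]
    constructor
    · intro h
      exact (h a (Set.mem_singleton a)).symm
    · intro h u hu
      rw [Set.mem_singleton_iff] at hu
      rw [hu]; exact h.symm
  -- P ≤ C_V(z)
  have hPle : (P : Subgroup ↥V) ≤
      (V ⊓ centralizer ({((z' : ↥V) : G)} : Set G)).subgroupOf V := by
    intro v hv
    rw [Subgroup.mem_subgroupOf]
    refine Subgroup.mem_inf.2 ⟨v.2, ?_⟩
    rw [hmem]
    have := Subgroup.mem_center_iff.1 hz'c ⟨v, hv⟩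
    have h2 := congrArg (fun t : ↥(P : Subgroup ↥V) => ((t : ↥V) : G)) this
    exact h2
  -- the order of z
  obtain ⟨y, hyV, hy1, hyz, hMne⟩ := hB2 _ hzV hz1
  obtain ⟨hzprime, hexp⟩ := hP5 _ (hVN hzV) y (hVN hyV) hz1 hy1 hyz.symm hMne.symm
  obtain ⟨k, hk⟩ := (IsPGroup.iff_orderOf.1 P.isPGroup') z'
  have hord : orderOf ((z' : ↥V) : G) = p ^ k := by
    rw [Subgroup.orderOf_coe, Subgroup.orderOf_coe]; exact hk
  have hordp : orderOf ((z' : ↥V) : G) = p := by
    rw [hord] at hzprime ⊢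
    have hk0 : k ≠ 0 := by
      intro h
      rw [h, pow_zero] at hzprime
      exact Nat.not_prime_one hzprime
    have hdvd : p ∣ p ^ k := dvd_pow_self p hk0
    exact ((Nat.prime_dvd_prime_iff_eq hp hzprime).1 hdvd).symm
  rw [hordp] at hexp
  -- C_V(z) is a p-group
  have hQp : IsPGroup p ↥((V ⊓ centralizer ({((z' : ↥V) : G)} : Set G)).subgroupOf V) := by
    intro g
    refine ⟨1, ?_⟩
    have hg := g.2
    rw [Subgroup.mem_subgroupOf] at hg
    obtain ⟨hgV, hgC⟩ := Subgroup.mem_inf.1 hg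
    rw [hmem] at hgC
    have := hexp _ (hVN hgV) hgC
    apply Subtype.ext
    apply Subtype.ext
    simpa using this
  have heq := P.is_maximal' hQp hPle
  refine ⟨_, hzV, hz1, ?_⟩
  have h2 := Subgroup.map_subgroupOf_eq_of_le
    (inf_le_left : V ⊓ centralizer ({((z' : ↥V) : G)} : Set G) ≤ V)
  exact h2.symm.trans (congrArg (Subgroup.map V.subtype) heq)

example : Cfsg.Agent.Lib.Helper17.CMStmt.Syl.{u} := main

end Cfsg.Agent.Lib.Helper76.CMSYL

#print axioms Cfsg.Agent.Lib.Helper76.CMSYL.main
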