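import Mathlib
import Cfsg.Prelude.Def_Characters
import Cfsg.Agent.Lib.Helper3.Spectral
import Cfsg.Agent.Lib.Helper3.Irr
import Cfsg.Agent.Lib.Helper3.Orth
import Cfsg.Agent.Lib.Helper73.MaxClass
import Cfsg.Agent.Lib.Helper73.MaxClass2

/-!
# Fields of character values at an element of 2-power order

Tools for S4923: eigenvalue expansion of character values on a cyclic subgroup, the
containments `ℚ(χ(g) : χ) ⊆ ℚ(ζ + ζ^r)` (when `g ∼ g^r`) and `⊇` (second orthogonality),
and the cyclotomic degree facts needed to separate `ℚ(ζ ± ζ⁻¹)` from `ℚ(ζ²)`.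
-/

set_option autoImplicit false
open scoped ComplexConjugate
open Cfsg

namespace Cfsg.Agent.Lib.Helper76.CycField

/-- Character values on the powers of `g` are power sums of roots of unity. -/
theorem char_pow_eq_sum {G : Type*} [Group G] [Finite G] (χ : G → ℂ) (hχ : IsCharacter G χ)
    (g : G) :
    ∃ (d : ℕ) (μ : Fin d → ℂ), (∀ i, μ i ^ orderOf g = 1) ∧
      ∀ k : ℕ, χ (g ^ k) = ∑ i, μ i ^ k := by
  obtain ⟨n, ρ, rfl⟩ := hχ
  obtain ⟨b, μ, hb, hμ⟩ := Cfsg.Agent.Lib.Helper3.Spectral.exists_eigenbasis ρ g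
  refine ⟨_, μ, hμ, fun k => ?_⟩
  have hk : ∀ i, ρ (g ^ k) (b i) = μ i ^ k • b i := by
    intro i
    induction k with
    | zero => simp
    | succ k ih =>
      rw [pow_succ, map_mul, Module.End.mul_apply, hb i, map_smul, ih, smul_smul, pow_succ]
      congr 1
      ring
  exact Cfsg.Agent.Lib.Helper3.Spectral.trace_eq_sum_of_eigenbasis b (ρ (g ^ k))
    (fun i => μ i ^ k) hk

/-- Power sums `w ^ j + w' ^ j` lie in `ℚ(w + w')` when `w * w' = ±1`. -/
theorem pow_add_pow_mem (w w' : ℂ) (hww : w * w' = 1 ∨ w * w' = -1) (j : ℕ) :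
    w ^ j + w' ^ j ∈ IntermediateField.adjoin ℚ ({w + w'} : Set ℂ) := by
  have hs : w + w' ∈ IntermediateField.adjoin ℚ ({w + w'} : Set ℂ) :=
    IntermediateField.subset_adjoin ℚ _ (Set.mem_singleton _)
  have hp : w * w' ∈ IntermediateField.adjoin ℚ ({w + w'} : Set ℂ) := by
    rcases hww with h | h
    · rw [h]; exact one_mem _
    · rw [h]; exact neg_mem (one_mem _)
  have key : ∀ j : ℕ, w ^ j + w' ^ j ∈ IntermediateField.adjoin ℚ ({w + w'} : Set ℂ) ∧
      w ^ (j + 1) + w' ^ (j + 1) ∈ IntermediateField.adjoin ℚ ({w + w'} : Set ℂ) := by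
    intro j
    induction j with
    | zero =>
      refine ⟨?_, by simpa using hs⟩
      simp only [pow_zero]
      have : (1 : ℂ) + 1 = ((2 : ℚ) : ℂ) := by norm_num
      rw [this]
      exact IntermediateField.algebraMap_mem _ (2 : ℚ)
    | succ j ih =>
      refine ⟨ih.2, ?_⟩
      have e : w ^ (j + 1 + 1) + w' ^ (j + 1 + 1) =
          (w + w') * (w ^ (j + 1) + w' ^ (j + 1)) - (w * w') * (w ^ j + w' ^ j) := by ring
      rw [e]
      exact sub_mem (mul_mem hs ih.2) (mul_mem hp ih.1)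
  exact (key j).1


/-- If `g` is conjugate to `g ^ r`, all character values at `g` lie in `ℚ(ζ + ζ ^ r)`. -/
theorem char_mem_of_conj {G : Type*} [Group G] [Finite G] (χ : G → ℂ) (hχ : IsCharacter G χ)
    (g y : G) (r : ℕ) (hy : y * g * y⁻¹ = g ^ r) (ζ : ℂ) (hζ : IsPrimitiveRoot ζ (orderOf g))
    (hww : ζ * ζ ^ r = 1 ∨ ζ * ζ ^ r = -1) :
    χ g ∈ IntermediateField.adjoin ℚ ({ζ + ζ ^ r} : Set ℂ) := by
  obtain ⟨d, μ, hμ, hk⟩ := char_pow_eq_sum χ hχ g
  have h1 : χ g = ∑ i, μ i := by simpa using hk 1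
  have h2 : χ g = ∑ i, μ i ^ r := by
    rw [← hk r, ← hy]
    exact ((Cfsg.Agent.Lib.Helper3.Irr.IsCharacter.isClassFunction hχ) g y).symm
  have h3 : χ g = algebraMap ℚ ℂ (2⁻¹ : ℚ) * ∑ i, (μ i + μ i ^ r) := by
    rw [Finset.sum_add_distrib, ← h1, ← h2]
    simp
    ring
  have hi : ∀ i, μ i + μ i ^ r ∈ IntermediateField.adjoin ℚ ({ζ + ζ ^ r} : Set ℂ) := by
    intro i
    have : NeZero (orderOf g) := ⟨(orderOf_pos g).ne'⟩
    obtain ⟨j, _, hj⟩ := hζ.eq_pow_of_pow_eq_one (hμ i)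
    rw [← hj, ← pow_mul, mul_comm j r, pow_mul]
    exact pow_add_pow_mem ζ (ζ ^ r) hww j
  rw [h3]
  exact mul_mem (IntermediateField.algebraMap_mem _ _) (sum_mem fun i _ => hi i)

theorem geom_root (ξ : ℂ) (m : ℕ) (hξ : ξ ^ m = 1) :
    ∑ j ∈ Finset.range m, ξ ^ j = if ξ = 1 then (m : ℂ) else 0 := by
  split_ifs with h
  · simp [h]
  · rw [geom_sum_eq h m, hξ, sub_self, zero_div]

/-- The multiplicity of the eigenvalue `ζ` of `g` in a character, as a Fourier coefficient. -/
theorem mult_nat {G : Type*} [Group G] [Finite G] (χ : G → ℂ) (hχ : IsCharacter G χ) (g : G)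
    (ζ : ℂ) (hζ : ζ ^ orderOf g = 1) :
    ∃ N : ℕ, ∑ j ∈ Finset.range (orderOf g), ζ ^ j * conj (χ (g ^ j)) =
      (orderOf g : ℂ) * N := by
  classical
  obtain ⟨d, μ, hμ, hk⟩ := char_pow_eq_sum χ hχ g
  refine ⟨(Finset.univ.filter fun i => μ i = ζ).card, ?_⟩
  have hpos := orderOf_pos g
  have hinv : ∀ i, conj (μ i) = (μ i)⁻¹ := fun i =>
    (Cfsg.Agent.Lib.Helper3.Spectral.inv_eq_conj_of_pow_eq_one hpos (hμ i)).symm
  have hne : ∀ i, μ i ≠ 0 := by
    intro i h0
    have := hμ i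
    rw [h0, zero_pow hpos.ne'] at this
    exact zero_ne_one this
  calc ∑ j ∈ Finset.range (orderOf g), ζ ^ j * conj (χ (g ^ j))
      = ∑ j ∈ Finset.range (orderOf g), ∑ i, (ζ * (μ i)⁻¹) ^ j := by
        refine Finset.sum_congr rfl fun j _ => ?_
        rw [hk j, map_sum, Finset.mul_sum]
        refine Finset.sum_congr rfl fun i _ => ?_
        rw [map_pow, hinv, mul_pow]
    _ = ∑ i, ∑ j ∈ Finset.range (orderOf g), (ζ * (μ i)⁻¹) ^ j := Finset.sum_comm
    _ = ∑ i, if μ i = ζ then (orderOf g : ℂ) else 0 := by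
        refine Finset.sum_congr rfl fun i _ => ?_
        rw [geom_root _ _ (by rw [mul_pow, inv_pow, hζ, hμ i]; simp)]
        have hiff : (ζ * (μ i)⁻¹ = 1) ↔ μ i = ζ := by
          constructor
          · intro h
            have := congrArg (· * μ i) h
            simp only [one_mul] at this
            rw [mul_assoc, inv_mul_cancel₀ (hne i), mul_one] at this
            exact this.symm
          · intro h
            rw [← h]
            exact mul_inv_cancel₀ (hne i)
        simp only [hiff]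
    _ = (orderOf g : ℂ) * ((Finset.univ.filter fun i => μ i = ζ).card : ℕ) := by
        rw [Finset.sum_ite, Finset.sum_const_zero, add_zero, Finset.sum_const, nsmul_eq_mul,
          mul_comm]

/-- If the only powers of `g` conjugate to `g` are `g` and `g ^ r`, then `ζ + ζ ^ r` is a
rational combination of the character values at `g`. -/
theorem root_sum_mem {G : Type*} [Group G] [Finite G] (g : G) (r : ℕ) (hr : r < orderOf g)
    (hr1 : r ≠ 1) (h1 : 1 < orderOf g) (hyr : IsConj g (g ^ r))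
    (hconj : ∀ j : ℕ, IsConj g (g ^ j) → g ^ j = g ∨ g ^ j = g ^ r)
    (ζ : ℂ) (hζ : ζ ^ orderOf g = 1) :
    ζ + ζ ^ r ∈ IntermediateField.adjoin ℚ
      {z : ℂ | ∃ χ : IrrCharacter G, (χ : G → ℂ) g = z} := by
  classical
  have : Finite (IrrCharacter G) := Cfsg.Agent.Lib.Helper3.Irr.finite_irrCharacter
  have : Fintype (IrrCharacter G) := Fintype.ofFinite _
  have hN : ∀ χ : IrrCharacter G, ∃ N : ℕ,
      ∑ j ∈ Finset.range (orderOf g), ζ ^ j * conj ((χ : G → ℂ) (g ^ j)) =
        (orderOf g : ℂ) * N := fun χ =>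
    mult_nat _ (Cfsg.Agent.Lib.Helper3.Irr.IsIrrCharacter.isCharacter χ.2) g ζ hζ
  choose N hN using hN
  have hiff : ∀ j ∈ Finset.range (orderOf g), (IsConj g (g ^ j) ↔ (j = 1 ∨ j = r)) := by
    intro j hj
    have hj' : j < orderOf g := Finset.mem_range.1 hj
    constructor
    · intro h
      rcases hconj j h with h' | h'
      · left
        exact pow_injOn_Iio_orderOf (Set.mem_Iio.2 hj') (Set.mem_Iio.2 h1) (by simpa using h')
      · right
        exact pow_injOn_Iio_orderOf (Set.mem_Iio.2 hj') (Set.mem_Iio.2 hr) h'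
    · rintro (rfl | rfl)
      · rw [pow_one]
      · exact hyr
  have hsum : ∑ χ : IrrCharacter G, ((orderOf g : ℂ) * N χ) * (χ : G → ℂ) g =
      (Nat.card (Subgroup.centralizer ({g} : Set G)) : ℂ) * (ζ + ζ ^ r) := by
    calc ∑ χ : IrrCharacter G, ((orderOf g : ℂ) * N χ) * (χ : G → ℂ) g
        = ∑ χ : IrrCharacter G, ∑ j ∈ Finset.range (orderOf g),
            ζ ^ j * ((χ : G → ℂ) g * conj ((χ : G → ℂ) (g ^ j))) := by
          refine Finset.sum_congr rfl fun χ _ => ?_
          rw [← hN χ, Finset.sum_mul]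
          refine Finset.sum_congr rfl fun j _ => ?_
          ring
      _ = ∑ j ∈ Finset.range (orderOf g), ζ ^ j *
            ∑ χ : IrrCharacter G, (χ : G → ℂ) g * conj ((χ : G → ℂ) (g ^ j)) := by
          rw [Finset.sum_comm]
          refine Finset.sum_congr rfl fun j _ => ?_
          rw [Finset.mul_sum]
      _ = ∑ j ∈ Finset.range (orderOf g), ((if j = 1 then ζ ^ j *
            (Nat.card (Subgroup.centralizer ({g} : Set G)) : ℂ) else 0) + (if j = r then ζ ^ j *
            (Nat.card (Subgroup.centralizer ({g} : Set G)) : ℂ) else 0)) := by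
          refine Finset.sum_congr rfl fun j hj => ?_
          rw [Cfsg.Agent.Lib.Helper3.Orth.second_orthogonality_sum g (g ^ j)]
          by_cases hc : IsConj g (g ^ j)
          · rw [if_pos hc]
            rcases (hiff j hj).1 hc with rfl | rfl
            · rw [if_pos rfl, if_neg (Ne.symm hr1), add_zero]
            · rw [if_neg hr1, if_pos rfl, zero_add]
          · rw [if_neg hc]
            have hn := fun h => hc ((hiff j hj).2 h)
            rw [if_neg (fun h => hn (Or.inl h)), if_neg (fun h => hn (Or.inr h))]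
            simp
      _ = (Nat.card (Subgroup.centralizer ({g} : Set G)) : ℂ) * (ζ + ζ ^ r) := by
          rw [Finset.sum_add_distrib, Finset.sum_ite_eq' , Finset.sum_ite_eq',
            if_pos (Finset.mem_range.2 h1), if_pos (Finset.mem_range.2 hr)]
          ring
  have hC : (Nat.card (Subgroup.centralizer ({g} : Set G)) : ℂ) ≠ 0 := by
    exact_mod_cast Nat.card_pos.ne'
  have heq : ζ + ζ ^ r = (Nat.card (Subgroup.centralizer ({g} : Set G)) : ℂ)⁻¹ *
      ∑ χ : IrrCharacter G, ((orderOf g : ℂ) * N χ) * (χ : G → ℂ) g := by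
    rw [hsum, inv_mul_cancel_left₀ hC]
  rw [heq]
  refine mul_mem (inv_mem (natCast_mem _ _)) (sum_mem fun χ _ => ?_)
  refine mul_mem (mul_mem (natCast_mem _ _) (natCast_mem _ _)) ?_
  exact IntermediateField.subset_adjoin ℚ _ ⟨χ, rfl⟩

/-- If `g ^ h = 1`, character values at `g` lie in `ℚ(ξ)` for `ξ` a primitive `h`-th root. -/
theorem char_mem_of_pow_eq_one {G : Type*} [Group G] [Finite G] (χ : G → ℂ)
    (hχ : IsCharacter G χ) (g : G) (h : ℕ) (hh : 0 < h) (hg : g ^ h = 1) (ξ : ℂ)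
    (hξ : IsPrimitiveRoot ξ h) : χ g ∈ IntermediateField.adjoin ℚ ({ξ} : Set ℂ) := by
  obtain ⟨d, μ, hμ, hk⟩ := char_pow_eq_sum χ hχ g
  have h1 : χ g = ∑ i, μ i := by simpa using hk 1
  rw [h1]
  refine sum_mem fun i _ => ?_
  have : NeZero h := ⟨hh.ne'⟩
  have hdvd : orderOf g ∣ h := orderOf_dvd_of_pow_eq_one hg
  have hμh : μ i ^ h = 1 := by
    obtain ⟨c, rfl⟩ := hdvd
    rw [pow_mul, hμ i, one_pow]
  obtain ⟨j, _, hj⟩ := hξ.eq_pow_of_pow_eq_one hμh
  rw [← hj]
  exact pow_mem (IntermediateField.subset_adjoin ℚ _ (Set.mem_singleton _)) j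

/-- The "modular" case: if `g ^ (2 * h) = 1` and `g` is conjugate to `g ^ (h + 1)`, character
values at `g` lie in `ℚ(ξ)` for `ξ` a primitive `h`-th root of unity. -/
theorem char_mem_of_conj_half {G : Type*} [Group G] [Finite G] (χ : G → ℂ)
    (hχ : IsCharacter G χ) (g y : G) (h : ℕ) (hh : 0 < h) (hg : g ^ (2 * h) = 1)
    (hy : y * g * y⁻¹ = g ^ (h + 1)) (ξ : ℂ) (hξ : IsPrimitiveRoot ξ h) :
    χ g ∈ IntermediateField.adjoin ℚ ({ξ} : Set ℂ) := by
  obtain ⟨d, μ, hμ, hk⟩ := char_pow_eq_sum χ hχ g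
  have h1 : χ g = ∑ i, μ i := by simpa using hk 1
  have h2 : χ g = ∑ i, μ i ^ (h + 1) := by
    rw [← hk (h + 1), ← hy]
    exact ((Cfsg.Agent.Lib.Helper3.Irr.IsCharacter.isClassFunction hχ) g y).symm
  have h3 : χ g = algebraMap ℚ ℂ (2⁻¹ : ℚ) * ∑ i, (μ i + μ i ^ (h + 1)) := by
    rw [Finset.sum_add_distrib, ← h1, ← h2]
    simp
    ring
  have : NeZero h := ⟨hh.ne'⟩
  have hdvd : orderOf g ∣ 2 * h := orderOf_dvd_of_pow_eq_one hg
  have hi : ∀ i, μ i + μ i ^ (h + 1) ∈ IntermediateField.adjoin ℚ ({ξ} : Set ℂ) := by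
    intro i
    have hμ2 : (μ i ^ h) ^ 2 = 1 := by
      rw [← pow_mul, mul_comm]
      obtain ⟨c, hc⟩ := hdvd
      rw [hc, pow_mul, hμ i, one_pow]
    have hpm : μ i ^ h = 1 ∨ μ i ^ h = -1 := by
      have : (μ i ^ h - 1) * (μ i ^ h + 1) = 0 := by linear_combination hμ2
      rcases mul_eq_zero.1 this with h' | h'
      · left; exact sub_eq_zero.1 h'
      · right; exact eq_neg_of_add_eq_zero_left h'
    rcases hpm with h' | h'
    · obtain ⟨j, _, hj⟩ := hξ.eq_pow_of_pow_eq_one h'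
      rw [pow_succ, h', one_mul, ← hj]
      exact add_mem (pow_mem (IntermediateField.subset_adjoin ℚ _ (Set.mem_singleton _)) j)
        (pow_mem (IntermediateField.subset_adjoin ℚ _ (Set.mem_singleton _)) j)
    · rw [pow_succ, h']
      simp
  rw [h3]
  exact mul_mem (IntermediateField.algebraMap_mem _ _) (sum_mem fun i _ => hi i)

theorem finrank_adjoin_primitiveRoot (ζ : ℂ) (n : ℕ) (hn : 0 < n) (hζ : IsPrimitiveRoot ζ n) :
    Module.finrank ℚ (IntermediateField.adjoin ℚ ({ζ} : Set ℂ)) = n.totient := by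
  have hint : IsIntegral ℚ ζ := (hζ.isIntegral hn).tower_top
  rw [IntermediateField.adjoin.finrank hint, ← Polynomial.cyclotomic_eq_minpoly_rat hζ hn,
    Polynomial.natDegree_cyclotomic]

/-- A primitive `2 ^ (k + 2)`-th root of unity does not lie in the field of its square. -/
theorem not_mem_adjoin_sq (ζ : ℂ) (k : ℕ) (hζ : IsPrimitiveRoot ζ (2 ^ (k + 2))) :
    ζ ∉ IntermediateField.adjoin ℚ ({ζ ^ 2} : Set ℂ) := by
  intro hmem
  have h2 : IsPrimitiveRoot (ζ ^ 2) (2 ^ (k + 1)) := by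
    have := hζ.pow_of_dvd (p := 2) (by norm_num) (dvd_pow_self 2 (by omega))
    rwa [show 2 ^ (k + 2) / 2 = 2 ^ (k + 1) from by rw [pow_succ]; simp] at this
  have hle : IntermediateField.adjoin ℚ ({ζ} : Set ℂ) ≤
      IntermediateField.adjoin ℚ ({ζ ^ 2} : Set ℂ) :=
    IntermediateField.adjoin_le_iff.2 (Set.singleton_subset_iff.2 hmem)
  have hge : IntermediateField.adjoin ℚ ({ζ ^ 2} : Set ℂ) ≤
      IntermediateField.adjoin ℚ ({ζ} : Set ℂ) :=
    IntermediateField.adjoin_le_iff.2 (Set.singleton_subset_iff.2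
      (pow_mem (IntermediateField.subset_adjoin ℚ _ (Set.mem_singleton _)) 2))
  have heq := le_antisymm hle hge
  have f1 := finrank_adjoin_primitiveRoot ζ _ (by positivity) hζ
  have f2 := finrank_adjoin_primitiveRoot (ζ ^ 2) _ (by positivity) h2
  rw [heq, f2] at f1
  rw [Nat.totient_prime_pow Nat.prime_two (by omega),
    Nat.totient_prime_pow Nat.prime_two (by omega)] at f1
  simp at f1

/-- For a primitive `2 ^ (k + 3)`-th root of unity `ζ`, neither `ζ + ζ⁻¹` nor `ζ - ζ⁻¹` lies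
in `ℚ(ζ²)`. -/
theorem add_inv_not_mem (ζ : ℂ) (k : ℕ) (hζ : IsPrimitiveRoot ζ (2 ^ (k + 3))) :
    ζ + ζ⁻¹ ∉ IntermediateField.adjoin ℚ ({ζ ^ 2} : Set ℂ) ∧
      ζ - ζ⁻¹ ∉ IntermediateField.adjoin ℚ ({ζ ^ 2} : Set ℂ) := by
  have hz0 : ζ ≠ 0 := hζ.ne_zero (by positivity)
  have hsq : ζ ^ 2 ∈ IntermediateField.adjoin ℚ ({ζ ^ 2} : Set ℂ) :=
    IntermediateField.subset_adjoin ℚ _ (Set.mem_singleton _)
  have hnot := not_mem_adjoin_sq ζ (k + 1) hζ
  have hne1 : ζ ^ 2 ≠ 1 := by
    intro h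
    have := hζ.dvd_of_pow_eq_one 2 h
    have h8 : 8 ∣ 2 ^ (k + 3) := ⟨2 ^ k, by ring⟩
    have := Nat.le_of_dvd (by norm_num) (dvd_trans h8 this)
    omega
  have hne2 : ζ ^ 2 ≠ -1 := by
    intro h
    have h4 : ζ ^ 4 = 1 := by
      have : ζ ^ 4 = (ζ ^ 2) ^ 2 := by ring
      rw [this, h]; norm_num
    have := hζ.dvd_of_pow_eq_one 4 h4
    have h8 : 8 ∣ 2 ^ (k + 3) := ⟨2 ^ k, by ring⟩
    have := Nat.le_of_dvd (by norm_num) (dvd_trans h8 this)
    omega
  constructor
  · intro hmem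
    have hc : 1 + (ζ ^ 2)⁻¹ ∈ IntermediateField.adjoin ℚ ({ζ ^ 2} : Set ℂ) :=
      add_mem (one_mem _) (inv_mem hsq)
    have hc0 : 1 + (ζ ^ 2)⁻¹ ≠ 0 := by
      intro h
      apply hne2
      have h' : (ζ ^ 2)⁻¹ = -1 := by linear_combination h
      have : ζ ^ 2 = ((ζ ^ 2)⁻¹)⁻¹ := (inv_inv _).symm
      rw [this, h']; norm_num
    have hfac : ζ + ζ⁻¹ = ζ * (1 + (ζ ^ 2)⁻¹) := by
      field_simp
    have hζeq : (ζ + ζ⁻¹) * (1 + (ζ ^ 2)⁻¹)⁻¹ = ζ := by
      rw [hfac, mul_assoc, mul_inv_cancel₀ hc0, mul_one]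
    apply hnot
    have hm := mul_mem hmem (inv_mem hc)
    rwa [hζeq] at hm
  · intro hmem
    have hc : 1 - (ζ ^ 2)⁻¹ ∈ IntermediateField.adjoin ℚ ({ζ ^ 2} : Set ℂ) :=
      sub_mem (one_mem _) (inv_mem hsq)
    have hc0 : 1 - (ζ ^ 2)⁻¹ ≠ 0 := by
      intro h
      apply hne1
      have h' : (ζ ^ 2)⁻¹ = 1 := by linear_combination -h
      have : ζ ^ 2 = ((ζ ^ 2)⁻¹)⁻¹ := (inv_inv _).symm
      rw [this, h']; norm_num
    have hfac : ζ - ζ⁻¹ = ζ * (1 - (ζ ^ 2)⁻¹) := by
      field_simp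
    have hζeq : (ζ - ζ⁻¹) * (1 - (ζ ^ 2)⁻¹)⁻¹ = ζ := by
      rw [hfac, mul_assoc, mul_inv_cancel₀ hc0, mul_one]
    apply hnot
    have hm := mul_mem hmem (inv_mem hc)
    rwa [hζeq] at hm


/-- Normalizer versus centralizer of a cyclic `2`-subgroup `⟨g⟩` of order `2 ^ k` in a group
whose order is not divisible by `2 ^ (k + 2)`: if `g` is conjugate to `g ^ r ≠ g`, then the
class of `g` has even size and the only conjugates of `g` inside `⟨g⟩` are `g` and `g ^ r`. -/
theorem normalizer_structure {G : Type*} [Group G] [Finite G] (k : ℕ)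
    (h2 : ¬ 2 ^ (k + 2) ∣ Nat.card G) (g y : G) (hg : orderOf g = 2 ^ k) (r : ℕ)
    (hy : y * g * y⁻¹ = g ^ r) (hne : g ^ r ≠ g) :
    2 ∣ (Subgroup.centralizer ({g} : Set G)).index ∧
      ∀ (x : G) (j : ℕ), x * g * x⁻¹ = g ^ j → g ^ j = g ∨ g ^ j = g ^ r := by
  classical
  have hmemC : ∀ x : G, x ∈ Subgroup.centralizer ({g} : Set G) ↔ x * g * x⁻¹ = g := by
    intro x
    rw [Subgroup.mem_centralizer_iff]
    constructor
    · intro h
      have := h g (Set.mem_singleton g)
      rw [← this, mul_inv_cancel_right]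
    · intro h z hz
      rw [Set.mem_singleton_iff] at hz
      subst hz
      calc z * x = (x * z * x⁻¹) * x := by rw [h]
        _ = x * z := by group
  have hmemN : ∀ x : G, ∀ j : ℕ, x * g * x⁻¹ = g ^ j →
      x ∈ Subgroup.normalizer ((Subgroup.zpowers g : Subgroup G) : Set G) := by
    intro x j hx
    apply Subgroup.mem_normalizer_fintype
    intro n hn
    obtain ⟨i, rfl⟩ := Subgroup.mem_zpowers_iff.1 hn
    have : x * g ^ i * x⁻¹ = (g ^ j) ^ i := by rw [← hx, conj_zpow]
    rw [this]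
    exact zpow_mem (pow_mem (Subgroup.mem_zpowers g) j) i
  have hCN : Subgroup.centralizer ({g} : Set G) ≤
      Subgroup.normalizer ((Subgroup.zpowers g : Subgroup G) : Set G) := fun x hx =>
    hmemN x 1 (by rw [pow_one]; exact (hmemC x).1 hx)
  have hNpow : ∀ x ∈ Subgroup.normalizer ((Subgroup.zpowers g : Subgroup G) : Set G),
      ∃ j : ℕ, x * g * x⁻¹ = g ^ j := by
    intro x hx
    have h1 := (Subgroup.mem_normalizer_iff.1 hx g).1 (Subgroup.mem_zpowers g)
    obtain ⟨j, hj⟩ := (mem_powers_iff_mem_zpowers).2 h1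
    exact ⟨j, hj.symm⟩
  have hk0 : 0 < k := by
    rcases Nat.eq_zero_or_pos k with h | h
    · exfalso
      rw [h, pow_zero, orderOf_eq_one_iff] at hg
      apply hne
      rw [hg, one_pow]
    · exact h
  -- every element of the normalizer has a `2`-power power in the centralizer
  have hpow2 : ∀ x ∈ Subgroup.normalizer ((Subgroup.zpowers g : Subgroup G) : Set G),
      x ^ 2 ^ (k - 1) ∈ Subgroup.centralizer ({g} : Set G) := by
    intro x hx
    obtain ⟨j, hj⟩ := hNpow x hx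
    have hiter : ∀ t : ℕ, x ^ t * g * (x ^ t)⁻¹ = g ^ (j ^ t) := by
      intro t
      induction t with
      | zero => simp
      | succ t ih =>
        have : x ^ (t + 1) * g * (x ^ (t + 1))⁻¹ = x * (x ^ t * g * (x ^ t)⁻¹) * x⁻¹ := by
          rw [pow_succ']; group
        rw [this, ih, ← conj_pow, hj, ← pow_mul, pow_succ']
    have hord : orderOf (g ^ j) = orderOf g := by
      rw [← hj]
      have := (MulAut.conj x).orderOf_eq g
      rwa [MulAut.conj_apply] at this
    have hcop : Nat.Coprime j (2 ^ k) := by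
      have hpos := orderOf_pos g
      rw [orderOf_pow' g (fun h0 => by
        rw [h0, pow_zero, orderOf_one] at hord
        rw [hg] at hord
        have := Nat.one_lt_two_pow hk0.ne'
        omega)] at hord
      have hgcd : Nat.gcd (orderOf g) j = 1 := by
        rcases (Nat.div_eq_self.1 hord) with h | h
        · omega
        · exact h
      rw [hg] at hgcd
      exact Nat.Coprime.symm hgcd
    have hmod := Nat.ModEq.pow_totient hcop
    rw [Nat.totient_prime_pow Nat.prime_two hk0] at hmod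
    simp only [Nat.add_one_sub_one, mul_one] at hmod
    rw [hmemC, hiter]
    have : g ^ (j ^ 2 ^ (k - 1)) = g ^ 1 := by
      rw [pow_eq_pow_iff_modEq, hg]
      exact hmod
    rw [this, pow_one]
  -- the centralizer is normal in the normalizer, with quotient a `2`-group
  have hnorm : ((Subgroup.centralizer ({g} : Set G)).subgroupOf
      (Subgroup.normalizer ((Subgroup.zpowers g : Subgroup G) : Set G))).Normal := by
    refine ⟨fun c hc n => ?_⟩
    rw [Subgroup.mem_subgroupOf] at hc ⊢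
    obtain ⟨i, hi⟩ := hNpow _ (inv_mem n.2)
    rw [inv_inv] at hi
    have hcg := (hmemC _).1 hc
    have hcp : (c : G) * g ^ i * (c : G)⁻¹ = g ^ i := by rw [← conj_pow, hcg]
    rw [hmemC]
    push_cast
    calc (n : G) * c * (n : G)⁻¹ * g * ((n : G) * c * (n : G)⁻¹)⁻¹
        = n * (c * ((n : G)⁻¹ * g * n) * (c : G)⁻¹) * (n : G)⁻¹ := by group
      _ = n * ((n : G)⁻¹ * g * n) * (n : G)⁻¹ := by rw [hi, hcp]
      _ = g := by group
  have hpg : IsPGroup 2 (↥(Subgroup.normalizer ((Subgroup.zpowers g : Subgroup G) : Set G)) ⧸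
      ((Subgroup.centralizer ({g} : Set G)).subgroupOf
        (Subgroup.normalizer ((Subgroup.zpowers g : Subgroup G) : Set G)))) := by
    intro q
    induction q using QuotientGroup.induction_on with
    | H x =>
      refine ⟨k - 1, ?_⟩
      rw [← QuotientGroup.mk_pow, QuotientGroup.eq_one_iff, Subgroup.mem_subgroupOf]
      push_cast
      exact hpow2 x x.2
  have : Fact (Nat.Prime 2) := ⟨Nat.prime_two⟩
  obtain ⟨t, ht⟩ := (IsPGroup.iff_card).1 hpg
  rw [← Subgroup.index_eq_card] at ht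
  have hrel : (Subgroup.centralizer ({g} : Set G)).relIndex
      (Subgroup.normalizer ((Subgroup.zpowers g : Subgroup G) : Set G)) = 2 ^ t := ht
  have hidx := Subgroup.relIndex_mul_index hCN
  rw [hrel] at hidx
  have hyN : y ∈ Subgroup.normalizer ((Subgroup.zpowers g : Subgroup G) : Set G) :=
    hmemN y r hy
  have hyC : y ∉ Subgroup.centralizer ({g} : Set G) := by
    rw [hmemC, hy]
    exact hne
  have ht0 : t ≠ 0 := by
    intro h0
    rw [h0, pow_zero] at hrel
    exact hyC (Subgroup.relIndex_eq_one.1 hrel hyN)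
  have hgC : g ∈ Subgroup.centralizer ({g} : Set G) := by
    rw [hmemC]; group
  have hdvdC : 2 ^ k ∣ Nat.card (Subgroup.centralizer ({g} : Set G)) := by
    have h1 := Subgroup.card_dvd_of_le
      ((Subgroup.zpowers_le (H := Subgroup.centralizer ({g} : Set G))).2 hgC)
    rwa [Nat.card_zpowers, hg] at h1
  have ht1 : t ≤ 1 := by
    by_contra hcon
    apply h2
    have hcard := Subgroup.card_mul_index (Subgroup.centralizer ({g} : Set G))
    rw [← hidx] at hcard
    have h3 : 2 ^ (k + 2) ∣ 2 ^ k * 2 ^ t := by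
      rw [← pow_add]
      exact pow_dvd_pow 2 (by omega)
    rw [← hcard]
    calc 2 ^ (k + 2) ∣ 2 ^ k * 2 ^ t := h3
      _ ∣ Nat.card (Subgroup.centralizer ({g} : Set G)) * (2 ^ t *
            (Subgroup.normalizer ((Subgroup.zpowers g : Subgroup G) : Set G)).index) :=
          Nat.mul_dvd_mul hdvdC (dvd_mul_right _ _)
  have ht' : t = 1 := by omega
  subst ht'
  rw [pow_one] at hrel ht hidx
  refine ⟨⟨_, hidx.symm⟩, fun x j hx => ?_⟩
  have hxN := hmemN x j hx
  by_cases hxC : x ∈ Subgroup.centralizer ({g} : Set G)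
  · left
    rw [← hx]
    exact (hmemC x).1 hxC
  · right
    have hmi := Subgroup.mul_mem_iff_of_index_two ht
      (a := (⟨y, hyN⟩ : ↥(Subgroup.normalizer ((Subgroup.zpowers g : Subgroup G) : Set G)))⁻¹)
      (b := ⟨x, hxN⟩)
    have hiff : ((⟨y, hyN⟩ :
        ↥(Subgroup.normalizer ((Subgroup.zpowers g : Subgroup G) : Set G)))⁻¹ ∈
        (Subgroup.centralizer ({g} : Set G)).subgroupOf
          (Subgroup.normalizer ((Subgroup.zpowers g : Subgroup G) : Set G)) ↔
        (⟨x, hxN⟩ : ↥(Subgroup.normalizer ((Subgroup.zpowers g : Subgroup G) : Set G))) ∈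
        (Subgroup.centralizer ({g} : Set G)).subgroupOf
          (Subgroup.normalizer ((Subgroup.zpowers g : Subgroup G) : Set G))) := by
      rw [inv_mem_iff, Subgroup.mem_subgroupOf, Subgroup.mem_subgroupOf]
      exact ⟨fun h => absurd h hyC, fun h => absurd h hxC⟩
    have hmem := hmi.2 hiff
    rw [Subgroup.mem_subgroupOf] at hmem
    have hmem' : y⁻¹ * x ∈ Subgroup.centralizer ({g} : Set G) := by simpa using hmem
    have h4 := (hmemC _).1 hmem'
    rw [← hx, ← hy]
    calc x * g * x⁻¹ = y * (y⁻¹ * x * g * (y⁻¹ * x)⁻¹) * y⁻¹ := by group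
      _ = y * g * y⁻¹ := by rw [h4]


/-- Square roots of `1` modulo `2 ^ (e + 2)`. -/
theorem sq_modEq_one_cases (e r : ℕ) (hr : r < 2 ^ (e + 2))
    (h : r * r ≡ 1 [MOD 2 ^ (e + 2)]) :
    r = 1 ∨ r = 2 ^ (e + 2) - 1 ∨ r = 2 ^ (e + 1) - 1 ∨ r = 2 ^ (e + 1) + 1 := by
  have hodd : r % 2 = 1 := by
    have h2 : r * r ≡ 1 [MOD 2] := h.of_dvd (dvd_pow_self 2 (by omega))
    rcases Nat.mod_two_eq_zero_or_one r with h0 | h1
    · exfalso
      have h3 : r * r % 2 = 0 := by rw [Nat.mul_mod, h0]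
      have h4 : r * r % 2 = 1 % 2 := h2
      omega
    · exact h1
  obtain ⟨s, rfl⟩ : ∃ s, r = 2 * s + 1 := ⟨r / 2, by omega⟩
  have hdvd : 2 ^ (e + 2) ∣ (2 * s + 1) * (2 * s + 1) - 1 :=
    (Nat.modEq_iff_dvd' (by nlinarith)).1 h.symm
  have heq : (2 * s + 1) * (2 * s + 1) - 1 = 4 * (s * (s + 1)) := by
    have : (2 * s + 1) * (2 * s + 1) = 4 * (s * (s + 1)) + 1 := by ring
    omega
  have hp2 : 2 ^ (e + 2) = 4 * 2 ^ e := by ring
  have hp1 : 2 ^ (e + 1) = 2 * 2 ^ e := by ring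
  rw [heq, hp2] at hdvd
  have hdvd' : 2 ^ e ∣ s * (s + 1) := Nat.dvd_of_mul_dvd_mul_left (by norm_num) hdvd
  rw [hp2] at hr
  rw [hp2, hp1]
  have hpos : 0 < 2 ^ e := by positivity
  rcases Nat.even_or_odd s with hev | hod
  · have hcop : Nat.Coprime (2 ^ e) (s + 1) :=
      Nat.Coprime.pow_left e (Nat.coprime_two_left.2 (Even.add_one hev))
    have h3 : 2 ^ e ∣ s := hcop.dvd_of_dvd_mul_right hdvd'
    obtain ⟨c, hc⟩ := h3
    clear hcop hdvd' hdvd hp1 hp2 h heq hodd hev
    generalize 2 ^ e = N at *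
    have hc2 : c < 2 := by
      by_contra hcon
      have : N * 2 ≤ N * c := Nat.mul_le_mul_left _ (by omega)
      omega
    interval_cases c
    · left; omega
    · right; right; right; omega
  · have hcop : Nat.Coprime (2 ^ e) s :=
      Nat.Coprime.pow_left e (Nat.coprime_two_left.2 hod)
    have h3 : 2 ^ e ∣ s + 1 := hcop.dvd_of_dvd_mul_left hdvd'
    obtain ⟨c, hc⟩ := h3
    clear hcop hdvd' hdvd hp1 hp2 h heq hodd hod
    generalize 2 ^ e = N at *
    have hc2 : c ≤ 2 := by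
      by_contra hcon
      have : N * 3 ≤ N * c := Nat.mul_le_mul_left _ (by omega)
      omega
    have hc0 : 1 ≤ c := by
      rcases Nat.eq_zero_or_pos c with h0 | h0
      · rw [h0] at hc
        simp at hc
      · exact h0
    interval_cases c
    · right; right; left; omega
    · right; left; omega

/-- A group of order `2 ^ (e + 3)` with a non-central element `a` of order `2 ^ (e + 2)`:
the possible conjugation exponents. -/
theorem conj_exponent_cases {S : Type*} [Group S] [Finite S] (e : ℕ)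
    (hS : Nat.card S = 2 ^ (e + 3)) (a y : S) (ha : orderOf a = 2 ^ (e + 2))
    (hne : y * a * y⁻¹ ≠ a) :
    (Subgroup.zpowers a).index = 2 ∧ y ∉ Subgroup.zpowers a ∧
      ∃ r : ℕ, y * a * y⁻¹ = a ^ r ∧
        (r = 2 ^ (e + 2) - 1 ∨ r = 2 ^ (e + 1) - 1 ∨ r = 2 ^ (e + 1) + 1) := by
  have hidx : (Subgroup.zpowers a).index = 2 := by
    have h1 := Subgroup.card_mul_index (Subgroup.zpowers a)
    rw [Nat.card_zpowers, ha, hS, pow_succ 2 (e + 2)] at h1
    exact Nat.eq_of_mul_eq_mul_left (by positivity) h1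
  have hnormal : (Subgroup.zpowers a).Normal := Subgroup.normal_of_index_eq_two hidx
  have hcomm : ∀ z ∈ Subgroup.zpowers a, z * a * z⁻¹ = a := by
    intro z hz
    obtain ⟨i, rfl⟩ := Subgroup.mem_zpowers_iff.1 hz
    group
  have hyC : y ∉ Subgroup.zpowers a := fun h => hne (hcomm y h)
  refine ⟨hidx, hyC, ?_⟩
  have hmem : y * a * y⁻¹ ∈ Subgroup.zpowers a :=
    hnormal.conj_mem a (Subgroup.mem_zpowers a) y
  obtain ⟨r₀, hr₀⟩ := (mem_powers_iff_mem_zpowers).2 hmem
  have hr₀' : a ^ (r₀ % orderOf a) = y * a * y⁻¹ := by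
    rw [pow_mod_orderOf]; exact hr₀
  have hlt : r₀ % orderOf a < 2 ^ (e + 2) := by
    rw [← ha]; exact Nat.mod_lt _ (orderOf_pos a)
  set r := r₀ % orderOf a with hrdef
  have hyy : y * y ∈ Subgroup.zpowers a := Subgroup.mul_self_mem_of_index_two hidx y
  have h1 := hcomm (y * y) hyy
  have h2 : y * y * a * (y * y)⁻¹ = a ^ (r * r) := by
    have : y * y * a * (y * y)⁻¹ = y * (y * a * y⁻¹) * y⁻¹ := by group
    rw [this, ← hr₀', ← conj_pow, ← hr₀', ← pow_mul]
  rw [h1] at h2
  have h3 : a ^ (r * r) = a ^ 1 := by rw [← h2, pow_one]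
  rw [pow_eq_pow_iff_modEq, ha] at h3
  refine ⟨r, hr₀'.symm, ?_⟩
  rcases sq_modEq_one_cases e r hlt h3 with h | h | h | h
  · exfalso
    apply hne
    rw [← hr₀', h, pow_one]
  · exact Or.inl h
  · exact Or.inr (Or.inl h)
  · exact Or.inr (Or.inr h)

/-- A group of order `2 ^ (e + 3)` with an element `a` of order `2 ^ (e + 2)` inverted, or
"semi-inverted", by some `y` has commutator subgroup `⟨a²⟩` of index `4`. -/
theorem commutator_index_four {S : Type*} [Group S] [Finite S] (e : ℕ)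
    (hS : Nat.card S = 2 ^ (e + 3)) (a y : S) (ha : orderOf a = 2 ^ (e + 2))
    (hne : y * a * y⁻¹ ≠ a)
    (hconj : y * a * y⁻¹ = a⁻¹ ∨ y * a * y⁻¹ = a ^ (2 ^ (e + 1)) * a⁻¹) :
    (commutator S).index = 4 := by
  classical
  obtain ⟨hidx, hyC, -⟩ := conj_exponent_cases e hS a y ha hne
  have hnormal : (Subgroup.zpowers a).Normal := Subgroup.normal_of_index_eq_two hidx
  have hab : ∀ c ∈ Subgroup.zpowers a, ∀ d ∈ Subgroup.zpowers a, c * d = d * c := by
    intro c hc d hd
    obtain ⟨i, rfl⟩ := Subgroup.mem_zpowers_iff.1 hc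
    obtain ⟨j, rfl⟩ := Subgroup.mem_zpowers_iff.1 hd
    group
  have hn : ∀ c ∈ Subgroup.zpowers a, y * c * y⁻¹ ∈ Subgroup.zpowers a :=
    fun c hc => hnormal.conj_mem c hc y
  have hcov : ∀ s : S, s ∈ Subgroup.zpowers a ∨ s * y⁻¹ ∈ Subgroup.zpowers a := by
    intro s
    by_cases hs : s ∈ Subgroup.zpowers a
    · exact Or.inl hs
    · right
      rw [Subgroup.mul_mem_iff_of_index_two hidx, inv_mem_iff]
      exact ⟨fun h => absurd h hs, fun h => absurd h hyC⟩
  have hp1 : 2 ^ (e + 1) = 2 * 2 ^ e := by ring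
  have hI : ∀ c ∈ Subgroup.zpowers a, y * c * y⁻¹ * c⁻¹ ∈ Subgroup.zpowers (a ^ 2) := by
    intro c hc
    obtain ⟨i, rfl⟩ := Subgroup.mem_zpowers_iff.1 hc
    rw [← conj_zpow]
    rcases hconj with h | h
    · rw [h]
      refine Subgroup.mem_zpowers_iff.2 ⟨-i, ?_⟩
      group
    · rw [h, hp1]
      refine Subgroup.mem_zpowers_iff.2 ⟨((2 ^ e : ℕ) - 1 : ℤ) * i, ?_⟩
      generalize 2 ^ e = N
      group
  have hle : commutator S ≤ Subgroup.zpowers (a ^ 2) :=
    Cfsg.Agent.Lib.Helper73.MaxClass.commutator_le_of_index_two (Subgroup.zpowers a) y hab hn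
      hcov (Subgroup.zpowers (a ^ 2)) hI
  have hcm : y * a * y⁻¹ * a⁻¹ ∈ commutator S := by
    have := Subgroup.commutator_mem_commutator (Subgroup.mem_top y) (Subgroup.mem_top a)
    rwa [commutatorElement_def] at this
  have hge : Subgroup.zpowers (a ^ 2) ≤ commutator S := by
    rw [Subgroup.zpowers_le]
    rcases hconj with h | h
    · rw [h] at hcm
      have := inv_mem hcm
      have e2 : (a⁻¹ * a⁻¹)⁻¹ = a ^ 2 := by group
      rwa [e2] at this
    · rcases Nat.eq_zero_or_pos e with h0 | hpos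
      · exfalso
        apply hne
        rw [h, h0]
        group
      · obtain ⟨e', rfl⟩ : ∃ e', e = e' + 1 := ⟨e - 1, by omega⟩
        rw [h] at hcm
        have ha8 : a ^ (8 * 2 ^ e') = 1 := by
          have : 8 * 2 ^ e' = orderOf a := by rw [ha]; ring
          rw [this, pow_orderOf_eq_one]
        have hp : 2 ^ (e' + 1 + 1) = 4 * 2 ^ e' := by ring
        rw [hp] at hcm
        have hpw := pow_mem hcm (2 * 2 ^ e' + 1)
        have key : (a ^ (4 * 2 ^ e') * a⁻¹ * a⁻¹) ^ (2 * 2 ^ e' + 1) * a ^ 2 =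
            (a ^ (8 * 2 ^ e')) ^ (2 ^ e') := by
          generalize 2 ^ e' = N
          group
        rw [ha8, one_pow] at key
        have e2 : a ^ 2 = ((a ^ (4 * 2 ^ e') * a⁻¹ * a⁻¹) ^ (2 * 2 ^ e' + 1))⁻¹ :=
          eq_inv_of_mul_eq_one_right key
        rw [e2]
        exact inv_mem hpw
  have heq : commutator S = Subgroup.zpowers (a ^ 2) := le_antisymm hle hge
  rw [heq]
  have hord : orderOf (a ^ 2) = 2 ^ (e + 1) := by
    rw [orderOf_pow' a (by norm_num), ha]
    have : Nat.gcd (2 ^ (e + 2)) 2 = 2 := Nat.gcd_eq_right (dvd_pow_self 2 (by omega))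
    rw [this, pow_succ 2 (e + 1)]
    simp
  have h1 := Subgroup.card_mul_index (Subgroup.zpowers (a ^ 2))
  rw [Nat.card_zpowers, hord, hS] at h1
  have : 2 ^ (e + 3) = 2 ^ (e + 1) * 4 := by ring
  rw [this] at h1
  exact Nat.eq_of_mul_eq_mul_left (by positivity) h1


/-- Forward direction of S4923. -/
theorem forward {G : Type*} [Group G] [Finite G] (P : Sylow 2 G) (n : ℕ) (hn : 3 ≤ n)
    (hP : Nat.card P = 2 ^ n) (ζ : ℂ) (hζ : IsPrimitiveRoot ζ (2 ^ (n - 1)))
    (h4 : (commutator ↥P).index = 4) :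
    ∃ g : G, g ∈ (P : Subgroup G) ∧ 2 ∣ (Subgroup.centralizer ({g} : Set G)).index ∧
      (IntermediateField.adjoin ℚ {z : ℂ | ∃ χ : Cfsg.IrrCharacter G, (χ : G → ℂ) g = z} =
          IntermediateField.adjoin ℚ ({ζ + ζ⁻¹} : Set ℂ) ∨
        IntermediateField.adjoin ℚ {z : ℂ | ∃ χ : Cfsg.IrrCharacter G, (χ : G → ℂ) g = z} =
          IntermediateField.adjoin ℚ ({ζ - ζ⁻¹} : Set ℂ)) := by
  classical
  have h2P : IsPGroup 2 ↥(P : Subgroup G) := P.isPGroup'
  have h8 : 8 ≤ Nat.card ↥(P : Subgroup G) := by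
    rw [hP]
    calc 8 = 2 ^ 3 := by norm_num
      _ ≤ 2 ^ n := Nat.pow_le_pow_right (by norm_num) hn
  obtain ⟨j', a, x, ha, hcard, hidx, hxa, hconj, hxx, hcen⟩ :=
    Cfsg.Agent.Lib.Helper73.MaxClass2.structure_index_four h2P h4 h8
  have hn' : n = j' + 3 := by
    rw [hP] at hcard
    have : 2 ^ n = 2 ^ (j' + 3) := by rw [hcard]; ring
    exact Nat.pow_right_injective (le_refl 2) this
  subst hn'
  have hζ' : IsPrimitiveRoot ζ (2 ^ (j' + 2)) := by simpa using hζ
  have hg : orderOf (a : G) = 2 ^ (j' + 2) := by rw [← ha, Subgroup.orderOf_coe]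
  have hone : 1 < 2 ^ (j' + 2) := Nat.one_lt_two_pow (by omega)
  have hhalflt : 2 ^ (j' + 1) < 2 ^ (j' + 2) := Nat.pow_lt_pow_right (by norm_num) (by omega)
  have hhalf1 : 1 < 2 ^ (j' + 1) := Nat.one_lt_two_pow (by omega)
  have hne : (x : G) * (a : G) * (x : G)⁻¹ ≠ (a : G) := by
    intro h
    have hax : a * x = x * a := by
      apply Subtype.ext
      push_cast
      calc (a : G) * x = ((x : G) * a * (x : G)⁻¹) * x := by rw [h]
        _ = x * a := by group
    rcases hcen a (Subgroup.mem_zpowers a) hax with h1 | h1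
    · rw [h1, orderOf_one] at ha
      omega
    · have h2 : a ^ (2 ^ (j' + 1)) = a ^ 1 := by rw [pow_one]; exact h1.symm
      rw [pow_eq_pow_iff_modEq, ha] at h2
      have := Nat.ModEq.eq_of_lt_of_lt h2 hhalflt hone
      omega
  have hζpow : ζ ^ (2 ^ (j' + 2)) = 1 := hζ'.pow_eq_one
  have hζ0 : ζ ≠ 0 := hζ'.ne_zero (by positivity)
  have hhalf : ζ ^ (2 ^ (j' + 1)) = -1 := by
    have hsq : (ζ ^ (2 ^ (j' + 1))) ^ 2 = 1 := by rw [← pow_mul, ← pow_succ]; exact hζpow
    have hne1 : ζ ^ (2 ^ (j' + 1)) ≠ 1 := by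
      intro h
      have h1 := hζ'.dvd_of_pow_eq_one _ h
      have h2 := Nat.le_of_dvd (by positivity) h1
      omega
    have : (ζ ^ (2 ^ (j' + 1)) - 1) * (ζ ^ (2 ^ (j' + 1)) + 1) = 0 := by
      linear_combination hsq
    rcases mul_eq_zero.1 this with h | h
    · exact absurd (sub_eq_zero.1 h) hne1
    · exact eq_neg_of_add_eq_zero_left h
  obtain ⟨r, hr, hxr, hζr⟩ : ∃ r : ℕ, r < 2 ^ (j' + 2) ∧
      (x : G) * (a : G) * (x : G)⁻¹ = (a : G) ^ r ∧ (ζ ^ r = ζ⁻¹ ∨ ζ ^ r = -ζ⁻¹) := by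
    rcases hconj with h | h
    · refine ⟨2 ^ (j' + 2) - 1, by omega, ?_, Or.inl ?_⟩
      · have h' : (x : G) * (a : G) * (x : G)⁻¹ = (a : G)⁻¹ := by
          have := congrArg Subtype.val h
          simpa using this
        rw [h']
        symm
        apply eq_inv_of_mul_eq_one_left
        rw [← pow_succ, Nat.sub_add_cancel (by omega), ← hg, pow_orderOf_eq_one]
      · apply eq_inv_of_mul_eq_one_left
        rw [← pow_succ, Nat.sub_add_cancel (by omega), hζpow]
    · refine ⟨2 ^ (j' + 1) - 1, by omega, ?_, Or.inr ?_⟩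
      · have h' : (x : G) * (a : G) * (x : G)⁻¹ = (a : G) ^ (2 ^ (j' + 1)) * (a : G)⁻¹ := by
          have := congrArg Subtype.val h
          simpa using this
        rw [h', eq_comm, eq_mul_inv_iff_mul_eq, ← pow_succ, Nat.sub_add_cancel (by omega)]
      · have h1 : ζ ^ (2 ^ (j' + 1) - 1) * ζ = -1 := by
          rw [← pow_succ, Nat.sub_add_cancel (by omega), hhalf]
        have h2 : ζ ^ (2 ^ (j' + 1) - 1) = -1 * ζ⁻¹ := by
          rw [← h1, mul_assoc, mul_inv_cancel₀ hζ0, mul_one]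
        rw [h2]; ring
  have hne' : (a : G) ^ r ≠ (a : G) := by rw [← hxr]; exact hne
  have hr1 : r ≠ 1 := by
    rintro rfl
    exact hne' (pow_one _)
  have h2card : ¬ 2 ^ (j' + 2 + 2) ∣ Nat.card G := by
    intro hdvd
    have hidxP := P.not_dvd_index
    have hcm := Subgroup.card_mul_index (P : Subgroup G)
    rw [hP] at hcm
    rw [← hcm] at hdvd
    have : 2 ^ (j' + 3) * 2 ∣ 2 ^ (j' + 3) * (P : Subgroup G).index := by rwa [← pow_succ]
    exact hidxP (Nat.dvd_of_mul_dvd_mul_left (by positivity) this)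
  obtain ⟨heven, hcases⟩ := normalizer_structure (j' + 2) h2card (a : G) (x : G) hg r hxr hne'
  refine ⟨(a : G), a.2, heven, ?_⟩
  have hζg : IsPrimitiveRoot ζ (orderOf (a : G)) := by rw [hg]; exact hζ'
  have hww : ζ * ζ ^ r = 1 ∨ ζ * ζ ^ r = -1 := by
    rcases hζr with h | h
    · left; rw [h]; exact mul_inv_cancel₀ hζ0
    · right; rw [h, mul_neg, mul_inv_cancel₀ hζ0]
  have hfield : IntermediateField.adjoin ℚ
      {z : ℂ | ∃ χ : Cfsg.IrrCharacter G, (χ : G → ℂ) (a : G) = z} =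
      IntermediateField.adjoin ℚ ({ζ + ζ ^ r} : Set ℂ) := by
    apply le_antisymm
    · rw [IntermediateField.adjoin_le_iff]
      rintro z ⟨χ, rfl⟩
      exact char_mem_of_conj _ (Cfsg.Agent.Lib.Helper3.Irr.IsIrrCharacter.isCharacter χ.2)
        (a : G) (x : G) r hxr ζ hζg hww
    · rw [IntermediateField.adjoin_le_iff, Set.singleton_subset_iff]
      apply root_sum_mem (a : G) r (by rw [hg]; exact hr) hr1 (by rw [hg]; exact hone)
        (isConj_iff.2 ⟨(x : G), hxr⟩) ?_ ζ (by rw [hg]; exact hζpow)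
      intro j hj
      obtain ⟨c, hc⟩ := isConj_iff.1 hj
      exact hcases c j hc
  rcases hζr with h | h
  · left; rw [hfield, h]
  · right; rw [hfield, h, ← sub_eq_add_neg]

/-- Backward direction of S4923. -/
theorem backward {G : Type*} [Group G] [Finite G] (P : Sylow 2 G) (n : ℕ) (hn : 3 ≤ n)
    (hP : Nat.card P = 2 ^ n) (ζ : ℂ) (hζ : IsPrimitiveRoot ζ (2 ^ (n - 1)))
    (g : G) (hgP : g ∈ (P : Subgroup G))
    (heven : 2 ∣ (Subgroup.centralizer ({g} : Set G)).index)
    (hfield : IntermediateField.adjoin ℚ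
        {z : ℂ | ∃ χ : Cfsg.IrrCharacter G, (χ : G → ℂ) g = z} =
          IntermediateField.adjoin ℚ ({ζ + ζ⁻¹} : Set ℂ) ∨
        IntermediateField.adjoin ℚ {z : ℂ | ∃ χ : Cfsg.IrrCharacter G, (χ : G → ℂ) g = z} =
          IntermediateField.adjoin ℚ ({ζ - ζ⁻¹} : Set ℂ)) :
    (commutator ↥P).index = 4 := by
  classical
  obtain ⟨e, rfl⟩ : ∃ e, n = e + 3 := ⟨n - 3, by omega⟩
  have hζ' : IsPrimitiveRoot ζ (2 ^ (e + 2)) := by simpa using hζ
  have hPc : Nat.card ↥(P : Subgroup G) = 2 ^ (e + 3) := hP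
  -- a non-commuting element of `P`
  have hy : ∃ y ∈ (P : Subgroup G), y * g * y⁻¹ ≠ g := by
    by_contra hcon
    push Not at hcon
    have hle : (P : Subgroup G) ≤ Subgroup.centralizer ({g} : Set G) := by
      intro y hy
      rw [Subgroup.mem_centralizer_iff]
      intro z hz
      rw [Set.mem_singleton_iff] at hz
      subst hz
      have := hcon y hy
      calc z * y = (y * z * y⁻¹) * y := by rw [this]
        _ = y * z := by group
    exact P.not_dvd_index (dvd_trans heven (Subgroup.index_dvd_of_le hle))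
  obtain ⟨y, hyP, hyg⟩ := hy
  have hnc : ¬ ∀ u v : ↥(P : Subgroup G), u * v = v * u := by
    intro hcomm
    apply hyg
    have := congrArg Subtype.val (hcomm ⟨y, hyP⟩ ⟨g, hgP⟩)
    have h' : y * g = g * y := by simpa using this
    rw [h']; group
  -- the field of values is not inside `ℚ(ζ²)` when `e ≥ 1`
  have hnotle : 1 ≤ e → ¬ (IntermediateField.adjoin ℚ
      {z : ℂ | ∃ χ : Cfsg.IrrCharacter G, (χ : G → ℂ) g = z} ≤
      IntermediateField.adjoin ℚ ({ζ ^ 2} : Set ℂ)) := by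
    intro he hle
    obtain ⟨e', rfl⟩ : ∃ e', e = e' + 1 := ⟨e - 1, by omega⟩
    have hnm := add_inv_not_mem ζ e' (by simpa [add_assoc] using hζ')
    rcases hfield with h | h
    · rw [h] at hle
      exact hnm.1 (hle (IntermediateField.subset_adjoin ℚ _ (Set.mem_singleton _)))
    · rw [h] at hle
      exact hnm.2 (hle (IntermediateField.subset_adjoin ℚ _ (Set.mem_singleton _)))
  have hζsq : IsPrimitiveRoot (ζ ^ 2) (2 ^ (e + 1)) := by
    have := hζ'.pow_of_dvd (p := 2) (by norm_num) (dvd_pow_self 2 (by omega))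
    rwa [show 2 ^ (e + 2) / 2 = 2 ^ (e + 1) from by rw [pow_succ]; simp] at this
  have key : ∃ (a y' : ↥(P : Subgroup G)), orderOf a = 2 ^ (e + 2) ∧ y' * a * y'⁻¹ ≠ a ∧
      (1 ≤ e → (a : G) = g) := by
    rcases Nat.eq_zero_or_pos e with he | he
    · subst he
      have hc : commutator ↥(P : Subgroup G) ≠ ⊥ := by
        intro hbot
        apply hnc
        intro u v
        have hmem : u * v * u⁻¹ * v⁻¹ ∈ commutator ↥(P : Subgroup G) := by
          have := Subgroup.commutator_mem_commutator (Subgroup.mem_top u) (Subgroup.mem_top v)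
          rwa [commutatorElement_def] at this
        rw [hbot, Subgroup.mem_bot] at hmem
        calc u * v = (u * v * u⁻¹ * v⁻¹) * (v * u) := by group
          _ = v * u := by rw [hmem, one_mul]
      obtain ⟨a, ha⟩ := Cfsg.Agent.Lib.Helper73.MaxClass.exists_index_two_of_card_eight
        (by rw [hPc]; norm_num) hc
      have hoa : orderOf a = 2 ^ (0 + 2) := by
        have h1 := Subgroup.card_mul_index (Subgroup.zpowers a)
        rw [Nat.card_zpowers, ha, hPc] at h1
        norm_num at h1 ⊢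
        omega
      have hy' : ∃ y' : ↥(P : Subgroup G), y' * a * y'⁻¹ ≠ a := by
        by_contra hcon
        push Not at hcon
        have hnormal : (Subgroup.zpowers a).Normal := Subgroup.normal_of_index_eq_two ha
        have hcard2 : Nat.card (↥(P : Subgroup G) ⧸ Subgroup.zpowers a) = 2 := by
          rw [← Subgroup.index_eq_card]; exact ha
        have : Fact (Nat.Prime 2) := ⟨Nat.prime_two⟩
        have : IsCyclic (↥(P : Subgroup G) ⧸ Subgroup.zpowers a) :=
          isCyclic_of_prime_card hcard2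
        have hker : (QuotientGroup.mk' (Subgroup.zpowers a)).ker ≤
            Subgroup.center ↥(P : Subgroup G) := by
          rw [QuotientGroup.ker_mk', Subgroup.zpowers_le, Subgroup.mem_center_iff]
          intro z
          have := hcon z
          calc z * a = (z * a * z⁻¹) * z := by group
            _ = a * z := by rw [this]
        have hmc := MonoidHom.isMulCommutative_of_isCyclic_of_ker_le_center
          (QuotientGroup.mk' (Subgroup.zpowers a)) hker
        exact hnc (fun u v => mul_comm' u v)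
      obtain ⟨y', hy'⟩ := hy'
      exact ⟨a, y', hoa, hy', fun h => absurd h (by norm_num)⟩
    · -- `e ≥ 1`: the element `g` itself has order `2 ^ (e + 2)`
      have hdvd : orderOf (⟨g, hgP⟩ : ↥(P : Subgroup G)) ∣ 2 ^ (e + 3) := by
        rw [← hPc]; exact orderOf_dvd_natCard _
      obtain ⟨k, hk, hok⟩ := (Nat.dvd_prime_pow Nat.prime_two).1 hdvd
      have hog : orderOf g = 2 ^ k := by
        rw [← hok]
        exact (Subgroup.orderOf_mk g hgP).symm
      have hk1 : k ≠ e + 3 := by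
        intro hk3
        -- `P` would be cyclic, generated by `g`
        have htop : Subgroup.zpowers (⟨g, hgP⟩ : ↥(P : Subgroup G)) = ⊤ := by
          apply Subgroup.eq_top_of_card_eq
          rw [Nat.card_zpowers, hok, hk3, hPc]
        apply hnc
        intro u v
        have hu : u ∈ Subgroup.zpowers (⟨g, hgP⟩ : ↥(P : Subgroup G)) := by rw [htop]; trivial
        have hv : v ∈ Subgroup.zpowers (⟨g, hgP⟩ : ↥(P : Subgroup G)) := by rw [htop]; trivial
        obtain ⟨i, rfl⟩ := Subgroup.mem_zpowers_iff.1 hu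
        obtain ⟨j, rfl⟩ := Subgroup.mem_zpowers_iff.1 hv
        group
      have hk2 : ¬ k ≤ e + 1 := by
        intro hk2
        apply hnotle he
        rw [IntermediateField.adjoin_le_iff]
        rintro z ⟨χ, rfl⟩
        apply char_mem_of_pow_eq_one _
          (Cfsg.Agent.Lib.Helper3.Irr.IsIrrCharacter.isCharacter χ.2) g (2 ^ (e + 1))
          (by positivity) ?_ (ζ ^ 2) hζsq
        apply orderOf_dvd_iff_pow_eq_one.1
        rw [hog]
        exact pow_dvd_pow 2 hk2
      have hk3 : k = e + 2 := by omega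
      subst hk3
      refine ⟨⟨g, hgP⟩, ⟨y, hyP⟩, hok, ?_, fun _ => rfl⟩
      intro h
      apply hyg
      have := congrArg Subtype.val h
      simpa using this
  obtain ⟨a, y', hoa, hne, hag⟩ := key
  obtain ⟨-, -, r, hr, hcases⟩ := conj_exponent_cases e hPc a y' hoa hne
  have hone : 1 < 2 ^ (e + 2) := Nat.one_lt_two_pow (by omega)
  have hhalf1 : 1 ≤ 2 ^ (e + 1) := Nat.one_le_two_pow
  have hinv : a ^ (2 ^ (e + 2) - 1) = a⁻¹ := by
    apply eq_inv_of_mul_eq_one_left
    rw [← pow_succ, Nat.sub_add_cancel (by omega), ← hoa, pow_orderOf_eq_one]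
  rcases hcases with h | h | h
  · exact commutator_index_four e hPc a y' hoa hne (Or.inl (by rw [hr, h, hinv]))
  · refine commutator_index_four e hPc a y' hoa hne (Or.inr ?_)
    rw [hr, h, eq_mul_inv_iff_mul_eq, ← pow_succ, Nat.sub_add_cancel hhalf1]
  · rcases Nat.eq_zero_or_pos e with he | he
    · subst he
      refine commutator_index_four 0 hPc a y' hoa hne (Or.inl ?_)
      rw [hr, h, ← hinv]
      norm_num
    · exfalso
      apply hnotle he
      rw [IntermediateField.adjoin_le_iff]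
      rintro z ⟨χ, rfl⟩
      have hga := hag he
      have hyg' : (y' : G) * g * (y' : G)⁻¹ = g ^ (2 ^ (e + 1) + 1) := by
        have := congrArg Subtype.val hr
        rw [h] at this
        rw [← hga]
        simpa using this
      have hgpow : g ^ (2 * 2 ^ (e + 1)) = 1 := by
        have : 2 * 2 ^ (e + 1) = orderOf g := by
          rw [← hga, Subgroup.orderOf_coe, hoa]; ring
        rw [this, pow_orderOf_eq_one]
      exact char_mem_of_conj_half _
        (Cfsg.Agent.Lib.Helper3.Irr.IsIrrCharacter.isCharacter χ.2) g (y' : G) (2 ^ (e + 1))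
        (by positivity) hgpow hyg' (ζ ^ 2) hζsq

end Cfsg.Agent.Lib.Helper76.CycField
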