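import Mathlib
import Cfsg.Agent.Lib.Helper60.HJStmt
import Cfsg.Agent.Lib.Helper30.NoComp
import Cfsg.Agent.Lib.Helper90.FStarES

set_option autoImplicit false

/-!
helper76: piece CTX of S3313 (helper60's call): the hypotheses of S3313 give the elementwise
context `HJ`.
-/

namespace Cfsg.Agent.Lib.Helper76.HJCTX

universe u

/-- If `H` normalizes `N` elementwise then every element of `H ⊔ N` is a product `n * h`. -/
theorem mem_sup_of_normalizes {G : Type*} [Group G] (N H : Subgroup G)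
    (hn : ∀ h ∈ H, ∀ n ∈ N, h * n * h⁻¹ ∈ N) {c : G} (hc : c ∈ H ⊔ N) :
    ∃ n ∈ N, ∃ h ∈ H, c = n * h := by
  let S : Subgroup G :=
    { carrier := {c | ∃ n ∈ N, ∃ h ∈ H, c = n * h}
      one_mem' := ⟨1, N.one_mem, 1, H.one_mem, by simp⟩
      mul_mem' := by
        rintro a b ⟨n1, hn1, h1, hh1, rfl⟩ ⟨n2, hn2, h2, hh2, rfl⟩
        refine ⟨n1 * (h1 * n2 * h1⁻¹), N.mul_mem hn1 (hn h1 hh1 n2 hn2), h1 * h2,
          H.mul_mem hh1 hh2, ?_⟩
        group
      inv_mem' := by
        rintro a ⟨n1, hn1, h1, hh1, rfl⟩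
        refine ⟨h1⁻¹ * n1⁻¹ * h1⁻¹⁻¹, hn h1⁻¹ (H.inv_mem hh1) n1⁻¹ (N.inv_mem hn1), h1⁻¹,
          H.inv_mem hh1, ?_⟩
        group }
  have hle : H ⊔ N ≤ S :=
    sup_le (fun h hh => ⟨1, N.one_mem, h, hh, by simp⟩)
      (fun n hn' => ⟨n, hn', 1, H.one_mem, by simp⟩)
  exact hle hc

theorem main : Cfsg.Agent.Lib.Helper60.HJStmt.Ctx.{u} := by
  intro G _ _ _ hna z t hz ht hzt hcl hex hQ K hK hKC hKQ hQz hCz V B hVB hV hV2 htV hB hBz hCt
  have : Fact (Nat.Prime 2) := ⟨Nat.prime_two⟩
  have hmemC : ∀ c : G, c ∈ Subgroup.centralizer ({z} : Set G) ↔ c * z = z * c := by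
    intro c
    rw [Subgroup.mem_centralizer_iff]
    constructor
    · intro h
      exact (h z (Set.mem_singleton z)).symm
    · intro h u hu
      rw [Set.mem_singleton_iff] at hu
      rw [hu]; exact h.symm
  have hmemT : ∀ c : G, c ∈ Subgroup.centralizer ({t} : Set G) ↔ c * t = t * c := by
    intro c
    rw [Subgroup.mem_centralizer_iff]
    constructor
    · intro h
      exact (h t (Set.mem_singleton t)).symm
    · intro h u hu
      rw [Set.mem_singleton_iff] at hu
      rw [hu]; exact h.symm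
  have hgfs : Cfsg.generalizedFittingSubgroup ↥(Subgroup.centralizer ({z} : Set G)) =
      Cfsg.pCore 2 ↥(Subgroup.centralizer ({z} : Set G)) :=
    Cfsg.Agent.Lib.Helper30.NoComp.gfs_eq_pCore_of_isPGroup 2 hex.1.1
  set Q : Subgroup G := (Cfsg.pCore 2 ↥(Subgroup.centralizer ({z} : Set G))).map
    (Subgroup.centralizer ({z} : Set G)).subtype with hQdef
  have hexQ : Cfsg.IsExtraspecial 2 ↥Q := by
    have e1 : ↥(Cfsg.pCore 2 ↥(Subgroup.centralizer ({z} : Set G))) ≃* ↥Q :=
      Subgroup.equivMapOfInjective _ _ (Subgroup.subtype_injective _)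
    have hex' : Cfsg.IsExtraspecial 2 ↥(Cfsg.pCore 2 ↥(Subgroup.centralizer ({z} : Set G))) := by
      rw [← hgfs]; exact hex
    exact Cfsg.Agent.Lib.Helper90.FStarES.isExtraspecial_of_mulEquiv e1 hex'
  have hF : (Cfsg.generalizedFittingSubgroup ↥(Subgroup.centralizer ({z} : Set G))).map
      (Subgroup.centralizer ({z} : Set G)).subtype = Q := by
    rw [hgfs]
  have hS : Cfsg.Agent.Lib.Helper90.FStarES.Setup z Q :=
    Cfsg.Agent.Lib.Helper90.FStarES.Setup.of_gfs hz hF hexQ
  have hQfin : Finite ↥Q := inferInstance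
  have hKle : ∀ k ∈ K, k * z = z * k := by
    intro k hk
    apply (hmemC k).1
    rw [← hKC]
    exact (le_sup_left : K ≤ K ⊔ Q) hk
  obtain ⟨hVle, hBle, hVBc, hVBi, hVBs⟩ := hVB
  refine
    { hz := hz
      ht := ht
      hzt := hzt
      hcl := hcl
      Q_le := hS.comm
      K_le := hKle
      Q_norm := hS.norm
      Q_card := ?_
      QK := ?_
      QK_inf := ?_
      hK := hK
      z_mem := hS.zQ
      Q_sq := ?_
      Q_comm := ?_
      Q_center := ?_
      Q_cent := hS.cent
      hQz := hQz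
      hCz := ?_
      V_le := ?_
      B_le := ?_
      VB_comm := hVBc
      VB_inf := ?_
      VB := ?_
      V_card := hV
      V_sq := ?_
      t_mem := htV
      hB := hB
      hBz := hBz
      hCt := ?_ }
  · -- Q_card
    rw [hQdef, Subgroup.card_map_of_injective (Subgroup.subtype_injective _)]
    exact hQ
  · -- QK
    intro c hc
    have hcC : c ∈ K ⊔ Q := by
      rw [hKC]; exact (hmemC c).2 hc
    exact mem_sup_of_normalizes Q K (fun k hk q hq => hS.norm k (hKle k hk) q hq) hcC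
  · -- QK_inf
    intro x hxQ hxK
    have : x ∈ K ⊓ Q := Subgroup.mem_inf.2 ⟨hxK, hxQ⟩
    rw [hKQ] at this
    exact Subgroup.mem_bot.1 this
  · -- Q_sq
    intro q hq
    have h1 := Cfsg.Agent.Lib.Helper90.Extraspecial.sq_mem_center_map hexQ hq
    have h2 := hS.center_cases h1
    simpa [pow_two] using h2
  · -- Q_comm
    intro a ha b hb
    have h1 := Cfsg.Agent.Lib.Helper90.Extraspecial.comm_mem_center_map hexQ ha hb
    rcases hS.center_cases h1 with h | h
    · left
      have := congrArg (fun u => u * b * a) h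
      simpa [mul_assoc] using this
    · right
      have := congrArg (fun u => u * b * a) h
      simpa [mul_assoc] using this
  · -- Q_center
    intro c _ hc
    exact hS.eq_of_centralizes hc
  · -- hCz
    intro x hx hx2 hxQ
    exact hCz x ((hmemC x).2 hx) hx2 hxQ
  · -- V_le
    intro v hv
    exact (hmemT v).1 (hVle hv)
  · -- B_le
    intro b hb
    exact (hmemT b).1 (hBle hb)
  · -- VB_inf
    intro x hxV hxB
    have : x ∈ V ⊓ B := Subgroup.mem_inf.2 ⟨hxV, hxB⟩
    rw [hVBi] at this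
    exact Subgroup.mem_bot.1 this
  · -- VB
    intro d hd
    have hdC : d ∈ B ⊔ V := by
      rw [sup_comm, hVBs]; exact (hmemT d).2 hd
    refine mem_sup_of_normalizes V B (fun b hb v hv => ?_) hdC
    have h := hVBc v hv b hb
    have : b * v * b⁻¹ = v := by
      rw [← h, mul_inv_cancel_right]
    rw [this]; exact hv
  · -- V_sq
    intro v hv
    have := hV2 v hv
    rwa [pow_two] at this
  · -- hCt
    intro x hx hx2 hxB
    exact hCt x ((hmemT x).2 hx) hx2 hxB

example : Cfsg.Agent.Lib.Helper60.HJStmt.Ctx.{u} := main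

end Cfsg.Agent.Lib.Helper76.HJCTX

#print axioms Cfsg.Agent.Lib.Helper76.HJCTX.main
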