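import Mathlib
import Cfsg.Agent.Lib.Helper88.MCStmt

set_option autoImplicit false

/-!
# S4245 / FINISH  (helper76, second seat)
-/

namespace Cfsg.Agent.Lib.Helper76.MCFINISH

open Cfsg.Agent.Lib.Helper88.MCStmt

universe u

theorem main (hN : NilIdx.{u}) : Finish.{u} := by
  intro G _ _ K B₀ p s r hp hKn hKidx hcyc hodd hBidx
  haveI := hKn
  have hcop : (Nat.card B₀).Coprime (2 ^ r) :=
    Nat.Coprime.pow_right r (Nat.coprime_two_right.2 hodd)
  have hle : B₀ ≤ K := by
    intro b hb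
    have h1 : orderOf ((QuotientGroup.mk' K) b) ∣ Nat.card B₀ :=
      (orderOf_map_dvd (QuotientGroup.mk' K) b).trans (Subgroup.orderOf_dvd_natCard B₀ hb)
    have h2 : orderOf ((QuotientGroup.mk' K) b) ∣ 2 ^ r := by
      rw [← hKidx]; exact orderOf_dvd_natCard _
    have h3 : orderOf ((QuotientGroup.mk' K) b) ∣ 1 := by
      have := Nat.dvd_gcd h1 h2
      rwa [hcop.gcd_eq_one] at this
    have h4 : (QuotientGroup.mk' K) b = 1 := orderOf_eq_one_iff.1 (Nat.dvd_one.1 h3)
    exact (QuotientGroup.eq_one_iff b).1 h4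
  have hrel : B₀.relIndex K = p ^ s := by
    have h1 := Subgroup.relIndex_mul_index hle
    rw [hKidx, hBidx] at h1
    have hpos : 0 < 2 ^ r := pow_pos (by norm_num) r
    exact Nat.eq_of_mul_eq_mul_right hpos (by rw [h1, mul_comm])
  have hcyc' : IsCyclic ↥(B₀.subgroupOf K) := by
    haveI := hcyc
    exact isCyclic_of_surjective (Subgroup.subgroupOfEquivOfLe hle).symm
      (Subgroup.subgroupOfEquivOfLe hle).symm.surjective
  haveI hKsol : Group.IsSolvable ↥K := hN ↥K (B₀.subgroupOf K) p s hp hcyc' hrel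
  haveI : Fact (Nat.Prime 2) := ⟨Nat.prime_two⟩
  have hpg : IsPGroup 2 (G ⧸ K) := IsPGroup.of_card (n := r) (by rw [← hKidx]; rfl)
  haveI : Group.IsNilpotent (G ⧸ K) := hpg.isNilpotent
  haveI : Group.IsSolvable (G ⧸ K) := inferInstance
  exact solvable_of_ker_le_range K.subtype (QuotientGroup.mk' K) (by simp)

#print axioms main

end Cfsg.Agent.Lib.Helper76.MCFINISH
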