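import Mathlib
import Cfsg.Agent.Lib.Helper89.NCStmt
import Cfsg.Agent.S0215

set_option autoImplicit false

/-!
helper76: piece INV2 of S3921 (helper89's call): in a nonabelian simple group every involution
commutes with a second involution (Glauberman's Z*-theorem, S0215).
-/

namespace Cfsg.Agent.Lib.Helper76.NCINV2

universe u

theorem main : Cfsg.Agent.Lib.Helper89.NCStmt.Inv2.{u} := by
  intro G _ _ _ hna u hu
  have : Fact (Nat.Prime 2) := ⟨Nat.prime_two⟩
  by_contra hcon
  push Not at hcon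
  have huniq : ∀ y : G, orderOf y = 2 → y * u = u * y → y = u := by
    intro y hy hyu
    by_contra hne
    exact hcon y hy hne hyu
  have hpg : IsPGroup 2 (Subgroup.zpowers u) := by
    refine IsPGroup.of_card (n := 1) ?_
    rw [Nat.card_zpowers, hu, pow_one]
  obtain ⟨P, hP⟩ := hpg.exists_le_sylow
  have huP : u ∈ (P : Subgroup G) := hP (Subgroup.mem_zpowers u)
  have hu1 : u ≠ 1 := by
    intro h
    rw [h, orderOf_one] at hu
    omega
  have hPnt : Nontrivial ↥(P : Subgroup G) :=
    ⟨⟨⟨u, huP⟩, 1, fun h => hu1 (congrArg Subtype.val h)⟩⟩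
  have hcnt : Nontrivial (Subgroup.center ↥(P : Subgroup G)) := P.isPGroup'.center_nontrivial
  have hcpg : IsPGroup 2 (Subgroup.center ↥(P : Subgroup G)) := P.isPGroup'.to_subgroup _
  obtain ⟨n, hn0, hn⟩ := hcpg.nontrivial_iff_card.mp hcnt
  have hdvd : 2 ∣ Nat.card (Subgroup.center ↥(P : Subgroup G)) :=
    hn.symm ▸ dvd_pow_self _ (ne_of_gt hn0)
  obtain ⟨w, hw⟩ := exists_prime_orderOf_dvd_card' 2 hdvd
  have hwG : orderOf ((w : ↥(P : Subgroup G)) : G) = 2 := by
    rw [Subgroup.orderOf_coe, Subgroup.orderOf_coe]; exact hw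
  have hwu : ((w : ↥(P : Subgroup G)) : G) * u = u * ((w : ↥(P : Subgroup G)) : G) := by
    have := Subgroup.mem_center_iff.1 w.2 ⟨u, huP⟩
    exact (congrArg Subtype.val this).symm
  have hwe : ((w : ↥(P : Subgroup G)) : G) = u := huniq _ hwG hwu
  have hucP : ∀ v ∈ (P : Subgroup G), v * u = u * v := by
    intro v hv
    have := Subgroup.mem_center_iff.1 w.2 ⟨v, hv⟩
    have h2 := congrArg Subtype.val this
    simp only [Subgroup.coe_mul] at h2
    rw [hwe] at h2
    exact h2
  have hiso : ∀ g : G, g * u * g⁻¹ ∈ P → g * u * g⁻¹ = u := by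
    intro g hg
    apply huniq
    · rw [← MulAut.conj_apply, MulEquiv.orderOf_eq]; exact hu
    · exact hucP _ hg
  obtain ⟨N, hNn, hNodd, hN⟩ := Cfsg.Agent.S0215.result P u hu huP hiso
  rcases hNn.eq_bot_or_eq_top with h | h
  · have hcen : u ∈ Subgroup.center G := by
      rw [Subgroup.mem_center_iff]
      intro g
      have h1 := hN g
      rw [h, Subgroup.mem_bot] at h1
      have h2 := congrArg (fun t => t * g * u) h1
      simp only [one_mul] at h2
      rw [← h2]
      group
    rcases (Subgroup.center G).normal_of_characteristic.eq_bot_or_eq_top with hc | hc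
    · rw [hc, Subgroup.mem_bot] at hcen
      exact hu1 hcen
    · apply hna
      refine ⟨⟨fun a b => ?_⟩⟩
      have hb : b ∈ Subgroup.center G := hc ▸ Subgroup.mem_top b
      exact Subgroup.mem_center_iff.1 hb a
  · rw [h, Subgroup.card_top] at hNodd
    have h2 : 2 ∣ Nat.card G := hu ▸ orderOf_dvd_natCard u
    exact (Nat.not_even_iff_odd.2 hNodd) (even_iff_two_dvd.2 h2)

example : Cfsg.Agent.Lib.Helper89.NCStmt.Inv2.{u} := main

end Cfsg.Agent.Lib.Helper76.NCINV2

#print axioms Cfsg.Agent.Lib.Helper76.NCINV2.main
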