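import Mathlib
import Cfsg.Agent.Lib.Helper89.NCStmt
import Cfsg.Agent.Lib.Helper4.Invol
import Cfsg.Agent.S0111

set_option autoImplicit false

/-!
helper76: piece ONECLASS of S3921 (helper89's call): in a nonabelian simple group whose Sylow
2-subgroup has a cyclic subgroup of index 2, all involutions are conjugate (Thompson transfer).
-/

namespace Cfsg.Agent.Lib.Helper76.NCONECLASS

universe u

theorem main : Cfsg.Agent.Lib.Helper89.NCStmt.OneClass.{u} := by
  intro G _ _ _ hna S K hKS hKi hKc x y hx hy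
  have : Fact (Nat.Prime 2) := ⟨Nat.prime_two⟩
  have hconj : ∀ (g v : G), orderOf (g * v * g⁻¹) = orderOf v := by
    intro g v
    rw [← MulAut.conj_apply]
    exact MulEquiv.orderOf_eq _ _
  -- every involution is conjugate to an involution of K
  have key : ∀ v : G, orderOf v = 2 → ∃ g : G, g * v * g⁻¹ ∈ K := by
    intro v hv
    have hpg : IsPGroup 2 (Subgroup.zpowers v) := by
      refine IsPGroup.of_card (n := 1) ?_
      rw [Nat.card_zpowers, hv, pow_one]
    obtain ⟨Q, hQ⟩ := hpg.exists_le_sylow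
    obtain ⟨g, hg⟩ := MulAction.exists_smul_eq G Q S
    have hvS : g * v * g⁻¹ ∈ (S : Subgroup G) := by
      rw [← hg]
      have hxQ : v ∈ (Q : Subgroup G) := hQ (Subgroup.mem_zpowers v)
      have h2 := Subgroup.smul_mem_pointwise_smul v (MulAut.conj g) (Q : Subgroup G) hxQ
      rw [MulAut.smul_def, MulAut.conj_apply] at h2
      exact h2
    by_cases hvK : g * v * g⁻¹ ∈ K
    · exact ⟨g, hvK⟩
    · have hv' : orderOf (g * v * g⁻¹) = 2 := by rw [hconj]; exact hv
      rcases Cfsg.Agent.S0111.result S K hKS hKi (g * v * g⁻¹) hv' hvS hvK with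
        ⟨M, hMn, hMi, -⟩ | ⟨h, hh⟩
      · exfalso
        rcases hMn.eq_bot_or_eq_top with h | h
        · rw [h, Subgroup.index_bot] at hMi
          have hcyc : IsCyclic G := isCyclic_of_prime_card hMi
          exact hna inferInstance
        · rw [h, Subgroup.index_top] at hMi
          omega
      · refine ⟨h * g, ?_⟩
        have e : h * g * v * (h * g)⁻¹ = h * (g * v * g⁻¹) * h⁻¹ := by group
        rw [e]; exact hh
  obtain ⟨g1, h1⟩ := key x hx
  obtain ⟨g2, h2⟩ := key y hy
  have e : g1 * x * g1⁻¹ = g2 * y * g2⁻¹ := by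
    have hfin : Finite ↥K := inferInstance
    have hc : IsCyclic ↥K := hKc
    have := Cfsg.Agent.Lib.Helper4.Invol.unique_involution_of_isCyclic (α := ↥K)
      ⟨_, h1⟩ ⟨_, h2⟩ (by rw [Subgroup.orderOf_mk, hconj]; exact hx)
      (by rw [Subgroup.orderOf_mk, hconj]; exact hy)
    exact congrArg Subtype.val this
  rw [isConj_iff]
  refine ⟨g2⁻¹ * g1, ?_⟩
  have e2 : g2⁻¹ * g1 * x * (g2⁻¹ * g1)⁻¹ = g2⁻¹ * (g1 * x * g1⁻¹) * g2 := by group
  rw [e2, e]
  group

example : Cfsg.Agent.Lib.Helper89.NCStmt.OneClass.{u} := main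

end Cfsg.Agent.Lib.Helper76.NCONECLASS

#print axioms Cfsg.Agent.Lib.Helper76.NCONECLASS.main
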