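import Mathlib
import Cfsg.Agent.S0907
import Cfsg.Agent.S0910
import Cfsg.Agent.S0144
import Cfsg.Agent.Lib.CT.Knorr
import Cfsg.Agent.Lib.CT.ThirdMain
import Cfsg.Agent.Lib.CT.ColumnId
import Cfsg.Agent.Lib.CT.DefectZeroBlock
import Cfsg.Agent.Lib.Helper80.Integrality
import Cfsg.Agent.Lib.Helper17.Sylow
import Cfsg.Agent.Lib.Helper17.Sylow2

/-!
# Simple groups of order `p ^ a * q ^ b * r`: a Sylow `r`-subgroup is self-centralizing

(Brauer; Navarro, Problem 3.5.)  If `g` has order divisible by `p` and by `r`, weak block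
orthogonality for the principal `p`-block at `(1, g)` reads `∑_{χ ∈ B₀(p)} χ(1) conj χ(g) = 0`.
A nontrivial `χ ∈ B₀(p)` has `r ∣ χ(1)` (then `χ` has `r`-defect zero and `χ(g) = 0`), or
`χ(1) ∣ p ^ a * q ^ b` is not a power of `p` (S0910), so `q ∣ χ(1)`.  Hence `1 ≡ 0 (mod q)`.
-/

set_option autoImplicit false
open scoped ComplexConjugate
open Cfsg

namespace Cfsg.Agent.Lib.Helper76.PQR

theorem not_isIntegral_inv_prime {q : ℕ} (hq : q.Prime) : ¬ IsIntegral ℤ ((q : ℂ)⁻¹) := by
  intro h
  have h1 : ((q : ℂ)⁻¹) = algebraMap ℚ ℂ ((q : ℚ)⁻¹) := by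
    simp
  rw [h1] at h
  have h2 : IsIntegral ℤ ((q : ℚ)⁻¹) :=
    (isIntegral_algebraMap_iff (algebraMap ℚ ℂ).injective).mp h
  obtain ⟨y, hy⟩ := IsIntegrallyClosed.isIntegral_iff.mp h2
  have hq0 : (q : ℚ) ≠ 0 := by exact_mod_cast hq.ne_zero
  have h3 : (q : ℚ) * (y : ℚ) = 1 := by
    have : ((y : ℤ) : ℚ) = (q : ℚ)⁻¹ := by simpa using hy
    rw [this]
    exact mul_inv_cancel₀ hq0
  have h4 : (q : ℤ) * y = 1 := by exact_mod_cast h3
  have h5 : IsUnit (q : ℤ) := IsUnit.of_mul_eq_one _ h4
  rw [Int.isUnit_iff] at h5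
  have := hq.one_lt
  omega

/-- The core: in a non-abelian simple group of order `p ^ a * q ^ b * r` no element has order
divisible by both `p` and `r`. -/
theorem no_mixed_order {G : Type*} [Group G] [Finite G] [IsSimpleGroup G]
    (hna : ∃ x y : G, x * y ≠ y * x)
    (p q r a b : ℕ) (hp : p.Prime) (hq : q.Prime) (hr : r.Prime)
    (_hpq : p ≠ q) (hpr : p ≠ r) (hqr : q ≠ r)
    (hcard : Nat.card G = p ^ a * q ^ b * r) (g : G) (hgp : p ∣ orderOf g)
    (hgr : r ∣ orderOf g) : False := by
  classical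
  have : Fact p.Prime := ⟨hp⟩
  have : Fact r.Prime := ⟨hr⟩
  obtain ⟨M, hM⟩ := Cfsg.Agent.Lib.CT.Knorr.exists_isPModular p hp
  obtain ⟨M', hM'⟩ := Cfsg.Agent.Lib.CT.Knorr.exists_isPModular r hr
  have hMp : M.IsPrime := hM.2.1.isPrime
  have : Finite (IrrCharacter G) := Cfsg.Agent.Lib.CT.Wedderburn.finite_irrCharacter G
  let _ : Fintype (IrrCharacter G) := Fintype.ofFinite _
  let T : IrrCharacter G := Cfsg.Agent.Lib.CT.ThirdMain.triv G
  have hB : IsPBlock M (principalBlock M G) := ⟨T, rfl⟩
  have hsum := Cfsg.Agent.S0907.result p M hM (principalBlock M G) hB (1 : G) g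
    (by rw [orderOf_one]; exact hp.not_dvd_one) hgp
  rw [Cfsg.Agent.Lib.CT.ColumnId.finsum_mem_eq_sum] at hsum
  -- the order of the group at the prime r
  have hfr : (Nat.card G).factorization r = 1 := by
    rw [hcard, Nat.factorization_mul (mul_ne_zero (pow_ne_zero a hp.ne_zero)
      (pow_ne_zero b hq.ne_zero)) hr.ne_zero,
      Nat.factorization_mul (pow_ne_zero a hp.ne_zero) (pow_ne_zero b hq.ne_zero)]
    simp [Nat.factorization_pow, hp.factorization, hq.factorization, hr.factorization,
      hpr, hqr]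
  -- every nontrivial term is divisible by q
  have hterm : ∀ χ : IrrCharacter G, ∃ α : ℂ, IsIntegral ℤ α ∧ (χ ≠ T →
      (if χ ∈ principalBlock M G then (χ : G → ℂ) 1 * conj ((χ : G → ℂ) g) else 0)
        = (q : ℂ) * α) := by
    intro χ
    by_cases hχ : χ ∈ principalBlock M G
    swap
    · exact ⟨0, isIntegral_zero, fun _ => by simp [hχ]⟩
    have hchar : IsCharacter G (χ : G → ℂ) :=
      Cfsg.Agent.Lib.CT.Wedderburn.isCharacter_of_irr χ.2
    have hdeg : (charDegree (χ : G → ℂ) : ℂ) = (χ : G → ℂ) 1 :=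
      Cfsg.Agent.Lib.CT.Wedderburn.char_natCast_charDegree hchar
    have hdvd : charDegree (χ : G → ℂ) ∣ p ^ a * q ^ b * r := by
      rw [← hcard]
      exact Cfsg.Agent.Lib.Helper80.Integrality.charDegree_dvd_card χ
    have hd0 : charDegree (χ : G → ℂ) ≠ 0 :=
      (Cfsg.Agent.Lib.Helper80.Integrality.charDegree_pos χ).ne'
    by_cases hrd : r ∣ charDegree (χ : G → ℂ)
    · -- r-defect zero: χ vanishes at g
      have h1 : (charDegree (χ : G → ℂ)).factorization r = (Nat.card G).factorization r := by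
        apply le_antisymm
          (Cfsg.Agent.Lib.CT.DefectZeroBlock.factorization_charDegree_le r χ)
        rw [hfr]
        exact hr.factorization_pos_of_dvd hd0 hrd
      have h2 := Cfsg.Agent.Lib.CT.DefectZeroBlock.irr_eq_zero_of_defect_zero hM' χ h1 g hgr
      exact ⟨0, isIntegral_zero, fun _ => by simp [hχ, h2]⟩
    · have hcop : Nat.Coprime (charDegree (χ : G → ℂ)) r :=
        ((Nat.Prime.coprime_iff_not_dvd hr).mpr hrd).symm
      have hdvd' : charDegree (χ : G → ℂ) ∣ p ^ a * q ^ b := hcop.dvd_of_dvd_mul_right hdvd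
      by_cases hqd : q ∣ charDegree (χ : G → ℂ)
      · obtain ⟨m, hm⟩ := hqd
        refine ⟨(m : ℂ) * conj ((χ : G → ℂ) g), ?_, fun _ => ?_⟩
        · exact IsIntegral.mul (isIntegral_natCast m)
            (map_isIntegral_int (starRingEnd ℂ)
              (Cfsg.Agent.Lib.Helper80.Integrality.isIntegral_irrCharacter χ g))
        · rw [if_pos hχ, ← hdeg, hm]
          push_cast
          ring
      · -- the degree is a power of p: χ is trivial
        have hcop2 : Nat.Coprime (charDegree (χ : G → ℂ)) (q ^ b) :=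
          Nat.Coprime.pow_right b ((Nat.Prime.coprime_iff_not_dvd hq).mpr hqd).symm
        have hdvd2 : charDegree (χ : G → ℂ) ∣ p ^ a := hcop2.dvd_of_dvd_mul_right hdvd'
        obtain ⟨k, _, hk⟩ := (Nat.dvd_prime_pow hp).mp hdvd2
        have hdegk : (χ : G → ℂ) 1 = (p : ℂ) ^ k := by
          rw [← hdeg, hk]
          push_cast
          rfl
        have htriv := Cfsg.Agent.S0910.result p M hM hna χ hχ k hdegk
        refine ⟨0, isIntegral_zero, fun hne => ?_⟩
        exact absurd (Subtype.ext htriv) hne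
  choose α hα1 hα2 using hterm
  have hT : T ∈ principalBlock M G := Cfsg.Agent.Lib.CT.ThirdMain.triv_mem_principalBlock hMp
  rw [← Finset.add_sum_erase Finset.univ _ (Finset.mem_univ T)] at hsum
  have h1 : (if T ∈ principalBlock M G then (T : G → ℂ) 1 * conj ((T : G → ℂ) g) else 0)
      = 1 := by
    rw [if_pos hT]
    show (1 : ℂ) * conj (1 : ℂ) = 1
    simp
  have h2 : ∑ χ ∈ Finset.univ.erase T,
      (if χ ∈ principalBlock M G then (χ : G → ℂ) 1 * conj ((χ : G → ℂ) g) else 0)
      = (q : ℂ) * ∑ χ ∈ Finset.univ.erase T, α χ := by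
    rw [Finset.mul_sum]
    refine Finset.sum_congr rfl fun χ hχ => ?_
    exact hα2 χ (Finset.ne_of_mem_erase hχ)
  rw [h1, h2] at hsum
  have hA : IsIntegral ℤ (-(∑ χ ∈ Finset.univ.erase T, α χ)) :=
    (IsIntegral.sum _ fun χ _ => hα1 χ).neg
  have hq0 : (q : ℂ) ≠ 0 := by exact_mod_cast hq.ne_zero
  have h3 : -(∑ χ ∈ Finset.univ.erase T, α χ) = (q : ℂ)⁻¹ := by
    field_simp
    linear_combination -hsum
  rw [h3] at hA
  exact not_isIntegral_inv_prime hq hA

/-- In a finite simple group of order `p ^ a * q ^ b * r` a Sylow `r`-subgroup is its own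
centralizer. -/
theorem main {G : Type*} [Group G] [Finite G] [IsSimpleGroup G] (p q r a b : ℕ) (hp : p.Prime)
    (hq : q.Prime) [Fact r.Prime] (hpq : p ≠ q) (hpr : p ≠ r) (hqr : q ≠ r)
    (hcard : Nat.card G = p ^ a * q ^ b * r) (S : Sylow r G) :
    Subgroup.centralizer (S : Set G) = (S : Subgroup G) := by
  classical
  have hr : r.Prime := Fact.out
  have hrm : ¬ r ∣ p ^ a * q ^ b := by
    intro h
    rcases (Nat.Prime.dvd_mul hr).mp h with h | h
    · exact hpr ((Nat.prime_dvd_prime_iff_eq hr hp).mp (hr.dvd_of_dvd_pow h)).symm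
    · exact hqr ((Nat.prime_dvd_prime_iff_eq hr hq).mp (hr.dvd_of_dvd_pow h)).symm
  have hS : Nat.card (S : Subgroup G) = r := by
    have := Cfsg.Agent.Lib.Helper17.Sylow.card_sylow_subgroup (p := r) (k := 1)
      (m := p ^ a * q ^ b) (by rw [hcard]; ring) hrm S
    simpa using this
  obtain ⟨ρ, hρS, hρ⟩ := Cfsg.Agent.Lib.Helper17.Sylow2.exists_mem_orderOf_eq_prime
    (S : Subgroup G) r (by rw [hS])
  have hSz : Subgroup.zpowers ρ = (S : Subgroup G) := by
    apply Subgroup.eq_of_le_of_card_ge (Subgroup.zpowers_le.mpr hρS)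
    rw [Nat.card_zpowers, hρ, hS]
  apply le_antisymm
  · intro c hc
    by_cases hprime : (Nat.card G).Prime
    · -- G has prime order r, so S = ⊤
      have hrG : r ∣ Nat.card G := by rw [hcard]; exact dvd_mul_left r _
      have hGr : r = Nat.card G := (Nat.prime_dvd_prime_iff_eq hr hprime).mp hrG
      have htop : (S : Subgroup G) = ⊤ :=
        (Subgroup.card_eq_iff_eq_top _).mp (by rw [hS]; exact hGr)
      rw [htop]
      trivial
    · have hnc := Cfsg.Agent.Lib.Helper17.Sylow.not_comm_of_not_prime hprime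
      have hna : ∃ x y : G, x * y ≠ y * x := by
        by_contra hcon
        push Not at hcon
        exact hnc (isMulCommutative_iff.mpr hcon)
      have hcρ : Commute ρ c := Subgroup.mem_centralizer_iff.mp hc ρ hρS
      have hc0 : orderOf c ≠ 0 := (orderOf_pos c).ne'
      -- no prime other than r divides the order of c
      have key : ∀ (p' q' a' b' : ℕ), p'.Prime → q'.Prime → p' ≠ q' → p' ≠ r → q' ≠ r →
          Nat.card G = p' ^ a' * q' ^ b' * r → ¬ p' ∣ orderOf c := by
        intro p' q' a' b' hp' hq' hpq' hpr' hqr' hcard' hdiv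
        have ho : orderOf (c ^ (orderOf c / p')) = p' := orderOf_pow_orderOf_div hc0 hdiv
        have hcomm : Commute ρ (c ^ (orderOf c / p')) := hcρ.pow_right _
        have hcop : (orderOf ρ).Coprime (orderOf (c ^ (orderOf c / p'))) := by
          rw [hρ, ho]
          exact (Nat.coprime_primes hr hp').mpr (Ne.symm hpr')
        have hmul := hcomm.orderOf_mul_eq_mul_orderOf_of_coprime hcop
        rw [hρ, ho] at hmul
        exact no_mixed_order hna p' q' r a' b' hp' hq' hr hpq' hpr' hqr' hcard'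
          (ρ * c ^ (orderOf c / p')) (by rw [hmul]; exact dvd_mul_left _ _)
          (by rw [hmul]; exact dvd_mul_right _ _)
      have hnp : ¬ p ∣ orderOf c := key p q a b hp hq hpq hpr hqr hcard
      have hnq : ¬ q ∣ orderOf c :=
        key q p b a hq hp (Ne.symm hpq) hqr hpr (by rw [hcard]; ring)
      have hdvd : orderOf c ∣ p ^ a * q ^ b * r := by
        rw [← hcard]
        exact orderOf_dvd_natCard c
      have hcop : Nat.Coprime (orderOf c) (p ^ a * q ^ b) :=
        Nat.Coprime.mul_right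
          (Nat.Coprime.pow_right a ((Nat.Prime.coprime_iff_not_dvd hp).mpr hnp).symm)
          (Nat.Coprime.pow_right b ((Nat.Prime.coprime_iff_not_dvd hq).mpr hnq).symm)
      have hdr : orderOf c ∣ r := hcop.dvd_of_dvd_mul_left hdvd
      have hz : IsPGroup r (Subgroup.zpowers c) := by
        rcases (Nat.dvd_prime hr).mp hdr with h | h
        · exact IsPGroup.of_card (n := 0) (by rw [Nat.card_zpowers, h, pow_zero])
        · exact IsPGroup.of_card (n := 1) (by rw [Nat.card_zpowers, h, pow_one])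
      have hnorm : Subgroup.zpowers c ≤ Subgroup.normalizer ((S : Subgroup G) : Set G) := by
        rw [Subgroup.zpowers_le]
        exact Subgroup.centralizer_le_normalizer _ hc
      have hsup : IsPGroup r ((S : Subgroup G) ⊔ Subgroup.zpowers c : Subgroup G) :=
        IsPGroup.to_sup_of_normal_left' S.isPGroup' hz hnorm
      have heq := S.is_maximal' hsup le_sup_left
      have : c ∈ (S : Subgroup G) ⊔ Subgroup.zpowers c :=
        (le_sup_right : Subgroup.zpowers c ≤ _) (Subgroup.mem_zpowers c)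
      rw [heq] at this
      exact this
  · intro x hx
    rw [Subgroup.mem_centralizer_iff]
    intro y hy
    have hy' : y ∈ (S : Subgroup G) := hy
    rw [← hSz] at hy' hx
    obtain ⟨m, rfl⟩ := Subgroup.mem_zpowers_iff.mp hx
    obtain ⟨n, rfl⟩ := Subgroup.mem_zpowers_iff.mp hy'
    exact zpow_mul_comm ρ n m

/-- In a finite simple group of order `p * 3 ^ a * 2 ^ b` every element of order `p` is
self-centralizing. -/
theorem prime_three_two {G : Type*} [Group G] [Finite G] [IsSimpleGroup G] (p a b : ℕ)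
    (hp : p.Prime) (hG : Nat.card G = p * 3 ^ a * 2 ^ b) (x : G) (hx : orderOf x = p) :
    Subgroup.centralizer ({x} : Set G) = Subgroup.zpowers x := by
  classical
  have h2 : Nat.Prime 2 := Nat.prime_two
  have h3 : Nat.Prime 3 := Nat.prime_three
  by_cases hp23 : p = 2 ∨ p = 3
  · -- G is a {2,3}-group, hence solvable, hence of prime order
    have hsolv : Group.IsSolvable G := by
      rcases hp23 with rfl | rfl
      · exact Cfsg.Agent.S0144.result 3 2 a (b + 1) h3 h2 (by rw [hG]; ring)
      · exact Cfsg.Agent.S0144.result 3 2 (a + 1) b h3 h2 (by rw [hG]; ring)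
    have hcomm : ∀ u v : G, u * v = v * u := IsSimpleGroup.comm_iff_isSolvable.mpr hsolv
    have hprime : (Nat.card G).Prime :=
      Cfsg.Agent.Lib.Helper17.Sylow.prime_card_of_comm (isMulCommutative_iff.mpr hcomm)
    have hpG : p ∣ Nat.card G := by rw [← hx]; exact orderOf_dvd_natCard x
    have hpe : p = Nat.card G := (Nat.prime_dvd_prime_iff_eq hp hprime).mp hpG
    have htop : Subgroup.zpowers x = ⊤ :=
      (Subgroup.card_eq_iff_eq_top _).mp (by rw [Nat.card_zpowers, hx]; exact hpe)
    rw [htop, eq_top_iff]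
    intro c _
    rw [Subgroup.mem_centralizer_iff]
    intro y _
    exact hcomm _ _
  · push Not at hp23
    have : Fact p.Prime := ⟨hp⟩
    have hcard : Nat.card G = 3 ^ a * 2 ^ b * p := by rw [hG]; ring
    have hz : IsPGroup p (Subgroup.zpowers x) :=
      IsPGroup.of_card (n := 1) (by rw [Nat.card_zpowers, hx, pow_one])
    obtain ⟨S, hS⟩ := hz.exists_le_sylow
    have hpm : ¬ p ∣ 3 ^ a * 2 ^ b := by
      intro h
      rcases (Nat.Prime.dvd_mul hp).mp h with h | h
      · exact hp23.2 ((Nat.prime_dvd_prime_iff_eq hp h3).mp (hp.dvd_of_dvd_pow h))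
      · exact hp23.1 ((Nat.prime_dvd_prime_iff_eq hp h2).mp (hp.dvd_of_dvd_pow h))
    have hScard : Nat.card (S : Subgroup G) = p := by
      have := Cfsg.Agent.Lib.Helper17.Sylow.card_sylow_subgroup (p := p) (k := 1)
        (m := 3 ^ a * 2 ^ b) (by rw [hcard]; ring) hpm S
      simpa using this
    have hSz : Subgroup.zpowers x = (S : Subgroup G) :=
      Subgroup.eq_of_le_of_card_ge hS (by rw [Nat.card_zpowers, hx, hScard])
    have hmain := main 3 2 p a b h3 h2 (by norm_num) (Ne.symm hp23.2) (Ne.symm hp23.1) hcard S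
    rw [hSz, ← hmain]
    apply le_antisymm
    · intro c hc
      rw [Subgroup.mem_centralizer_iff] at hc ⊢
      intro y hy
      have hy' : y ∈ Subgroup.zpowers x := by rw [hSz]; exact hy
      obtain ⟨n, rfl⟩ := Subgroup.mem_zpowers_iff.mp hy'
      have hcx : Commute x c := hc x (Set.mem_singleton x)
      exact hcx.zpow_left n
    · apply Subgroup.centralizer_le
      intro y hy
      rw [Set.mem_singleton_iff] at hy
      subst hy
      exact hS (Subgroup.mem_zpowers _)

end Cfsg.Agent.Lib.Helper76.PQR
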