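import Mathlib
import Cfsg.Agent.Lib.Helper96.SylAltBasic

set_option autoImplicit false

/-!
helper76: piece CENTRE of S2221 (helper96's call): a 2-group whose centre has at most one
non-identity element is not a nontrivial internal direct product.
-/

namespace Cfsg.Agent.Lib.Helper76.SACENTRE

open Equiv Cfsg.Agent.Lib.Lead.SylTwoSym Cfsg.Agent.Lib.Helper96.SylAltStmt
  Cfsg.Agent.Lib.Helper96.SylAltBasic

theorem main : Cfsg.Agent.Lib.Helper96.SylAltStmt.CENTRE := by
  intro G _ _ Q hQ ⟨z, hz⟩ ⟨A, B, hA, hB, hAQ, hBQ, hcomm, hinf, hsup⟩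
  have : Fact (Nat.Prime 2) := ⟨Nat.prime_two⟩
  have key : ∀ (X Y : Subgroup G), X ≤ Q → X ≠ ⊥ → X ⊔ Y = Q →
      (∀ x ∈ X, ∀ y ∈ Y, x * y = y * x) → z ∈ X ∧ z ≠ 1 := by
    intro X Y hXQ hX hXY hc
    have hXp : IsPGroup 2 X := hQ.to_le hXQ
    have hnt : Nontrivial ↥X := (Subgroup.nontrivial_iff_ne_bot X).mpr hX
    obtain ⟨a, ha, ha1⟩ := SetLike.exists_of_lt hXp.bot_lt_center
    have haX : (a : G) ∈ X := a.2
    have hane : (a : G) ≠ 1 := by
      intro h
      apply ha1
      rw [Subgroup.mem_bot]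
      exact Subtype.ext h
    have hcen : ∀ y ∈ Q, (a : G) * y = y * a := by
      intro y hy
      have hle : X ⊔ Y ≤ Subgroup.centralizer ({(a : G)} : Set G) := by
        apply sup_le
        · intro x hx
          rw [Subgroup.mem_centralizer_iff]
          intro h hh
          rw [Set.mem_singleton_iff] at hh
          rw [hh]
          have := Subgroup.mem_center_iff.1 ha ⟨x, hx⟩
          exact (congrArg Subtype.val this).symm
        · intro y hy
          rw [Subgroup.mem_centralizer_iff]
          intro h hh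
          rw [Set.mem_singleton_iff] at hh
          rw [hh]
          exact hc a haX y hy
      rw [hXY] at hle
      have := hle hy
      rw [Subgroup.mem_centralizer_iff] at this
      exact this a (Set.mem_singleton _)
    rcases hz a (hXQ haX) hcen with h | h
    · exact absurd h hane
    · rw [← h]; exact ⟨haX, hane⟩
  obtain ⟨hzA, hz1⟩ := key A B hAQ hA hsup hcomm
  obtain ⟨hzB, _⟩ := key B A hBQ hB (by rw [sup_comm]; exact hsup)
    (fun x hx y hy => (hcomm y hy x hx).symm)
  have : z ∈ A ⊓ B := Subgroup.mem_inf.2 ⟨hzA, hzB⟩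
  rw [hinf] at this
  exact hz1 (Subgroup.mem_bot.1 this)

example : Cfsg.Agent.Lib.Helper96.SylAltStmt.CENTRE := main

end Cfsg.Agent.Lib.Helper76.SACENTRE

#print axioms Cfsg.Agent.Lib.Helper76.SACENTRE.main
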