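import Mathlib
import Cfsg.Agent.Lib.Helper96.SylAltBasic

set_option autoImplicit false

/-!
helper76: piece PG of S2221 (helper96's call): a nontrivial subgroup `M` of a 2-group `S`,
normalized by `S`, contains a nontrivial element central in `S`.
-/

namespace Cfsg.Agent.Lib.Helper76.SAPG

open Equiv Cfsg.Agent.Lib.Lead.SylTwoSym Cfsg.Agent.Lib.Helper96.SylAltStmt
  Cfsg.Agent.Lib.Helper96.SylAltBasic

theorem main : Cfsg.Agent.Lib.Helper96.SylAltStmt.PG := by
  intro G _ _ S M hS hMS hM hnorm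
  classical
  have : Fact (Nat.Prime 2) := ⟨Nat.prime_two⟩
  let act : MulAction ↥S ↥M :=
    { smul := fun t u => ⟨t * u * (t : G)⁻¹, hnorm t t.2 u u.2⟩
      one_smul := fun u => Subtype.ext (by
        show ((1 : ↥S) : G) * u * ((1 : ↥S) : G)⁻¹ = u
        simp)
      mul_smul := fun a b u => Subtype.ext (by
        show ((a * b : ↥S) : G) * u * ((a * b : ↥S) : G)⁻¹ = a * (b * u * (b : G)⁻¹) * (a : G)⁻¹
        simp [mul_assoc]) }
  have hMp : IsPGroup 2 M := hS.to_le hMS
  have hnt : Nontrivial ↥M := (Subgroup.nontrivial_iff_ne_bot M).mpr hM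
  have dvd : 2 ∣ Nat.card ↥M := by
    obtain ⟨n, hn0, hn⟩ := hMp.nontrivial_iff_card.mp hnt
    exact hn.symm ▸ dvd_pow_self _ (ne_of_gt hn0)
  have h1 : (1 : ↥M) ∈ MulAction.fixedPoints ↥S ↥M := by
    intro t
    apply Subtype.ext
    show (t : G) * ((1 : ↥M) : G) * (t : G)⁻¹ = ((1 : ↥M) : G)
    simp
  obtain ⟨b, hb, hne⟩ := hS.exists_fixed_point_of_prime_dvd_card_of_fixed_point (α := ↥M) dvd h1
  refine ⟨(b : G), b.2, ?_, ?_⟩
  · intro h
    apply hne
    exact (Subtype.ext h).symm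
  · intro t ht
    have h2 := hb ⟨t, ht⟩
    have h3 : t * (b : G) * t⁻¹ = (b : G) := congrArg Subtype.val h2
    calc (b : G) * t = (t * b * t⁻¹) * t := by rw [h3]
      _ = t * b := by group

example : Cfsg.Agent.Lib.Helper96.SylAltStmt.PG := main

end Cfsg.Agent.Lib.Helper76.SAPG

#print axioms Cfsg.Agent.Lib.Helper76.SAPG.main
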