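import Mathlib
import Cfsg.Agent.Lib.Helper96.SylAltBasic

set_option autoImplicit false

/-!
helper76: piece ZB of S2221 (helper96's call): a permutation commuting with all transpositions of
a maximal 2-subgroup `S` maps each point `a` to `a` or to its partner `τ a`.
-/

namespace Cfsg.Agent.Lib.Helper76.SAZB

open Equiv Cfsg.Agent.Lib.Lead.SylTwoSym Cfsg.Agent.Lib.Helper96.SylAltStmt
  Cfsg.Agent.Lib.Helper96.SylAltBasic

theorem main : Cfsg.Agent.Lib.Helper96.SylAltStmt.ZB := by
  intro Ω _ _ S hS x hx a
  by_cases hcov : ∃ τ ∈ swapsIn S, τ a ≠ a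
  · obtain ⟨τ, hτ, hτa⟩ := hcov
    by_cases hxa : x a = a
    · exact Or.inl hxa
    · right
      refine ⟨τ, hτ, hτa, ?_⟩
      have h1 : τ (x a) = x (τ a) := by
        have := congrArg (fun f : Perm Ω => f a) (hx τ hτ)
        simp only [Perm.mul_apply] at this
        exact this.symm
      have h2 : τ (x a) ≠ x a := by
        rw [h1]
        intro h
        exact hτa (x.injective h)
      have h3 : τ = swap a (τ a) := swap_of_moves hτ.2 hτa
      rw [h3] at h2
      rcases (Equiv.swap_apply_ne_self_iff.mp h2).2 with h | h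
      · exact absurd h hxa
      · exact h
  · left
    push Not at hcov
    by_contra hxa
    refine covered_of_max2 hS (a₀ := x a) (b₀ := a) hxa ?_ hcov
    intro τ hτ
    have := congrArg (fun f : Perm Ω => f a) (hx τ hτ)
    simp only [Perm.mul_apply] at this
    rw [hcov τ hτ] at this
    exact this.symm

example : Cfsg.Agent.Lib.Helper96.SylAltStmt.ZB := main

end Cfsg.Agent.Lib.Helper76.SAZB

#print axioms Cfsg.Agent.Lib.Helper76.SAZB.main
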