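import Mathlib
import Cfsg.Agent.Lib.Helper16.SNStmt

/-!
# S3641 (helper16 blueprint), piece NO5
-/

set_option autoImplicit false

namespace Cfsg.Agent.Lib.Helper76.SNNO5

open Cfsg.Agent.Lib.Helper16.SNStmt

universe u

variable {G : Type u} [Group G] [Finite G]

/-- An `r`-subgroup `S` normalizing a `p`-subgroup `P`, `r ≠ p`, such that `N_P(S)` has index `p`
in `P`: then `r ∣ p - 1`. -/
theorem key_cong (p r : ℕ) [Fact p.Prime] [Fact r.Prime] (hne : r ≠ p) (S P : Subgroup G)
    (hS : IsPGroup r S) (hP : IsPGroup p P)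
    (hSP : ∀ s ∈ S, ∀ x ∈ P, s * x * s⁻¹ ∈ P)
    (hidx : (Subgroup.normalizer (S : Set G)).relIndex P = p) : r ∣ p - 1 := by
  classical
  let act : MulAction S P :=
    { smul := fun s x => ⟨(s : G) * x * (s : G)⁻¹, hSP s s.2 x x.2⟩
      one_smul := fun x => Subtype.ext (by
        show ((1 : S) : G) * x * ((1 : S) : G)⁻¹ = x
        simp)
      mul_smul := fun s t x => Subtype.ext (by
        show ((s * t : S) : G) * x * ((s * t : S) : G)⁻¹
          = (s : G) * ((t : G) * x * (t : G)⁻¹) * (s : G)⁻¹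
        simp [mul_assoc]) }
  have hsmul : ∀ (s : S) (x : P), ((s • x : P) : G) = (s : G) * x * (s : G)⁻¹ := fun s x => rfl
  have hdisj : ∀ x : G, x ∈ S → x ∈ P → x = 1 := by
    intro x hxS hxP
    have h := IsPGroup.disjoint_of_ne r p hne S P hS hP
    exact Subgroup.disjoint_def.1 h hxS hxP
  have hfix : (MulAction.fixedPoints S P : Set P)
      = (((Subgroup.normalizer (S : Set G)).subgroupOf P : Subgroup P) : Set P) := by
    ext x
    rw [MulAction.mem_fixedPoints, SetLike.mem_coe, Subgroup.mem_subgroupOf]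
    constructor
    · intro h
      apply Subgroup.centralizer_le_normalizer
      rw [Subgroup.mem_centralizer_iff]
      intro s hs
      have h1 := congrArg Subtype.val (h ⟨s, hs⟩)
      rw [hsmul] at h1
      calc s * (x : G) = s * x * s⁻¹ * s := by group
        _ = x * s := by rw [h1]
    · intro h s
      apply Subtype.ext
      rw [hsmul]
      have h2 : (s : G) * x * (s : G)⁻¹ * (x : G)⁻¹ = 1 := by
        apply hdisj
        · have h3 : (x : G) * (s : G)⁻¹ * (x : G)⁻¹ ∈ S :=
            (Subgroup.mem_normalizer_iff.1 h _).1 (inv_mem s.2)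
          have h4 := S.mul_mem s.2 h3
          have e : (s : G) * x * (s : G)⁻¹ * (x : G)⁻¹ = (s : G) * ((x : G) * (s : G)⁻¹ * (x : G)⁻¹) := by
            group
          rw [e]
          exact h4
        · exact P.mul_mem (hSP s s.2 x x.2) (inv_mem x.2)
      calc (s : G) * x * (s : G)⁻¹ = (s : G) * x * (s : G)⁻¹ * (x : G)⁻¹ * x := by group
        _ = x := by rw [h2, one_mul]
  have hcong := hS.card_modEq_card_fixedPoints (↥P)
  have hcardfix : Nat.card (MulAction.fixedPoints S P)
      = Nat.card ((Subgroup.normalizer (S : Set G)).subgroupOf P) :=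
    Nat.card_congr (Equiv.setCongr hfix)
  rw [hcardfix] at hcong
  have hmul := Subgroup.card_mul_index ((Subgroup.normalizer (S : Set G)).subgroupOf P)
  have hidx' : ((Subgroup.normalizer (S : Set G)).subgroupOf P).index = p := hidx
  rw [hidx'] at hmul
  generalize Nat.card ((Subgroup.normalizer (S : Set G)).subgroupOf P) = f at hcong hmul
  obtain ⟨a, ha⟩ := IsPGroup.iff_card.1 hP
  have hfle : f ≤ Nat.card P := by
    rw [← hmul]
    exact Nat.le_mul_of_pos_right f (Fact.out (p := p.Prime)).pos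
  have hdvd : r ∣ Nat.card P - f := (Nat.modEq_iff_dvd' hfle).1 hcong.symm
  have hsub : Nat.card P - f = f * (p - 1) := by
    rw [← hmul, Nat.mul_sub, mul_one]
  rw [hsub] at hdvd
  rcases (Nat.Prime.dvd_mul (Fact.out (p := r.Prime))).1 hdvd with h | h
  · exfalso
    have h1 : r ∣ p ^ a := by
      rw [← ha, ← hmul]
      exact Dvd.dvd.mul_right h p
    have h2 := (Fact.out (p := r.Prime)).dvd_of_dvd_pow h1
    exact hne ((Nat.prime_dvd_prime_iff_eq (Fact.out (p := r.Prime)) (Fact.out (p := p.Prime))).1 h2)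
  · exact h

theorem key (d : ℕ) (hd : d ∣ 16)
    (hrange : Nat.card (act G).range = 18 * 17 * d)
    (r : ℕ) [Fact r.Prime] (hr : Nat.Coprime r 4896) (c : ℕ) (hc : c < 289) (h17 : 17 ∣ c) :
    Nat.card (Sylow r G) ≠ c := by
  intro hcard
  have hF17 : Fact (Nat.Prime 17) := ⟨by norm_num⟩
  have hrp : r.Prime := Fact.out
  obtain ⟨S⟩ : Nonempty (Sylow r G) := inferInstance
  obtain ⟨P⟩ : Nonempty (Sylow 17 G) := inferInstance
  have hr17 : r ≠ 17 := by
    rintro rfl
    revert hr
    decide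
  have hr16 : ¬ r ∣ 16 := by
    intro h
    have h1 : r ∣ 4896 := Dvd.dvd.trans h (by norm_num)
    have h2 := Nat.dvd_gcd (dvd_refl r) h1
    rw [Nat.Coprime] at hr
    rw [hr] at h2
    exact hrp.one_lt.ne' (Nat.dvd_one.1 h2)
  -- Step 1: `S` lies in the kernel
  have hSK : ∀ s ∈ (S : Subgroup G), s ∈ (act G).ker := by
    intro s hs
    rw [MonoidHom.mem_ker]
    obtain ⟨k, hk⟩ := S.isPGroup' ⟨s, hs⟩
    have hsk : s ^ r ^ k = 1 := by simpa using congrArg Subtype.val hk
    have h1 : orderOf (act G s) ∣ r ^ k := by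
      apply orderOf_dvd_of_pow_eq_one
      rw [← map_pow, hsk, map_one]
    have h2 : orderOf (act G s) ∣ 4896 := by
      have h3 := Subgroup.orderOf_dvd_natCard (act G).range (MonoidHom.mem_range.2 ⟨s, rfl⟩)
      rw [hrange] at h3
      exact h3.trans (Nat.mul_dvd_mul_left (18 * 17) hd)
    have h4 := Nat.dvd_gcd h1 h2
    have h5 : Nat.gcd (r ^ k) 4896 = 1 := Nat.Coprime.pow_left k hr
    rw [h5] at h4
    exact orderOf_eq_one_iff.1 (Nat.dvd_one.1 h4)
  -- Step 2: the kernel normalizes `P`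
  have hKP : ∀ k ∈ (act G).ker, k ∈ Subgroup.normalizer ((P : Subgroup G) : Set G) := by
    intro k hk
    rw [MonoidHom.mem_ker] at hk
    have h1 := congrArg (fun σ : Equiv.Perm (Sylow 17 G) => σ P) hk
    have h2 : k • P = P := by simpa using h1
    exact Sylow.smul_eq_iff_mem_normalizer.1 h2
  have hSP : ∀ s ∈ (S : Subgroup G), ∀ x ∈ (P : Subgroup G), s * x * s⁻¹ ∈ (P : Subgroup G) :=
    fun s hs x hx => (Subgroup.mem_normalizer_iff.1 (hKP s (hSK s hs)) x).1 hx
  -- Step 4
  have hNidx : (Subgroup.normalizer ((S : Subgroup G) : Set G)).index = c := by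
    have h1 := Sylow.card_eq_index_normalizer S
    rw [hcard] at h1
    exact h1.symm
  have hrel_dvd : (Subgroup.normalizer ((S : Subgroup G) : Set G)).relIndex (P : Subgroup G)
      ∣ Nat.card (P : Subgroup G) := Subgroup.relIndex_dvd_card _ _
  obtain ⟨a, ha⟩ := IsPGroup.iff_card.1 P.isPGroup'
  rw [ha] at hrel_dvd
  obtain ⟨j, hj, hjeq⟩ := (Nat.dvd_prime_pow (by norm_num : Nat.Prime 17)).1 hrel_dvd
  have hrel_le : (Subgroup.normalizer ((S : Subgroup G) : Set G)).relIndex (P : Subgroup G)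
      ≤ (Subgroup.normalizer ((S : Subgroup G) : Set G)).index := by
    have h1 := Subgroup.relIndex_mul_index
      (inf_le_right : Subgroup.normalizer ((S : Subgroup G) : Set G) ⊓ (P : Subgroup G) ≤ P)
    have h2 := Subgroup.index_inf_le (H := Subgroup.normalizer ((S : Subgroup G) : Set G))
      (K := (P : Subgroup G))
    rw [Subgroup.inf_relIndex_right] at h1
    rw [← h1] at h2
    have h3 : (P : Subgroup G).index ≠ 0 := Subgroup.index_ne_zero_of_finite
    exact Nat.le_of_mul_le_mul_right h2 (Nat.pos_of_ne_zero h3)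
  rw [hNidx, hjeq] at hrel_le
  have hj1 : j ≤ 1 := by
    by_contra hcon
    have h2 : 2 ≤ j := by omega
    have h3 : 17 ^ 2 ≤ 17 ^ j := Nat.pow_le_pow_right (by norm_num) h2
    omega
  interval_cases j
  · -- `P` normalizes `S`
    rw [pow_zero, Subgroup.relIndex_eq_one] at hjeq
    have h1 := Subgroup.index_dvd_of_le hjeq
    rw [hNidx] at h1
    exact P.not_dvd_index (h17.trans h1)
  · rw [pow_one] at hjeq
    have h1 := key_cong 17 r hr17 (S : Subgroup G) (P : Subgroup G) S.isPGroup' P.isPGroup'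
      hSP hjeq
    exact hr16 h1

theorem main : No5.{u} := by
  intro G _ _ h18 d hd hrange
  have hF5 : Fact (Nat.Prime 5) := ⟨by norm_num⟩
  have hF19 : Fact (Nat.Prime 19) := ⟨by norm_num⟩
  exact ⟨fun _ => key d hd hrange 5 (by norm_num) 136 (by norm_num) (by norm_num),
    fun _ => key d hd hrange 19 (by norm_num) 153 (by norm_num) (by norm_num)⟩

example : Cfsg.Agent.Lib.Helper16.SNStmt.No5.{u} := main

end Cfsg.Agent.Lib.Helper76.SNNO5

#print axioms Cfsg.Agent.Lib.Helper76.SNNO5.main
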