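import Mathlib
import Cfsg.Agent.Lib.Helper16.SNStmt

/-!
# S3641 (helper16 blueprint), pieces O9A and O9B: elements of order 9 in `PSL(2,17)`, `PGL(2,17)`
-/

set_option autoImplicit false

namespace Cfsg.Agent.Lib.Helper76.SNO9

/-- a matrix of order 9 -/
def M9 : Matrix (Fin 2) (Fin 2) (ZMod 17) := !![0, -1; 1, 7]

/-- a transvection -/
def N9 : Matrix (Fin 2) (Fin 2) (ZMod 17) := !![1, 1; 0, 1]

theorem M9_det : M9.det = 1 := by decide

theorem N9_det : N9.det = 1 := by decide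

theorem M9_pow3 : M9 ^ 3 = !![10, 3; 14, 6] := by
  rw [pow_succ, pow_succ, pow_one]
  decide

theorem M9_pow9 : M9 ^ 9 = 1 := by
  have h : M9 ^ 9 = (M9 ^ 3) ^ 3 := by rw [← pow_mul]
  rw [h, M9_pow3, pow_succ, pow_succ, pow_one]
  decide

theorem M9_not_comm : N9 * M9 ^ 3 ≠ M9 ^ 3 * N9 := by
  rw [M9_pow3]
  decide

/-- a matrix of order 9 in `SL(2,17)` -/
def A9 : Matrix.SpecialLinearGroup (Fin 2) (ZMod 17) := ⟨M9, M9_det⟩

/-- a transvection -/
def B9 : Matrix.SpecialLinearGroup (Fin 2) (ZMod 17) := ⟨N9, N9_det⟩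

theorem A9_pow9 : A9 ^ 9 = 1 := by
  apply Subtype.ext
  rw [Matrix.SpecialLinearGroup.coe_pow, Matrix.SpecialLinearGroup.coe_one]
  exact M9_pow9

theorem A9_pow3_not_center :
    A9 ^ 3 ∉ Subgroup.center (Matrix.SpecialLinearGroup (Fin 2) (ZMod 17)) := by
  intro h
  rw [Subgroup.mem_center_iff] at h
  have h1 := congrArg Subtype.val (h B9)
  rw [Matrix.SpecialLinearGroup.coe_mul, Matrix.SpecialLinearGroup.coe_mul,
    Matrix.SpecialLinearGroup.coe_pow] at h1
  exact M9_not_comm h1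

theorem order9 {H : Type*} [Group H] (f : Matrix.SpecialLinearGroup (Fin 2) (ZMod 17) →* H)
    (hf : f.ker = Subgroup.center (Matrix.SpecialLinearGroup (Fin 2) (ZMod 17))) :
    ∃ g : H, orderOf g = 9 := by
  refine ⟨f A9, ?_⟩
  have h := orderOf_eq_prime_pow (x := f A9) (p := 3) (n := 1) ?_ ?_
  · simpa using h
  · rw [pow_one, ← map_pow]
    intro h1
    have h2 : A9 ^ 3 ∈ f.ker := h1
    rw [hf] at h2
    exact A9_pow3_not_center h2
  · have h9 : (3 : ℕ) ^ (1 + 1) = 9 := by norm_num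
    rw [h9, ← map_pow, A9_pow9, map_one]

end Cfsg.Agent.Lib.Helper76.SNO9
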