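import Mathlib
import Cfsg.Agent.Lib.Helper76.SNO9

/-!
# S3641 (helper16 blueprint), piece O9A
-/

set_option autoImplicit false

namespace Cfsg.Agent.Lib.Helper76.SNO9A

theorem main : Cfsg.Agent.Lib.Helper16.SNStmt.O9A :=
  Cfsg.Agent.Lib.Helper76.SNO9.order9
    (QuotientGroup.mk' (Subgroup.center (Matrix.SpecialLinearGroup (Fin 2) (ZMod 17))))
    (QuotientGroup.ker_mk' _)

end Cfsg.Agent.Lib.Helper76.SNO9A

#print axioms Cfsg.Agent.Lib.Helper76.SNO9A.main
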