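import Mathlib
import Cfsg.Agent.Lib.Helper76.SNO9

/-!
# S3641 (helper16 blueprint), piece O9B
-/

set_option autoImplicit false

namespace Cfsg.Agent.Lib.Helper76.SNO9B

theorem main : Cfsg.Agent.Lib.Helper16.SNStmt.O9B :=
  Cfsg.Agent.Lib.Helper76.SNO9.order9
    (Matrix.SpecialLinearGroup.toPGL (n := Fin 2) (R := ZMod 17))
    Matrix.SpecialLinearGroup.toPGL_ker

end Cfsg.Agent.Lib.Helper76.SNO9B

#print axioms Cfsg.Agent.Lib.Helper76.SNO9B.main
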