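import Mathlib
import Cfsg.Agent.Lib.Helper61.T2Stmt

set_option autoImplicit false

/-!
helper76: piece ARITH of S2197 (helper61's call): the integers `n ≥ 3` with
`n (n - 1) ∣ 17971200`.
-/

namespace Cfsg.Agent.Lib.Helper76.T2ARITH

/-- the check for one value of `n` -/
def chk (n : ℕ) : Bool :=
  !(decide (n * (n - 1) ∣ 17971200)) ||
    decide (n < 3 ∨ n = 3 ∨ n = 4 ∨ n = 5 ∨ n = 6 ∨ n = 9 ∨ n = 10 ∨ n = 13 ∨ n = 16 ∨ n = 25 ∨
      n = 26 ∨ n = 27 ∨ n = 40 ∨ n = 65)

theorem chk_all : (List.range 4241).all chk = true := by decide +kernel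

theorem main : Cfsg.Agent.Lib.Helper61.T2Stmt.Arith := by
  intro n hn hdvd
  have hle : n * (n - 1) ≤ 17971200 := Nat.le_of_dvd (by norm_num) hdvd
  have hlt : n < 4241 := by
    by_contra hcon
    push Not at hcon
    have h1 : 4241 * 4240 ≤ n * (n - 1) := Nat.mul_le_mul hcon (by omega)
    omega
  have h := List.all_eq_true.1 chk_all n (List.mem_range.2 hlt)
  unfold chk at h
  simp only [Bool.or_eq_true, Bool.not_eq_true', decide_eq_false_iff_not, decide_eq_true_eq] at h
  rcases h with h | h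
  · exact absurd hdvd h
  · rcases h with h | h
    · omega
    · exact h

example : Cfsg.Agent.Lib.Helper61.T2Stmt.Arith := main

end Cfsg.Agent.Lib.Helper76.T2ARITH

#print axioms Cfsg.Agent.Lib.Helper76.T2ARITH.main
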