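import Mathlib
import Cfsg.Agent.Lib.Helper61.T2Stmt

set_option autoImplicit false

/-!
helper76: pieces CARD25 and (in `T2CQ`) CQ of S2197 (helper61's call): the subgroup generated by
two commuting elements of order 5.
-/

namespace Cfsg.Agent.Lib.Helper76.T2CARD25

universe u

/-- Every element of `⟨a, b⟩` is `a^i b^j` with `i, j < 5`. -/
theorem form {G : Type u} [Group G] (a b : G) (ha5 : a ^ 5 = 1) (hb5 : b ^ 5 = 1)
    (hab : a * b = b * a) :
    ∀ q ∈ Subgroup.closure {a, b}, ∃ i j : ℕ, i < 5 ∧ j < 5 ∧ q = a ^ i * b ^ j := by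
  have hcomm : Commute a b := hab
  let S : Subgroup G :=
    { carrier := {q | ∃ i j : ℕ, i < 5 ∧ j < 5 ∧ q = a ^ i * b ^ j}
      one_mem' := ⟨0, 0, by norm_num, by norm_num, by simp⟩
      mul_mem' := by
        rintro x y ⟨i, j, hi, hj, rfl⟩ ⟨k, l, hk, hl, rfl⟩
        refine ⟨(i + k) % 5, (j + l) % 5, Nat.mod_lt _ (by norm_num), Nat.mod_lt _ (by norm_num),
          ?_⟩
        rw [← pow_eq_pow_mod _ ha5, ← pow_eq_pow_mod _ hb5, pow_add, pow_add]
        have h1 : Commute (b ^ j) (a ^ k) := (hcomm.pow_pow k j).symm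
        calc a ^ i * b ^ j * (a ^ k * b ^ l) = a ^ i * (b ^ j * a ^ k) * b ^ l := by
              simp only [mul_assoc]
          _ = a ^ i * (a ^ k * b ^ j) * b ^ l := by rw [h1.eq]
          _ = a ^ i * a ^ k * (b ^ j * b ^ l) := by simp only [mul_assoc]
      inv_mem' := by
        rintro x ⟨i, j, hi, hj, rfl⟩
        refine ⟨(4 * i) % 5, (4 * j) % 5, Nat.mod_lt _ (by norm_num), Nat.mod_lt _ (by norm_num),
          ?_⟩
        rw [← pow_eq_pow_mod _ ha5, ← pow_eq_pow_mod _ hb5]
        apply inv_eq_of_mul_eq_one_right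
        have h1 : Commute (b ^ j) (a ^ (4 * i)) := (hcomm.pow_pow (4 * i) j).symm
        calc a ^ i * b ^ j * (a ^ (4 * i) * b ^ (4 * j))
            = a ^ i * (b ^ j * a ^ (4 * i)) * b ^ (4 * j) := by simp only [mul_assoc]
          _ = a ^ i * (a ^ (4 * i) * b ^ j) * b ^ (4 * j) := by rw [h1.eq]
          _ = a ^ (i + 4 * i) * b ^ (j + 4 * j) := by
              rw [pow_add, pow_add]; simp only [mul_assoc]
          _ = 1 := by
              have e1 : i + 4 * i = 5 * i := by ring
              have e2 : j + 4 * j = 5 * j := by ring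
              rw [e1, e2, pow_mul, pow_mul, ha5, hb5, one_pow, one_pow, one_mul] }
  have hle : Subgroup.closure {a, b} ≤ S := by
    rw [Subgroup.closure_le]
    rintro x hx
    rcases hx with rfl | rfl
    · exact ⟨1, 0, by norm_num, by norm_num, by simp⟩
    · exact ⟨0, 1, by norm_num, by norm_num, by simp⟩
  exact fun q hq => hle hq

theorem main : Cfsg.Agent.Lib.Helper61.T2Stmt.Card25.{u} := by
  intro G _ a b ha5 hb5 hab ha1 hb
  have : Fact (Nat.Prime 5) := ⟨by norm_num⟩
  have hoa : orderOf a = 5 := orderOf_eq_prime ha5 ha1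
  have hb1 : b ≠ 1 := by
    have := hb 0 (by norm_num)
    simpa using this
  have hob : orderOf b = 5 := orderOf_eq_prime hb5 hb1
  have hform := form a b ha5 hb5 hab
  have hinj : ∀ i j k l : ℕ, i < 5 → j < 5 → k < 5 → l < 5 →
      a ^ i * b ^ j = a ^ k * b ^ l → i = k ∧ j = l := by
    intro i j k l hi hj hk hl h
    have hc : b ^ j * (b ^ l)⁻¹ = (a ^ i)⁻¹ * a ^ k := by
      have := congrArg (fun x => (a ^ i)⁻¹ * x * (b ^ l)⁻¹) h
      simpa [mul_assoc] using this
    by_cases hc1 : b ^ j * (b ^ l)⁻¹ = 1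
    · have hbjl : b ^ j = b ^ l := by
        have := congrArg (fun x => x * b ^ l) hc1
        simpa using this
      have haik : a ^ i = a ^ k := by
        rw [hc1] at hc
        have := congrArg (fun x => a ^ i * x) hc
        simpa using this
      constructor
      · have h1 := pow_eq_pow_iff_modEq.1 haik
        rw [hoa] at h1
        unfold Nat.ModEq at h1
        omega
      · have h1 := pow_eq_pow_iff_modEq.1 hbjl
        rw [hob] at h1
        unfold Nat.ModEq at h1
        omega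
    · exfalso
      have hcb : b ^ j * (b ^ l)⁻¹ ∈ Subgroup.zpowers b :=
        Subgroup.mul_mem _ (Subgroup.pow_mem _ (Subgroup.mem_zpowers b) _)
          (Subgroup.inv_mem _ (Subgroup.pow_mem _ (Subgroup.mem_zpowers b) _))
      have hca : b ^ j * (b ^ l)⁻¹ ∈ Subgroup.zpowers a := by
        rw [hc]
        exact Subgroup.mul_mem _ (Subgroup.inv_mem _ (Subgroup.pow_mem _ (Subgroup.mem_zpowers a) _))
          (Subgroup.pow_mem _ (Subgroup.mem_zpowers a) _)
      have hcard : Nat.card (Subgroup.zpowers b) = 5 := by rw [Nat.card_zpowers, hob]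
      have hne : (⟨b ^ j * (b ^ l)⁻¹, hcb⟩ : Subgroup.zpowers b) ≠ 1 := by
        intro h1
        apply hc1
        exact congrArg Subtype.val h1
      have hmem : (⟨b, Subgroup.mem_zpowers b⟩ : Subgroup.zpowers b) ∈
          Subgroup.zpowers (⟨b ^ j * (b ^ l)⁻¹, hcb⟩ : Subgroup.zpowers b) :=
        mem_zpowers_of_prime_card hcard hne
      obtain ⟨n, hn⟩ := Subgroup.mem_zpowers_iff.1 hmem
      have hbn : (b ^ j * (b ^ l)⁻¹) ^ n = b := by
        have := congrArg Subtype.val hn
        simpa using this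
      have hba : b ∈ Subgroup.zpowers a := by
        rw [← hbn]; exact Subgroup.zpow_mem _ hca n
      obtain ⟨m, hm⟩ := Subgroup.mem_zpowers_iff.1 hba
      have h5 : a ^ (m % 5) = a ^ m := by
        have := zpow_mod_orderOf a m
        rw [hoa] at this
        exact_mod_cast this
      have hnn : 0 ≤ m % 5 := Int.emod_nonneg _ (by norm_num)
      have hlt : m % 5 < 5 := Int.emod_lt_of_pos _ (by norm_num)
      apply hb (m % 5).toNat (by omega)
      rw [← hm, ← h5, ← zpow_natCast, Int.toNat_of_nonneg hnn]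
  refine ⟨?_, hform⟩
  have haH : a ∈ Subgroup.closure {a, b} := Subgroup.subset_closure (by simp)
  have hbH : b ∈ Subgroup.closure {a, b} := Subgroup.subset_closure (by simp)
  let f : Fin 5 × Fin 5 → ↥(Subgroup.closure {a, b}) := fun p =>
    ⟨a ^ (p.1 : ℕ) * b ^ (p.2 : ℕ),
      Subgroup.mul_mem _ (Subgroup.pow_mem _ haH _) (Subgroup.pow_mem _ hbH _)⟩
  have hf : Function.Bijective f := by
    constructor
    · rintro ⟨i, j⟩ ⟨k, l⟩ h
      have h' : a ^ (i : ℕ) * b ^ (j : ℕ) = a ^ (k : ℕ) * b ^ (l : ℕ) := congrArg Subtype.val h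
      obtain ⟨h1, h2⟩ := hinj _ _ _ _ i.2 j.2 k.2 l.2 h'
      exact Prod.ext (Fin.ext h1) (Fin.ext h2)
    · rintro ⟨q, hq⟩
      obtain ⟨i, j, hi, hj, rfl⟩ := hform q hq
      exact ⟨(⟨i, hi⟩, ⟨j, hj⟩), rfl⟩
  rw [← Nat.card_eq_of_bijective f hf]
  simp

example : Cfsg.Agent.Lib.Helper61.T2Stmt.Card25.{u} := main

end Cfsg.Agent.Lib.Helper76.T2CARD25

#print axioms Cfsg.Agent.Lib.Helper76.T2CARD25.main
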