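import Mathlib
import Cfsg.Agent.Lib.Helper61.T2Stmt
import Cfsg.Agent.Lib.Helper76.T2CARD25

set_option autoImplicit false

/-!
helper76: piece CQ of S2197 (helper61's call): an element commuting with none of the generators
of the six subgroups of order 5 of `⟨a, b⟩` commutes with no non-identity element of `⟨a, b⟩`.
-/

namespace Cfsg.Agent.Lib.Helper76.T2CQ

universe u

theorem inv5 : ∀ i : Fin 5, i ≠ 0 → ∃ m : Fin 5, ((i : ℕ) * (m : ℕ)) % 5 = 1 := by decide

theorem main : Cfsg.Agent.Lib.Helper61.T2Stmt.CQ.{u} := by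
  intro G _ a b y ha5 hb5 hab hay hby hk' q hq hqy
  have hcomm : Commute a b := hab
  obtain ⟨i, j, hi, hj, rfl⟩ := Cfsg.Agent.Lib.Helper76.T2CARD25.form a b ha5 hb5 hab q hq
  have powq : ∀ i j m : ℕ, (a ^ i * b ^ j) ^ m = a ^ ((i * m) % 5) * b ^ ((j * m) % 5) := by
    intro i j m
    rw [(hcomm.pow_pow i j).mul_pow, ← pow_mul, ← pow_mul, pow_eq_pow_mod (i * m) ha5,
      pow_eq_pow_mod (j * m) hb5]
  have hQ : Commute (a ^ i * b ^ j) y := hqy
  by_contra hne
  by_cases hi0 : i = 0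
  · subst hi0
    have hj0 : j ≠ 0 := by
      intro hj0
      apply hne
      rw [hj0]; simp
    obtain ⟨m, hm⟩ := inv5 ⟨j, hj⟩ (by
      intro h
      apply hj0
      exact congrArg Fin.val h)
    have hm' : (j * (m : ℕ)) % 5 = 1 := hm
    have h1 : Commute ((a ^ 0 * b ^ j) ^ (m : ℕ)) y := hQ.pow_left _
    rw [powq, hm', pow_one, Nat.zero_mul, Nat.zero_mod, pow_zero, one_mul] at h1
    exact hby h1.eq
  · obtain ⟨m, hm⟩ := inv5 ⟨i, hi⟩ (by
      intro h
      apply hi0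
      exact congrArg Fin.val h)
    have hm' : (i * (m : ℕ)) % 5 = 1 := hm
    have h1 : Commute ((a ^ i * b ^ j) ^ (m : ℕ)) y := hQ.pow_left _
    rw [powq, hm', pow_one] at h1
    by_cases hk : (j * (m : ℕ)) % 5 = 0
    · rw [hk, pow_zero, mul_one] at h1
      exact hay h1.eq
    · exact hk' ((j * (m : ℕ)) % 5) (by omega) (Nat.mod_lt _ (by norm_num)) h1.eq

example : Cfsg.Agent.Lib.Helper61.T2Stmt.CQ.{u} := main

end Cfsg.Agent.Lib.Helper76.T2CQ

#print axioms Cfsg.Agent.Lib.Helper76.T2CQ.main
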